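import Mathlib
import Cfsg.Prelude.Def_Characters

/-!
# S3716: statement file (configuration, class functions, piece statements)

Setting: `T = <x> x <y>` of order 9 is a Sylow 3-subgroup, `N = N_G(T) = T : <a, b, w>` of
order 72 (`a` inverts `x` and centralizes `y`, `b` inverts `y` and centralizes `x`, `w` swaps
`x, y` and `a, b`), and `C_G(t) <= N` for every nonidentity `t` of `T`.

Four class functions `Θ1 = th1 x f`, `Θ2 = th2 x f g`, `Θ3 = th1 (x*y) f'`, `Θ4 = th2 (x*y) f' g'`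
(induced from `C_G(x)` and `C_G(x*y)`), of norm 4, vanishing off the conjugates of the elements
of order 3 and 6 of `N`.  Values on `x, x*y, x*b, x*y*w`:
`Θ1 : 3, 6, 3, 0`, `Θ2 : 3, 6, -3, 0`, `Θ3 : 6, 3, 0, 3`, `Θ4 : 6, 3, 0, -3`.
-/

set_option autoImplicit false

namespace Cfsg.Agent.Lib.Helper32.D8Stmt

open Cfsg
open scoped ComplexConjugate

universe u

/-! ## General definitions -/

/-- The trivial character. -/
def triv (G : Type u) : G → ℂ := fun _ => 1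

/-- Normalized class-pair sum: for an irreducible `χ` it equals `χ u * χ v / χ 1`. -/
noncomputable def bb {G : Type u} [Group G] [Fintype G] (Θ : G → ℂ) (u v : G) : ℂ :=
  (Nat.card G : ℂ)⁻¹ * ∑ h : G, Θ (u * (h * v * h⁻¹))

/-- Three values of `bb`. -/
def Tab {G : Type u} [Group G] [Fintype G] (Θ : G → ℂ) (a w : G) (α β γ : ℂ) : Prop :=
  bb Θ a a = α ∧ bb Θ a w = β ∧ bb Θ w w = γ

/-- The order of the centralizer, as a complex number. -/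
noncomputable def cz {G : Type u} [Group G] (u : G) : ℂ :=
  (Nat.card (Subgroup.centralizer ({u} : Set G)) : ℂ)

/-- The abstract character data. -/
structure Base {G : Type u} [Group G] [Fintype G] (Θ1 Θ2 Θ3 Θ4 : G → ℂ) (a w : G) : Prop where
  g1 : IsGeneralizedCharacter G Θ1
  g2 : IsGeneralizedCharacter G Θ2
  g3 : IsGeneralizedCharacter G Θ3
  g4 : IsGeneralizedCharacter G Θ4
  o1 : Θ1 1 = 0
  o2 : Θ2 1 = 0
  o3 : Θ3 1 = 0
  o4 : Θ4 1 = 0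
  a1 : Θ1 a = 0
  a2 : Θ2 a = 0
  a3 : Θ3 a = 0
  a4 : Θ4 a = 0
  w1 : Θ1 w = 0
  w2 : Θ2 w = 0
  w3 : Θ3 w = 0
  w4 : Θ4 w = 0
  t1 : classInner Θ1 (triv G) = 1
  t2 : classInner Θ2 (triv G) = 0
  t3 : classInner Θ3 (triv G) = 1
  t4 : classInner Θ4 (triv G) = 0
  n11 : classInner Θ1 Θ1 = 4
  n22 : classInner Θ2 Θ2 = 4
  n33 : classInner Θ3 Θ3 = 4
  n44 : classInner Θ4 Θ4 = 4
  n12 : classInner Θ1 Θ2 = 1
  n21 : classInner Θ2 Θ1 = 1
  n34 : classInner Θ3 Θ4 = 1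
  n43 : classInner Θ4 Θ3 = 1
  n13 : classInner Θ1 Θ3 = 2
  n31 : classInner Θ3 Θ1 = 2
  n14 : classInner Θ1 Θ4 = 2
  n41 : classInner Θ4 Θ1 = 2
  n23 : classInner Θ2 Θ3 = 2
  n32 : classInner Θ3 Θ2 = 2
  n24 : classInner Θ2 Θ4 = 2
  n42 : classInner Θ4 Θ2 = 2

/-- The degree congruence (restriction to `T`). -/
def Mod9 {G : Type u} [Group G] [Fintype G] (Θ1 Θ2 Θ3 Θ4 : G → ℂ) : Prop :=
  ∀ χ : G → ℂ, IsIrrCharacter G χ → ∃ k : ℤ,
    χ 1 + 4 * (classInner Θ1 χ + classInner Θ2 χ + classInner Θ3 χ + classInner Θ4 χ) = 9 * k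

/-- The `bb`-tables when `a`, `w`, `a*b` are pairwise non-conjugate. -/
def TabI {G : Type u} [Group G] [Fintype G] (Θ1 Θ2 Θ3 Θ4 : G → ℂ) (a w : G) (ca cw : ℂ) : Prop :=
  Tab Θ1 a w (ca ^ 2 / (2 * (Nat.card G : ℂ))) 0 (cw ^ 2 / (Nat.card G : ℂ)) ∧
  Tab Θ2 a w (ca ^ 2 / (2 * (Nat.card G : ℂ))) 0 (cw ^ 2 / (Nat.card G : ℂ)) ∧
  Tab Θ3 a w (ca ^ 2 / (Nat.card G : ℂ)) 0 (cw ^ 2 / (2 * (Nat.card G : ℂ))) ∧
  Tab Θ4 a w (ca ^ 2 / (Nat.card G : ℂ)) 0 (cw ^ 2 / (2 * (Nat.card G : ℂ)))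

/-- The `bb`-tables when `a ~ a*b` (and `w` is not conjugate to them). -/
def TabII {G : Type u} [Group G] [Fintype G] (Θ1 Θ2 Θ3 Θ4 : G → ℂ) (a w : G) (ca cw : ℂ) : Prop :=
  Tab Θ1 a w (8 * ca ^ 2 / (Nat.card G : ℂ)) 0 (cw ^ 2 / (Nat.card G : ℂ)) ∧
  Tab Θ2 a w (2 * ca ^ 2 / (Nat.card G : ℂ)) 0 (cw ^ 2 / (Nat.card G : ℂ)) ∧
  Tab Θ3 a w (11 * ca ^ 2 / (2 * (Nat.card G : ℂ))) (3 * ca * cw / (2 * (Nat.card G : ℂ)))
    (cw ^ 2 / (2 * (Nat.card G : ℂ))) ∧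
  Tab Θ4 a w (11 * ca ^ 2 / (2 * (Nat.card G : ℂ))) (-(3 * ca * cw / (2 * (Nat.card G : ℂ))))
    (cw ^ 2 / (2 * (Nat.card G : ℂ)))

/-! ## General character-theoretic pieces (no configuration) -/

/-- MULT4: a generalized character of norm 4 vanishing at 1 has all multiplicities in
`{0, 1, -1}` (norm 4 = sum of squares of multiplicities; `±2χ` does not vanish at 1). -/
def MULT4 : Prop := ∀ {G : Type u} [Group G] [Fintype G] (Ψ χ : G → ℂ),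
    IsGeneralizedCharacter G Ψ → Ψ 1 = 0 → classInner Ψ Ψ = 4 → IsIrrCharacter G χ →
    classInner Ψ χ = 0 ∨ classInner Ψ χ = 1 ∨ classInner Ψ χ = -1

/-- COMMON: two such with `(Ψ,1) = (Ψ',1) = 1` and `(Ψ,Ψ') = 2` have a common nontrivial
constituent with equal signs (Parseval: the trivial character contributes 1, every other
product of multiplicities is in `{0, 1, -1}`, so some product is `1`). -/
def COMMON : Prop := ∀ {G : Type u} [Group G] [Fintype G] (Ψ Ψ' : G → ℂ),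
    IsGeneralizedCharacter G Ψ → IsGeneralizedCharacter G Ψ' → Ψ 1 = 0 → Ψ' 1 = 0 →
    classInner Ψ Ψ = 4 → classInner Ψ' Ψ' = 4 →
    classInner Ψ (triv G) = 1 → classInner Ψ' (triv G) = 1 → classInner Ψ Ψ' = 2 →
    ∃ X : G → ℂ, IsIrrCharacter G X ∧ X ≠ triv G ∧
      ((classInner Ψ X = 1 ∧ classInner Ψ' X = 1) ∨
        (classInner Ψ X = -1 ∧ classInner Ψ' X = -1))

/-- COMMONNEG: same with `(Ψ,1) = 1`, `(Ψ',1) = -1`, `(Ψ,Ψ') = -2`: a common nontrivial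
constituent with opposite signs. -/
def COMMONNEG : Prop := ∀ {G : Type u} [Group G] [Fintype G] (Ψ Ψ' : G → ℂ),
    IsGeneralizedCharacter G Ψ → IsGeneralizedCharacter G Ψ' → Ψ 1 = 0 → Ψ' 1 = 0 →
    classInner Ψ Ψ = 4 → classInner Ψ' Ψ' = 4 →
    classInner Ψ (triv G) = 1 → classInner Ψ' (triv G) = -1 → classInner Ψ Ψ' = -2 →
    ∃ U : G → ℂ, IsIrrCharacter G U ∧ U ≠ triv G ∧
      ((classInner Ψ U = 1 ∧ classInner Ψ' U = -1) ∨
        (classInner Ψ U = -1 ∧ classInner Ψ' U = 1))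

/-- XM: if `(Ψ,1) = 1`, `(Ψ,X) = e`, `(Ψ',1) = 0` and `(Ψ,Ψ') = 2` then `(Ψ',X) ≠ -e`
(`Ψ` has four constituents `1, X, r, s`; `(Ψ,Ψ') ≤ 0 - 1 + 1 + 1 < 2` otherwise). -/
def XM : Prop := ∀ {G : Type u} [Group G] [Fintype G] (Ψ Ψ' X : G → ℂ) (e : ℂ),
    IsGeneralizedCharacter G Ψ → IsGeneralizedCharacter G Ψ' → Ψ 1 = 0 → Ψ' 1 = 0 →
    classInner Ψ Ψ = 4 → classInner Ψ' Ψ' = 4 →
    classInner Ψ (triv G) = 1 → classInner Ψ' (triv G) = 0 → classInner Ψ Ψ' = 2 →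
    IsIrrCharacter G X → X ≠ triv G → (e = 1 ∨ e = -1) → classInner Ψ X = e →
    classInner Ψ' X ≠ -e

/-- PAIR (the pair relation).  `Ψ = Σ ε_k χ_k` (four distinct irreducibles), `Ψ` vanishes at
`1, u, v`.  With `m_k = ε_k χ_k(1)`, `p_k = 1 - χ_k(u)/χ_k(1)`, `q_k = 1 - χ_k(v)/χ_k(1)`:
`Σ m_k = 0`, `Σ m_k p_k = 0`, `Σ m_k q_k = 0`, `bb Ψ u u = Σ m_k p_k^2`,
`bb Ψ u v = Σ m_k p_k q_k`, `bb Ψ v v = Σ m_k q_k^2` (class sums:
`Σ_h χ(u h v h⁻¹) = |G| χ(u) χ(v) / χ(1)`).  Eliminating the fourth constituent gives the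
polynomial identity
`m_1 m_2 (B_vv (p_1-p_2)^2 - 2 B_uv (p_1-p_2)(q_1-q_2) + B_uu (q_1-q_2)^2) = (m_1+m_2) det B`. -/
def PAIR : Prop := ∀ {G : Type u} [Group G] [Fintype G] (Ψ χ χ' : G → ℂ) (ε ε' : ℂ) (u v : G),
    IsGeneralizedCharacter G Ψ → Ψ 1 = 0 → classInner Ψ Ψ = 4 → Ψ u = 0 → Ψ v = 0 →
    IsIrrCharacter G χ → IsIrrCharacter G χ' → χ ≠ χ' →
    (ε = 1 ∨ ε = -1) → (ε' = 1 ∨ ε' = -1) → classInner Ψ χ = ε → classInner Ψ χ' = ε' →
    (ε * χ 1) * (ε' * χ' 1) *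
        (bb Ψ v v * (χ u / χ 1 - χ' u / χ' 1) ^ 2
          - 2 * bb Ψ u v * (χ u / χ 1 - χ' u / χ' 1) * (χ v / χ 1 - χ' v / χ' 1)
          + bb Ψ u u * (χ v / χ 1 - χ' v / χ' 1) ^ 2) =
      (ε * χ 1 + ε' * χ' 1) * (bb Ψ u u * bb Ψ v v - bb Ψ u v ^ 2)

/-- TRI.  `Φ` of norm 6 with `(Φ,1) = 1`, `(Φ,χ) = ±2` is `1 + 2εχ + ε'W`; as `Φ` vanishes at
`1, u, v`: `bb Φ u v = κ (χ 1 - χ u)(χ 1 - χ v)` with `κ = 2ε / (χ 1 (1 + 2ε χ 1)) ≠ 0`. -/
def TRI : Prop := ∀ {G : Type u} [Group G] [Fintype G] (Φ χ : G → ℂ) (u v : G),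
    IsGeneralizedCharacter G Φ → Φ 1 = 0 → classInner Φ Φ = 6 → Φ u = 0 → Φ v = 0 →
    classInner Φ (triv G) = 1 → IsIrrCharacter G χ → χ ≠ triv G →
    (classInner Φ χ = 2 ∨ classInner Φ χ = -2) →
    bb Φ u u * bb Φ v v = bb Φ u v ^ 2 ∧ (bb Φ u u = 0 → χ u = χ 1)

/-- ALG2 (pure algebra; see the board post for the branch analysis). -/
def ALG2 : Prop := ∀ (px py ux uy n : ℂ) (mX mU : ℤ), n ≠ 0 → mX % 9 = 2 → mU % 9 = 1 →
    (mX : ℂ) * (px ^ 2 + 8 * py ^ 2) * n = 8 * (1 + mX) →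
    (mX : ℂ) * (px ^ 2 - 6 * px * py + 11 * py ^ 2) * n = 1 + mX →
    (mX : ℂ) * mU * ((ux - px) ^ 2 + 2 * (uy - py) ^ 2) * n = 2 * (mX + mU) →
    (mX : ℂ) * mU * ((ux - px) ^ 2 + 6 * (ux - px) * (uy - py) + 11 * (uy - py) ^ 2) * n
      = mX + mU →
    (mU : ℂ) * (ux ^ 2 - 6 * ux * uy + 5 * uy ^ 2) * n = 2 * (1 - mU) →
    (mU : ℂ) * (ux ^ 2 + 6 * ux * uy - 7 * uy ^ 2) * n = -8 * (1 - mU) →
    mU = 1

/-- ALGB (pure algebra). -/
def ALGB : Prop := ∀ (ux uy n μ : ℂ), n ≠ 0 → μ ≠ 0 →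
    μ * (ux ^ 2 + 8 * uy ^ 2) * n = 8 * (1 + μ) →
    μ * (ux ^ 2 - 6 * ux * uy + 11 * uy ^ 2) * n = 1 + μ →
    μ * (ux ^ 2 - 6 * ux * uy + 5 * uy ^ 2) * n = -2 * (1 + μ) →
    μ * (ux ^ 2 + 6 * ux * uy - 7 * uy ^ 2) * n = 8 * (1 + μ) →
    μ = -1

/-- BBINV: `bb` of a class function is symmetric and invariant under conjugation. -/
def BBINV : Prop := ∀ {G : Type u} [Group G] [Fintype G] (Θ : G → ℂ), IsClassFunction G Θ →
    ∀ u v k : G, bb Θ u v = bb Θ v u ∧ bb Θ (k * u * k⁻¹) v = bb Θ u v ∧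
      bb Θ u (k * v * k⁻¹) = bb Θ u v

/-- PAIRSUM2: the class-pair sum of an induced function as a double sum. -/
def PAIRSUM2 : Prop := ∀ {G : Type u} [Group G] [Fintype G] (H : Subgroup G) (θ : H → ℂ)
    (u v : G),
    ∑ h : G, indFun H θ (u * (h * v * h⁻¹)) =
      (Nat.card H : ℂ)⁻¹ * ∑ g₁ : G, ∑ g₂ : G,
        extendByZero H θ ((g₁ * u * g₁⁻¹) * (g₂ * v * g₂⁻¹))

open Classical in
/-- FIB2b: a double sum over conjugators is `|C(u)| |C(v)|` times the sum over the classes. -/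
def FIB2b : Prop := ∀ {G : Type u} [Group G] [Fintype G] (F : G → G → ℂ) (u v : G),
    ∑ g₁ : G, ∑ g₂ : G, F (g₁ * u * g₁⁻¹) (g₂ * v * g₂⁻¹) =
      cz u * cz v *
        ∑ u₁ ∈ Finset.univ.filter (fun z : G => IsConj u z),
          ∑ u₂ ∈ Finset.univ.filter (fun z : G => IsConj v z), F u₁ u₂

/-- CASE1: no fusion.  `Ψ1 = Θ1 - Θ4`, `Ψ2 = Θ2 - Θ3` have norm 4, `(Ψ1,1) = 1`,
`(Ψ2,1) = -1`, `(Ψ1,Ψ2) = -2`: COMMONNEG gives `U` with `(Ψ1,U) = σ`, `(Ψ2,U) = -σ`.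
`bb Ψ1 = bb Ψ2` (entries `-ca^2/(2n), 0, cw^2/(2n)`), so PAIR for `(triv, U)` in `Ψ1` and in
`Ψ2` (signs `(1, σ)` and `(-1, -σ)`) gives `(1 + σ U(1)) det = -(1 + σ U(1)) det`, `det ≠ 0`,
hence `σ U(1) = -1` and `U(1) = 1`. -/
def CASE1 : Prop := ∀ {G : Type u} [Group G] [Fintype G] (Θ1 Θ2 Θ3 Θ4 : G → ℂ) (a w : G)
    (ca cw : ℂ), Base Θ1 Θ2 Θ3 Θ4 a w → ca ≠ 0 → cw ≠ 0 → TabI Θ1 Θ2 Θ3 Θ4 a w ca cw →
    ∃ χ : G → ℂ, IsIrrCharacter G χ ∧ χ ≠ triv G ∧ χ 1 = 1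

/-- C2A (fusion `a ~ a*b`, the main case): `X` in all four `Θi` with sign `e`, `U` in
`Θ2, Θ4` with sign `s`.  PAIR six times: `(triv,X)` in `Θ1`, `Θ3`; `(X,U)` in `Θ2`, `Θ4`;
`(triv,U)` in `Θ1 - Θ4` (signs `1, -s`) and `Θ2 - Θ3` (signs `-1, s`).  Put
`px = (1 - X a / X 1)/ca`, `py = (1 - X w / X 1)/cw`, same `ux, uy` for `U`, `mX = e X(1)`,
`mU = s U(1)`; Mod9 gives `mX ≡ 2`, `mU ≡ 1 (mod 9)`; then ALG2. -/
def C2A : Prop := ∀ {G : Type u} [Group G] [Fintype G] (Θ1 Θ2 Θ3 Θ4 : G → ℂ) (a w : G)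
    (ca cw : ℂ), Base Θ1 Θ2 Θ3 Θ4 a w → ca ≠ 0 → cw ≠ 0 → Mod9 Θ1 Θ2 Θ3 Θ4 →
    TabII Θ1 Θ2 Θ3 Θ4 a w ca cw →
    ∀ (X U : G → ℂ) (e s : ℂ), IsIrrCharacter G X → IsIrrCharacter G U → X ≠ triv G →
    U ≠ triv G → (e = 1 ∨ e = -1) → (s = 1 ∨ s = -1) →
    classInner Θ1 X = e → classInner Θ2 X = e → classInner Θ3 X = e → classInner Θ4 X = e →
    classInner Θ1 U = 0 → classInner Θ2 U = s → classInner Θ3 U = 0 → classInner Θ4 U = s →
    U 1 = 1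

/-- C2B: `U` in `Θ1, Θ3` with sign `σ`, not in `Θ2, Θ4`.  PAIR for `(triv,U)` in `Θ1`, `Θ3`,
`Θ1 - Θ4` (signs `1, σ`), `Θ2 - Θ3` (signs `-1, -σ`), then ALGB with `μ = σ U(1)`. -/
def C2B : Prop := ∀ {G : Type u} [Group G] [Fintype G] (Θ1 Θ2 Θ3 Θ4 : G → ℂ) (a w : G)
    (ca cw : ℂ), Base Θ1 Θ2 Θ3 Θ4 a w → ca ≠ 0 → cw ≠ 0 → TabII Θ1 Θ2 Θ3 Θ4 a w ca cw →
    ∀ (U : G → ℂ) (σ : ℂ), IsIrrCharacter G U → U ≠ triv G → (σ = 1 ∨ σ = -1) →
    classInner Θ1 U = σ → classInner Θ2 U = 0 → classInner Θ3 U = σ → classInner Θ4 U = 0 →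
    U 1 = 1

/-- C2T: the four uses of TRI (norm 6 functions `Θ1 - Θ2`, `Θ3 - Θ4`, `Θ3 + Θ4 - Θ2`,
`Θ1 + Θ2 - Θ4`; in the last one `bb` has nonzero determinant). -/
def C2T : Prop := ∀ {G : Type u} [Group G] [Fintype G] (Θ1 Θ2 Θ3 Θ4 : G → ℂ) (a w : G)
    (ca cw : ℂ), Base Θ1 Θ2 Θ3 Θ4 a w → ca ≠ 0 → cw ≠ 0 → TabII Θ1 Θ2 Θ3 Θ4 a w ca cw →
    ∀ (U : G → ℂ) (σ : ℂ), IsIrrCharacter G U → U ≠ triv G → (σ = 1 ∨ σ = -1) →
    (classInner Θ1 U = σ → classInner Θ2 U = -σ → U w = U 1) ∧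
    (classInner Θ3 U = σ → classInner Θ4 U = -σ → U a = U 1) ∧
    (classInner Θ1 U = σ → classInner Θ2 U = 0 → classInner Θ3 U = σ →
      classInner Θ4 U = σ → U w = U 1) ∧
    (classInner Θ1 U = σ → classInner Θ2 U = σ → classInner Θ3 U = σ →
      classInner Θ4 U = 0 → False)

/-- CASE2 (fusion `a ~ a*b`): from MULT4, COMMON, COMMONNEG, XM, C2A, C2B, C2T.
`U` from COMMONNEG for `Θ1 - Θ4`, `Θ2 - Θ3`; its multiplicities `m = ((Θi,U))` satisfy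
`m1 - m4 = σ`, `m2 - m3 = -σ`: `(σ,-σ,0,0)` (C2T.1), `(σ,0,σ,0)` (C2B), `(0,0,σ,-σ)` (C2T.2),
or `(0,-σ,0,-σ)`.  In the last case take `X` from COMMON for `Θ1, Θ3` (sign `e`); by XM
`(Θ2,X), (Θ4,X) ∈ {0, e}`: `(e,e)`: C2A; `(0,e)`: C2T.3; `(e,0)`: C2T.4; `(0,0)`: C2B. -/
def CASE2 : Prop := ∀ {G : Type u} [Group G] [Fintype G] (Θ1 Θ2 Θ3 Θ4 : G → ℂ) (a w : G)
    (ca cw : ℂ), Base Θ1 Θ2 Θ3 Θ4 a w → ca ≠ 0 → cw ≠ 0 → Mod9 Θ1 Θ2 Θ3 Θ4 →
    TabII Θ1 Θ2 Θ3 Θ4 a w ca cw →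
    ∃ χ : G → ℂ, IsIrrCharacter G χ ∧ χ ≠ triv G ∧ (χ 1 = 1 ∨ χ a = χ 1 ∨ χ w = χ 1)

/-- LIN: a simple group of order divisible by 9 has no nontrivial linear character. -/
def LIN : Prop := ∀ {G : Type u} [Group G] [Fintype G], IsSimpleGroup G → 9 ∣ Nat.card G →
    ∀ χ : G → ℂ, IsIrrCharacter G χ → χ 1 = 1 → χ = triv G

/-- KER: in a simple group a nontrivial irreducible character has trivial kernel. -/
def KER : Prop := ∀ {G : Type u} [Group G] [Fintype G], IsSimpleGroup G →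
    ∀ χ : G → ℂ, IsIrrCharacter G χ → ∀ u : G, u ≠ 1 → χ u = χ 1 → χ = triv G

/-! ## The configuration -/

/-- The configuration. -/
structure Cfg {G : Type u} [Group G] (T N : Subgroup G) (x y a b w : G) : Prop where
  x3 : x ^ 3 = 1
  y3 : y ^ 3 = 1
  a2 : a ^ 2 = 1
  b2 : b ^ 2 = 1
  w2 : w ^ 2 = 1
  xy : x * y = y * x
  ab : a * b = b * a
  ax : a * x * a⁻¹ = x⁻¹
  ay : a * y = y * a
  bx : b * x = x * b
  by_ : b * y * b⁻¹ = y⁻¹
  wx : w * x * w⁻¹ = y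
  wa : w * a * w⁻¹ = b
  x1 : x ≠ 1
  yx : y ∉ Subgroup.zpowers x
  xT : x ∈ T
  yT : y ∈ T
  cardT : Nat.card T = 9
  TN : T ≤ N
  aN : a ∈ N
  bN : b ∈ N
  wN : w ∈ N
  cardN : Nat.card N = 72
  nT : ∀ n ∈ N, ∀ t ∈ T, n * t * n⁻¹ ∈ T
  norm : ∀ g, (∀ t ∈ T, g * t * g⁻¹ ∈ T) → g ∈ N
  loc : ∀ t ∈ T, t ≠ 1 → ∀ g, g * t = t * g → g ∈ N
  syl : ¬ 27 ∣ Nat.card G

/-- Linear characters `f, g` of `C_G(x) = <x> x <y, b>`: `f` is nontrivial at `x` and trivial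
at `y, b`; `g` is the sign character (trivial at `x, y`, `-1` at `b`). -/
structure Om2 {G : Type u} [Group G] (x y b : G)
    (f g : Subgroup.centralizer ({x} : Set G) →* ℂˣ) : Prop where
  fx : ∀ h : x ∈ Subgroup.centralizer ({x} : Set G), f ⟨x, h⟩ ≠ 1
  fy : ∀ h : y ∈ Subgroup.centralizer ({x} : Set G), f ⟨y, h⟩ = 1
  fb : ∀ h : b ∈ Subgroup.centralizer ({x} : Set G), f ⟨b, h⟩ = 1
  gx : ∀ h : x ∈ Subgroup.centralizer ({x} : Set G), g ⟨x, h⟩ = 1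
  gy : ∀ h : y ∈ Subgroup.centralizer ({x} : Set G), g ⟨y, h⟩ = 1
  gb : ∀ h : b ∈ Subgroup.centralizer ({x} : Set G), g ⟨b, h⟩ = -1

/-- `1 - f` on `C_G(x)`. -/
noncomputable def ph1 {G : Type u} [Group G] (x : G)
    (f : Subgroup.centralizer ({x} : Set G) →* ℂˣ) :
    Subgroup.centralizer ({x} : Set G) → ℂ :=
  fun h => 1 - ((f h : ℂˣ) : ℂ)

/-- `g - f * g` on `C_G(x)`. -/
noncomputable def ph2 {G : Type u} [Group G] (x : G)
    (f g : Subgroup.centralizer ({x} : Set G) →* ℂˣ) :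
    Subgroup.centralizer ({x} : Set G) → ℂ :=
  fun h => ((g h : ℂˣ) : ℂ) - ((f h : ℂˣ) : ℂ) * ((g h : ℂˣ) : ℂ)

/-- `1 - f` induced to `G`. -/
noncomputable def th1 {G : Type u} [Group G] [Fintype G] (x : G)
    (f : Subgroup.centralizer ({x} : Set G) →* ℂˣ) : G → ℂ :=
  indFun (Subgroup.centralizer ({x} : Set G)) (ph1 x f)

/-- `g - f * g` induced to `G`. -/
noncomputable def th2 {G : Type u} [Group G] [Fintype G] (x : G)
    (f g : Subgroup.centralizer ({x} : Set G) →* ℂˣ) : G → ℂ :=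
  indFun (Subgroup.centralizer ({x} : Set G)) (ph2 x f g)

open Classical in
/-- The `N`-class of `c`. -/
noncomputable def ncl {G : Type u} [Group G] [Fintype G] (N : Subgroup G) (c : G) : Finset G :=
  Finset.univ.filter (fun v : G => ∃ n ∈ N, v = n * c * n⁻¹)

/-- Local pair sum over two `N`-classes. -/
noncomputable def lsum {G : Type u} [Group G] [Fintype G] (N H : Subgroup G) (φ : H → ℂ)
    (c d : G) : ℂ :=
  ∑ u₁ ∈ ncl N c, ∑ u₂ ∈ ncl N d, extendByZero H φ (u₁ * u₂)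

/-- The two local pair sums (for `ph1` and `ph2`). -/
def LocP {G : Type u} [Group G] [Fintype G] (N : Subgroup G) (x : G)
    (f g : Subgroup.centralizer ({x} : Set G) →* ℂˣ) (c d : G) (v₁ v₂ : ℂ) : Prop :=
  lsum N (Subgroup.centralizer ({x} : Set G)) (ph1 x f) c d = v₁ ∧
    lsum N (Subgroup.centralizer ({x} : Set G)) (ph2 x f g) c d = v₂

/-! ## Group-theoretic pieces -/

/-- CFGA: `|N| = 72`.  (A prime `p ≥ 5` dividing `|N|` gives an element of order `p` of `N`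
acting on the 9 elements of `M`; the fixed points form a subgroup of order `≡ 9 (mod p)`, so
of order 9, and the element centralizes `M`, so lies in `M`: absurd.  The 3-part is 9 as `M`
is Sylow, the 2-part is 8 by the hypothesis on Sylow 2-subgroups.) -/
def CFGA : Prop := ∀ {G : Type u} [Group G] [Finite G] (M : Sylow 3 G),
    Nat.card ↥(M : Subgroup G) = 9 → (∀ m ∈ (M : Subgroup G), m ^ 3 = 1) →
    Subgroup.centralizer ((M : Subgroup G) : Set G) = (M : Subgroup G) →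
    ∀ N : Subgroup G, N = Subgroup.normalizer ((M : Subgroup G) : Set G) →
    (∀ g ∈ (M : Subgroup G), g ≠ 1 → Subgroup.centralizer ({g} : Set G) ≤ N) →
    (∀ S : Sylow 2 ↥N, Nonempty (↥(S : Subgroup ↥N) ≃* DihedralGroup 4)) →
    Nat.card N = 72

/-- CFGB: the configuration.  A Sylow 2-subgroup `D = <r, s>` of `N` (dihedral of order 8)
acts faithfully on `M`.  No non-central involution of `D` inverts `M`, and `r^2` does not fix a
nonidentity element (else `D` would fix its two eigenlines and be abelian): `r^2` inverts `M`.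
`s` centralizes some `x ≠ 1` of `M`; `y := r x r⁻¹` is centralized by `s r^2` and inverted by
`s`.  Take `a := s r^2`, `b := s`, and `w := s r` or `s r^3` (after replacing `y` by `y⁻¹` if
needed, `w x w⁻¹ = y`, `w a w⁻¹ = b`). -/
def CFGB : Prop := ∀ {G : Type u} [Group G] [Finite G] (M : Sylow 3 G),
    Nat.card ↥(M : Subgroup G) = 9 → (∀ m ∈ (M : Subgroup G), m ^ 3 = 1) →
    Subgroup.centralizer ((M : Subgroup G) : Set G) = (M : Subgroup G) →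
    ∀ N : Subgroup G, N = Subgroup.normalizer ((M : Subgroup G) : Set G) →
    (∀ g ∈ (M : Subgroup G), g ≠ 1 → Subgroup.centralizer ({g} : Set G) ≤ N) →
    (∀ S : Sylow 2 ↥N, Nonempty (↥(S : Subgroup ↥N) ≃* DihedralGroup 4)) →
    Nat.card N = 72 →
    ∃ x y a b w : G, Cfg (M : Subgroup G) N x y a b w

/-- DUAL: the configuration is symmetric under `x ↦ x*y`, `y ↦ x*y⁻¹`, `a ↦ w*a*b`, `b ↦ w`,
`w ↦ b` (this swaps the two classes of elements of order 3 and the classes of `a` and `w`). -/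
def DUAL : Prop := ∀ {G : Type u} [Group G] [Finite G] {T N : Subgroup G} {x y a b w : G},
    Cfg T N x y a b w →
    Cfg T N (x * y) (x * y⁻¹) (w * a * b) w b ∧ w * a * b = a * w * a⁻¹ ∧
      w * a * b * w = a * b ∧ b = w * a * w⁻¹ ∧ a ≠ 1 ∧ w ≠ 1

/-- NF (toolkit): normal form `x^i y^j a^k b^l w^m` in `N`, product rule, `C_G(x)`, values of
`f, g`, `|C_G(x)| = 18`. -/
def NF : Prop := ∀ {G : Type u} [Group G] [Finite G] {T N : Subgroup G} {x y a b w : G},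
    Cfg T N x y a b w →
    (∀ g, g ∈ T ↔ ∃ i j : ℕ, g = x ^ i * y ^ j) ∧
    (∀ g, g ∈ N ↔ ∃ i j k l m : ℕ, g = x ^ i * y ^ j * a ^ k * b ^ l * w ^ m) ∧
    (∀ i j k l m i' j' k' l' m' : ℕ,
      x ^ i * y ^ j * a ^ k * b ^ l * w ^ m = x ^ i' * y ^ j' * a ^ k' * b ^ l' * w ^ m' →
      i % 3 = i' % 3 ∧ j % 3 = j' % 3 ∧ k % 2 = k' % 2 ∧ l % 2 = l' % 2 ∧ m % 2 = m' % 2) ∧
    (∀ i j k l m i' j' k' l' m' : ℕ,
      (x ^ i * y ^ j * a ^ k * b ^ l * w ^ m) * (x ^ i' * y ^ j' * a ^ k' * b ^ l' * w ^ m') =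
        if m % 2 = 0 then
          x ^ (i + (if k % 2 = 0 then i' else 2 * i')) *
            y ^ (j + (if l % 2 = 0 then j' else 2 * j')) * a ^ (k + k') * b ^ (l + l') *
              w ^ (m + m')
        else
          x ^ (i + (if k % 2 = 0 then j' else 2 * j')) *
            y ^ (j + (if l % 2 = 0 then i' else 2 * i')) * a ^ (k + l') * b ^ (l + k') *
              w ^ (m + m')) ∧
    (∀ g, g ∈ Subgroup.centralizer ({x} : Set G) ↔ ∃ i j l : ℕ, g = x ^ i * y ^ j * b ^ l) ∧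
    (∀ f g : Subgroup.centralizer ({x} : Set G) →* ℂˣ, Om2 x y b f g →
      ∀ (i j l : ℕ) (h : x ^ i * y ^ j * b ^ l ∈ Subgroup.centralizer ({x} : Set G))
        (hx : x ∈ Subgroup.centralizer ({x} : Set G)),
        f ⟨x ^ i * y ^ j * b ^ l, h⟩ = f ⟨x, hx⟩ ^ i ∧
          ((g ⟨x ^ i * y ^ j * b ^ l, h⟩ : ℂˣ) : ℂ) = (-1) ^ l) ∧
    Nat.card (Subgroup.centralizer ({x} : Set G)) = 18

/-- TI: `T` is a TI-subgroup with normalizer `N`. -/
def TI : Prop := ∀ {G : Type u} [Group G] [Finite G] {T N : Subgroup G} {x y a b w : G},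
    Cfg T N x y a b w → ∀ g t : G, t ∈ T → t ≠ 1 → g * t * g⁻¹ ∈ T → g ∈ N

/-- NOFUS: `a` and `w` are not conjugate in `G`.  (`9 ∤ |C_G(a)|`, so `<y>` is a Sylow
3-subgroup of `C_G(a)` and `<x*y>` one of `C_G(w)`; if `a ~ w` then `y ~ (x*y)^±1` in `G`,
hence in `N` by TI, against the normal form.) -/
def NOFUS : Prop := ∀ {G : Type u} [Group G] [Finite G] {T N : Subgroup G} {x y a b w : G},
    Cfg T N x y a b w → ¬ IsConj a w

/-- INVCL: the involutions of `N` are `N`-conjugate to `a`, `w` or `a * b`. -/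
def INVCL : Prop := ∀ {G : Type u} [Group G] [Finite G] {T N : Subgroup G} {x y a b w : G},
    Cfg T N x y a b w → ∀ u ∈ N, u ^ 2 = 1 →
      u = 1 ∨ (∃ n ∈ N, u = n * a * n⁻¹) ∨ (∃ n ∈ N, u = n * w * n⁻¹) ∨
        (∃ n ∈ N, u = n * (a * b) * n⁻¹)

/-- OMEGA2: the linear characters exist. -/
def OMEGA2 : Prop := ∀ {G : Type u} [Group G] [Finite G] {T N : Subgroup G} {x y a b w : G},
    Cfg T N x y a b w → ∃ f g : Subgroup.centralizer ({x} : Set G) →* ℂˣ, Om2 x y b f g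

/-- RED2: if a product of two elements of order at most 2 lies in the support of `ph1` or
`ph2` (elements `x^i y^j b^l`, `3 ∤ i`), both lie in `N` (they invert a nonidentity element
of `T`; use TI). -/
def RED2 : Prop := ∀ {G : Type u} [Group G] [Finite G] {T N : Subgroup G} {x y a b w : G},
    Cfg T N x y a b w → ∀ f g : Subgroup.centralizer ({x} : Set G) →* ℂˣ, Om2 x y b f g →
    ∀ u₁ u₂ : G, u₁ ^ 2 = 1 → u₂ ^ 2 = 1 →
      (extendByZero (Subgroup.centralizer ({x} : Set G)) (ph1 x f) (u₁ * u₂) ≠ 0 ∨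
        extendByZero (Subgroup.centralizer ({x} : Set G)) (ph2 x f g) (u₁ * u₂) ≠ 0) →
      u₁ ∈ N ∧ u₂ ∈ N

/-! ## Character-theoretic pieces in the configuration (the `x`-side; the `x*y`-side is the
`x`-side of the dual configuration) -/

/-- GENCH: `th1`, `th2` are generalized characters (differences of induced linear
characters). -/
def GENCH : Prop := ∀ {G : Type u} [Group G] [Fintype G] (x : G)
    (f g : Subgroup.centralizer ({x} : Set G) →* ℂˣ),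
    IsGeneralizedCharacter G (th1 x f) ∧ IsGeneralizedCharacter G (th2 x f g)

/-- ZERO: `th1`, `th2` vanish at elements of order at most 2. -/
def ZERO : Prop := ∀ {G : Type u} [Group G] [Fintype G] {T N : Subgroup G} {x y a b w : G},
    Cfg T N x y a b w → ∀ f g : Subgroup.centralizer ({x} : Set G) →* ℂˣ, Om2 x y b f g →
    ∀ u : G, u ^ 2 = 1 → th1 x f u = 0 ∧ th2 x f g u = 0

/-- VALA: values of `th1`. -/
def VALA : Prop := ∀ {G : Type u} [Group G] [Fintype G] {T N : Subgroup G} {x y a b w : G},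
    Cfg T N x y a b w → ∀ f g : Subgroup.centralizer ({x} : Set G) →* ℂˣ, Om2 x y b f g →
    th1 x f x = 3 ∧ th1 x f (x * y) = 6 ∧ th1 x f (x * b) = 3 ∧ th1 x f (x * y * w) = 0

/-- VALB: values of `th2`. -/
def VALB : Prop := ∀ {G : Type u} [Group G] [Fintype G] {T N : Subgroup G} {x y a b w : G},
    Cfg T N x y a b w → ∀ f g : Subgroup.centralizer ({x} : Set G) →* ℂˣ, Om2 x y b f g →
    th2 x f g x = 3 ∧ th2 x f g (x * y) = 6 ∧ th2 x f g (x * b) = -3 ∧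
      th2 x f g (x * y * w) = 0

/-- IP: inner products with a class function (Frobenius reciprocity on `C_G(x)`). -/
def IP : Prop := ∀ {G : Type u} [Group G] [Fintype G] {T N : Subgroup G} {x y a b w : G},
    Cfg T N x y a b w → ∀ f g : Subgroup.centralizer ({x} : Set G) →* ℂˣ, Om2 x y b f g →
    ∀ X : G → ℂ, IsClassFunction G X →
      classInner (th1 x f) X = (conj (X x) + 2 * conj (X (x * y)) + 3 * conj (X (x * b))) / 6 ∧
      classInner (th2 x f g) X =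
        (conj (X x) + 2 * conj (X (x * y)) - 3 * conj (X (x * b))) / 6

/-- GRAMX: the Gram matrix of the `x`-side (from IP, VALA, VALB). -/
def GRAMX : Prop := ∀ {G : Type u} [Group G] [Fintype G] {T N : Subgroup G} {x y a b w : G},
    Cfg T N x y a b w → ∀ f g : Subgroup.centralizer ({x} : Set G) →* ℂˣ, Om2 x y b f g →
    classInner (th1 x f) (th1 x f) = 4 ∧ classInner (th2 x f g) (th2 x f g) = 4 ∧
    classInner (th1 x f) (th2 x f g) = 1 ∧ classInner (th2 x f g) (th1 x f) = 1 ∧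
    classInner (th1 x f) (triv G) = 1 ∧ classInner (th2 x f g) (triv G) = 0

/-- VALD: values of the `x*y`-side functions at `x`, `x*y`, `x*b` (VALA, VALB for the dual
configuration, moved by conjugation: `(x*y)*(x*y⁻¹) = x⁻¹ ~ x`, `(x*y)*(x*y⁻¹)*b ~ x*b`). -/
def VALD : Prop := ∀ {G : Type u} [Group G] [Fintype G] {T N : Subgroup G} {x y a b w : G},
    Cfg T N x y a b w →
    ∀ f' g' : Subgroup.centralizer ({x * y} : Set G) →* ℂˣ, Om2 (x * y) (x * y⁻¹) w f' g' →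
    th1 (x * y) f' x = 6 ∧ th1 (x * y) f' (x * y) = 3 ∧ th1 (x * y) f' (x * b) = 0 ∧
    th2 (x * y) f' g' x = 6 ∧ th2 (x * y) f' g' (x * y) = 3 ∧ th2 (x * y) f' g' (x * b) = 0

/-- CROSS: the mixed inner products (IP on one side, values of the other side). -/
def CROSS : Prop := ∀ {G : Type u} [Group G] [Fintype G] {T N : Subgroup G} {x y a b w : G},
    Cfg T N x y a b w → ∀ f g : Subgroup.centralizer ({x} : Set G) →* ℂˣ, Om2 x y b f g →
    ∀ f' g' : Subgroup.centralizer ({x * y} : Set G) →* ℂˣ, Om2 (x * y) (x * y⁻¹) w f' g' →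
    classInner (th1 x f) (th1 (x * y) f') = 2 ∧ classInner (th1 (x * y) f') (th1 x f) = 2 ∧
    classInner (th1 x f) (th2 (x * y) f' g') = 2 ∧
    classInner (th2 (x * y) f' g') (th1 x f) = 2 ∧
    classInner (th2 x f g) (th1 (x * y) f') = 2 ∧
    classInner (th1 (x * y) f') (th2 x f g) = 2 ∧
    classInner (th2 x f g) (th2 (x * y) f' g') = 2 ∧
    classInner (th2 (x * y) f' g') (th2 x f g) = 2

/-- MOD9: by IP (both sides) the four multiplicities of `χ` add up to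
`conj (χ x) + conj (χ (x*y))`, and `χ 1 + 4 χ x + 4 χ (x*y)` is 9 times the multiplicity of
the trivial character in the restriction of `χ` to `T` (`χ x`, `χ (x*y)` are real). -/
def MOD9 : Prop := ∀ {G : Type u} [Group G] [Fintype G] {T N : Subgroup G} {x y a b w : G},
    Cfg T N x y a b w → ∀ f g : Subgroup.centralizer ({x} : Set G) →* ℂˣ, Om2 x y b f g →
    ∀ f' g' : Subgroup.centralizer ({x * y} : Set G) →* ℂˣ, Om2 (x * y) (x * y⁻¹) w f' g' →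
    Mod9 (th1 x f) (th2 x f g) (th1 (x * y) f') (th2 (x * y) f' g')

/-! ### Local pair sums (inside `N`; normal form computations) -/

/-- LOCaa. -/
def LOCaa : Prop := ∀ {G : Type u} [Group G] [Fintype G] {T N : Subgroup G} {x y a b w : G},
    Cfg T N x y a b w → ∀ f g : Subgroup.centralizer ({x} : Set G) →* ℂˣ, Om2 x y b f g →
    LocP N x f g a a 9 9

/-- LOCaw. -/
def LOCaw : Prop := ∀ {G : Type u} [Group G] [Fintype G] {T N : Subgroup G} {x y a b w : G},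
    Cfg T N x y a b w → ∀ f g : Subgroup.centralizer ({x} : Set G) →* ℂˣ, Om2 x y b f g →
    LocP N x f g a w 0 0

/-- LOCww. -/
def LOCww : Prop := ∀ {G : Type u} [Group G] [Fintype G] {T N : Subgroup G} {x y a b w : G},
    Cfg T N x y a b w → ∀ f g : Subgroup.centralizer ({x} : Set G) →* ℂˣ, Om2 x y b f g →
    LocP N x f g w w 18 18

/-- LOCaz. -/
def LOCaz : Prop := ∀ {G : Type u} [Group G] [Fintype G] {T N : Subgroup G} {x y a b w : G},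
    Cfg T N x y a b w → ∀ f g : Subgroup.centralizer ({x} : Set G) →* ℂˣ, Om2 x y b f g →
    LocP N x f g a (a * b) 27 (-27)

/-- LOCza. -/
def LOCza : Prop := ∀ {G : Type u} [Group G] [Fintype G] {T N : Subgroup G} {x y a b w : G},
    Cfg T N x y a b w → ∀ f g : Subgroup.centralizer ({x} : Set G) →* ℂˣ, Om2 x y b f g →
    LocP N x f g (a * b) a 27 (-27)

/-- LOCzz. -/
def LOCzz : Prop := ∀ {G : Type u} [Group G] [Fintype G] {T N : Subgroup G} {x y a b w : G},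
    Cfg T N x y a b w → ∀ f g : Subgroup.centralizer ({x} : Set G) →* ℂˣ, Om2 x y b f g →
    LocP N x f g (a * b) (a * b) 81 81

/-- LOCzw. -/
def LOCzw : Prop := ∀ {G : Type u} [Group G] [Fintype G] {T N : Subgroup G} {x y a b w : G},
    Cfg T N x y a b w → ∀ f g : Subgroup.centralizer ({x} : Set G) →* ℂˣ, Om2 x y b f g →
    LocP N x f g (a * b) w 0 0

/-- LOCwz. -/
def LOCwz : Prop := ∀ {G : Type u} [Group G] [Fintype G] {T N : Subgroup G} {x y a b w : G},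
    Cfg T N x y a b w → ∀ f g : Subgroup.centralizer ({x} : Set G) →* ℂˣ, Om2 x y b f g →
    LocP N x f g w (a * b) 0 0

/-! ### Class-pair sums in `G` (PAIRSUM2, FIB2b, RED2, INVCL, LOC, `|C_G(x)| = 18`) -/

/-- CS1: no fusion. -/
def CS1 : Prop := ∀ {G : Type u} [Group G] [Fintype G] {T N : Subgroup G} {x y a b w : G},
    Cfg T N x y a b w → ∀ f g : Subgroup.centralizer ({x} : Set G) →* ℂˣ, Om2 x y b f g →
    ¬ IsConj a w → ¬ IsConj a (a * b) → ¬ IsConj w (a * b) →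
    Tab (th1 x f) a w (cz a ^ 2 / (2 * (Nat.card G : ℂ))) 0 (cz w ^ 2 / (Nat.card G : ℂ)) ∧
    Tab (th2 x f g) a w (cz a ^ 2 / (2 * (Nat.card G : ℂ))) 0 (cz w ^ 2 / (Nat.card G : ℂ))

/-- CS2: `a ~ a*b`. -/
def CS2 : Prop := ∀ {G : Type u} [Group G] [Fintype G] {T N : Subgroup G} {x y a b w : G},
    Cfg T N x y a b w → ∀ f g : Subgroup.centralizer ({x} : Set G) →* ℂˣ, Om2 x y b f g →
    ¬ IsConj a w → IsConj a (a * b) →
    Tab (th1 x f) a w (8 * cz a ^ 2 / (Nat.card G : ℂ)) 0 (cz w ^ 2 / (Nat.card G : ℂ)) ∧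
    Tab (th2 x f g) a w (2 * cz a ^ 2 / (Nat.card G : ℂ)) 0 (cz w ^ 2 / (Nat.card G : ℂ))

/-- CS3: `w ~ a*b`. -/
def CS3 : Prop := ∀ {G : Type u} [Group G] [Fintype G] {T N : Subgroup G} {x y a b w : G},
    Cfg T N x y a b w → ∀ f g : Subgroup.centralizer ({x} : Set G) →* ℂˣ, Om2 x y b f g →
    ¬ IsConj a w → IsConj w (a * b) →
    Tab (th1 x f) a w (cz a ^ 2 / (2 * (Nat.card G : ℂ)))
      (3 * cz a * cz w / (2 * (Nat.card G : ℂ))) (11 * cz w ^ 2 / (2 * (Nat.card G : ℂ))) ∧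
    Tab (th2 x f g) a w (cz a ^ 2 / (2 * (Nat.card G : ℂ)))
      (-(3 * cz a * cz w / (2 * (Nat.card G : ℂ)))) (11 * cz w ^ 2 / (2 * (Nat.card G : ℂ)))

/-- CSD1: the `x*y`-side, no fusion (CS1 for the dual configuration, BBINV, DUAL:
`w*a*b = a*w*a⁻¹`, `b = w*a*w⁻¹`). -/
def CSD1 : Prop := ∀ {G : Type u} [Group G] [Fintype G] {T N : Subgroup G} {x y a b w : G},
    Cfg T N x y a b w →
    ∀ f' g' : Subgroup.centralizer ({x * y} : Set G) →* ℂˣ, Om2 (x * y) (x * y⁻¹) w f' g' →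
    ¬ IsConj a w → ¬ IsConj a (a * b) → ¬ IsConj w (a * b) →
    Tab (th1 (x * y) f') a w (cz a ^ 2 / (Nat.card G : ℂ)) 0
      (cz w ^ 2 / (2 * (Nat.card G : ℂ))) ∧
    Tab (th2 (x * y) f' g') a w (cz a ^ 2 / (Nat.card G : ℂ)) 0
      (cz w ^ 2 / (2 * (Nat.card G : ℂ)))

/-- CSD2: the `x*y`-side when `a ~ a*b` (CS3 for the dual configuration, whose `w' = b ~ a`
is conjugate to `a' * b' = a * b`). -/
def CSD2 : Prop := ∀ {G : Type u} [Group G] [Fintype G] {T N : Subgroup G} {x y a b w : G},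
    Cfg T N x y a b w →
    ∀ f' g' : Subgroup.centralizer ({x * y} : Set G) →* ℂˣ, Om2 (x * y) (x * y⁻¹) w f' g' →
    ¬ IsConj a w → IsConj a (a * b) →
    Tab (th1 (x * y) f') a w (11 * cz a ^ 2 / (2 * (Nat.card G : ℂ)))
      (3 * cz a * cz w / (2 * (Nat.card G : ℂ))) (cz w ^ 2 / (2 * (Nat.card G : ℂ))) ∧
    Tab (th2 (x * y) f' g') a w (11 * cz a ^ 2 / (2 * (Nat.card G : ℂ)))
      (-(3 * cz a * cz w / (2 * (Nat.card G : ℂ)))) (cz w ^ 2 / (2 * (Nat.card G : ℂ)))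

end Cfsg.Agent.Lib.Helper32.D8Stmt
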