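import Mathlib
import Cfsg.Prelude.Def_Characters
import Cfsg.Prelude.Def_Transfer
import Cfsg.Agent.Lib.Helper32.S9Stmt

/-!
# S3701: statement file (configuration `3^3 : 2^2`, piece statements)

Setting: `T = <x1> x <x2> x <x3>` of order 27, `H = N_G(T) = T : {1, u1, u2, u3}` where the
involution `u_i` centralizes `x_i` and inverts the other two generators, and
`C_G(t) <= H` for every nonidentity `t` of `T`.  Conclusion: `H = G`.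

The exceptional class function is `S9Stmt.exc x1 f` (`1 - f` induced from `C_G(x1)`), where
`f` is a linear character of `C_G(x1) = T<u1>` which is nontrivial at `x1` and trivial at
`x2`, `x3`, `u1`.
-/

set_option autoImplicit false

namespace Cfsg.Agent.Lib.Helper32.T3Stmt

open Cfsg
open Cfsg.Agent.Lib.Helper32.S9Stmt

universe u

/-- The configuration. -/
structure Cfg3 {G : Type u} [Group G] (T H : Subgroup G) (x1 x2 x3 u1 u2 u3 : G) : Prop where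
  x13 : x1 ^ 3 = 1
  x23 : x2 ^ 3 = 1
  x33 : x3 ^ 3 = 1
  c12 : x1 * x2 = x2 * x1
  c13 : x1 * x3 = x3 * x1
  c23 : x2 * x3 = x3 * x2
  u1sq : u1 ^ 2 = 1
  u2sq : u2 ^ 2 = 1
  u3sq : u3 ^ 2 = 1
  u12 : u1 * u2 = u3
  u21 : u2 * u1 = u3
  u13 : u1 * u3 = u2
  u31 : u3 * u1 = u2
  u23 : u2 * u3 = u1
  u32 : u3 * u2 = u1
  a11 : u1 * x1 = x1 * u1
  a12 : u1 * x2 * u1⁻¹ = x2⁻¹
  a13 : u1 * x3 * u1⁻¹ = x3⁻¹
  a21 : u2 * x1 * u2⁻¹ = x1⁻¹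
  a22 : u2 * x2 = x2 * u2
  a23 : u2 * x3 * u2⁻¹ = x3⁻¹
  a31 : u3 * x1 * u3⁻¹ = x1⁻¹
  a32 : u3 * x2 * u3⁻¹ = x2⁻¹
  a33 : u3 * x3 = x3 * u3
  ne1 : x1 ≠ 1
  ne2 : x2 ≠ 1
  ne3 : x3 ≠ 1
  memT : ∀ g, g ∈ T ↔ ∃ i j k : ℕ, g = x1 ^ i * x2 ^ j * x3 ^ k
  memH : ∀ g, g ∈ H ↔ ∃ t ∈ T, g = t ∨ g = t * u1 ∨ g = t * u2 ∨ g = t * u3
  norm : ∀ g, (∀ t ∈ T, g * t * g⁻¹ ∈ T) → g ∈ H
  loc : ∀ t ∈ T, t ≠ 1 → ∀ g, g * t = t * g → g ∈ H
  syl : ¬ 81 ∣ Nat.card G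

/-- Symmetry `1 <-> 2`. -/
theorem Cfg3.perm12 {G : Type u} [Group G] {T H : Subgroup G} {x1 x2 x3 u1 u2 u3 : G}
    (h : Cfg3 T H x1 x2 x3 u1 u2 u3) : Cfg3 T H x2 x1 x3 u2 u1 u3 where
  x13 := h.x23
  x23 := h.x13
  x33 := h.x33
  c12 := h.c12.symm
  c13 := h.c23
  c23 := h.c13
  u1sq := h.u2sq
  u2sq := h.u1sq
  u3sq := h.u3sq
  u12 := h.u21
  u21 := h.u12
  u13 := h.u23
  u31 := h.u32
  u23 := h.u13
  u32 := h.u31
  a11 := h.a22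
  a12 := h.a21
  a13 := h.a23
  a21 := h.a12
  a22 := h.a11
  a23 := h.a13
  a31 := h.a32
  a32 := h.a31
  a33 := h.a33
  ne1 := h.ne2
  ne2 := h.ne1
  ne3 := h.ne3
  memT := fun g => by
    rw [h.memT]
    constructor
    · rintro ⟨i, j, k, rfl⟩
      exact ⟨j, i, k, by rw [(Commute.pow_pow (show Commute x1 x2 from h.c12) i j).eq]⟩
    · rintro ⟨i, j, k, rfl⟩
      exact ⟨j, i, k, by rw [(Commute.pow_pow (show Commute x1 x2 from h.c12) j i).eq]⟩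
  memH := fun g => by
    rw [h.memH]
    constructor
    · rintro ⟨t, ht, hg⟩
      exact ⟨t, ht, by tauto⟩
    · rintro ⟨t, ht, hg⟩
      exact ⟨t, ht, by tauto⟩
  norm := h.norm
  loc := h.loc
  syl := h.syl

/-- Symmetry `2 <-> 3`. -/
theorem Cfg3.perm23 {G : Type u} [Group G] {T H : Subgroup G} {x1 x2 x3 u1 u2 u3 : G}
    (h : Cfg3 T H x1 x2 x3 u1 u2 u3) : Cfg3 T H x1 x3 x2 u1 u3 u2 where
  x13 := h.x13
  x23 := h.x33
  x33 := h.x23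
  c12 := h.c13
  c13 := h.c12
  c23 := h.c23.symm
  u1sq := h.u1sq
  u2sq := h.u3sq
  u3sq := h.u2sq
  u12 := h.u13
  u21 := h.u31
  u13 := h.u12
  u31 := h.u21
  u23 := h.u32
  u32 := h.u23
  a11 := h.a11
  a12 := h.a13
  a13 := h.a12
  a21 := h.a31
  a22 := h.a33
  a23 := h.a32
  a31 := h.a21
  a32 := h.a23
  a33 := h.a22
  ne1 := h.ne1
  ne2 := h.ne3
  ne3 := h.ne2
  memT := fun g => by
    rw [h.memT]
    constructor
    · rintro ⟨i, j, k, rfl⟩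
      exact ⟨i, k, j, by
        rw [mul_assoc, mul_assoc, (Commute.pow_pow (show Commute x2 x3 from h.c23) j k).eq]⟩
    · rintro ⟨i, j, k, rfl⟩
      exact ⟨i, k, j, by
        rw [mul_assoc, mul_assoc, (Commute.pow_pow (show Commute x2 x3 from h.c23) k j).eq]⟩
  memH := fun g => by
    rw [h.memH]
    constructor
    · rintro ⟨t, ht, hg⟩
      exact ⟨t, ht, by tauto⟩
    · rintro ⟨t, ht, hg⟩
      exact ⟨t, ht, by tauto⟩
  norm := h.norm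
  loc := h.loc
  syl := h.syl

/-- Symmetry `1 <-> 3`. -/
theorem Cfg3.perm13 {G : Type u} [Group G] {T H : Subgroup G} {x1 x2 x3 u1 u2 u3 : G}
    (h : Cfg3 T H x1 x2 x3 u1 u2 u3) : Cfg3 T H x3 x2 x1 u3 u2 u1 :=
  h.perm12.perm23.perm12

/-- A linear character of `C_G(x1)`, nontrivial at `x1`, trivial at `x2`, `x3` and `u1`. -/
structure Om3 {G : Type u} [Group G] (x1 x2 x3 u1 : G)
    (f : Subgroup.centralizer ({x1} : Set G) →* ℂˣ) : Prop where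
  fx1 : ∀ h : x1 ∈ Subgroup.centralizer ({x1} : Set G), f ⟨x1, h⟩ ≠ 1
  fx2 : ∀ h : x2 ∈ Subgroup.centralizer ({x1} : Set G), f ⟨x2, h⟩ = 1
  fx3 : ∀ h : x3 ∈ Subgroup.centralizer ({x1} : Set G), f ⟨x3, h⟩ = 1
  fu1 : ∀ h : u1 ∈ Subgroup.centralizer ({x1} : Set G), f ⟨u1, h⟩ = 1

/-! ## Pieces -/

/-- SYL (general): a subgroup `T` of order 27 such that every element of its normalizer has
its square in `T` satisfies `81 ∤ |G|` (a 3-subgroup properly containing `T` would normalize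
`T` properly). -/
def SYL : Prop := ∀ {G : Type u} [Group G] [Finite G] (T : Subgroup G), Nat.card T = 27 →
    (∀ g ∈ Subgroup.normalizer (T : Set G), g ^ 2 ∈ T) → ¬ 81 ∣ Nat.card G

/-- CFG: the hypotheses of S3701 give a configuration. -/
def CFG : Prop := ∀ {G : Type u} [Group G] [Finite G] (H : Subgroup G),
    Nonempty (↥H ≃* ↥(Subgroup.closure ({Equiv.swap (0 : Fin 9) 1 * Equiv.swap 1 2,
        Equiv.swap (3 : Fin 9) 4 * Equiv.swap 4 5, Equiv.swap (6 : Fin 9) 7 * Equiv.swap 7 8,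
        Equiv.swap (0 : Fin 9) 1 * Equiv.swap 3 4,
        Equiv.swap (0 : Fin 9) 1 * Equiv.swap 6 7} : Set (Equiv.Perm (Fin 9))))) →
    ∀ T : Subgroup G, T ≤ H → Nat.card T = 27 → Subgroup.normalizer (T : Set G) = H →
    (∀ t ∈ T, t ≠ 1 → Subgroup.centralizer ({t} : Set G) ≤ H) →
    ∃ x1 x2 x3 u1 u2 u3 : G, Cfg3 T H x1 x2 x3 u1 u2 u3

/-- TI: `T` is a TI-subgroup with normalizer `H`. -/
def TI : Prop := ∀ {G : Type u} [Group G] [Finite G] {T H : Subgroup G} {x1 x2 x3 u1 u2 u3 : G},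
    Cfg3 T H x1 x2 x3 u1 u2 u3 → ∀ g t : G, t ∈ T → t ≠ 1 → g * t * g⁻¹ ∈ T → g ∈ H

/-- NOFUS: `u1` and `u2` are not conjugate in `G`. -/
def NOFUS : Prop := ∀ {G : Type u} [Group G] [Finite G] {T H : Subgroup G}
    {x1 x2 x3 u1 u2 u3 : G}, Cfg3 T H x1 x2 x3 u1 u2 u3 → ¬ IsConj u1 u2

/-- NCORE: a normal subgroup of `G` meeting `H` trivially is trivial. -/
def NCORE : Prop := ∀ {G : Type u} [Group G] [Finite G] {T H : Subgroup G}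
    {x1 x2 x3 u1 u2 u3 : G}, Cfg3 T H x1 x2 x3 u1 u2 u3 →
    ∀ K : Subgroup G, K.Normal → (∀ g ∈ K, g ∈ H → g = 1) → K = ⊥

/-- INV: the involutions of `H` are `T`-conjugate to `u1`, `u2` or `u3`. -/
def INV : Prop := ∀ {G : Type u} [Group G] [Finite G] {T H : Subgroup G}
    {x1 x2 x3 u1 u2 u3 : G}, Cfg3 T H x1 x2 x3 u1 u2 u3 → ∀ u ∈ H, u ^ 2 = 1 →
      u = 1 ∨ (∃ t ∈ T, u = t * u1 * t⁻¹) ∨ (∃ t ∈ T, u = t * u2 * t⁻¹) ∨
        (∃ t ∈ T, u = t * u3 * t⁻¹)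

/-- KGRP: a normal subgroup containing `u1` but not `x1` meets `H` in `<x2,x3,u1>` and
supplements `H`. -/
def KGRP : Prop := ∀ {G : Type u} [Group G] [Finite G] {T H : Subgroup G}
    {x1 x2 x3 u1 u2 u3 : G}, Cfg3 T H x1 x2 x3 u1 u2 u3 →
    ∀ K : Subgroup G, K.Normal → u1 ∈ K → x1 ∉ K →
      (∀ g ∈ H, g ∈ K ↔ ∃ j k l : ℕ, g = x2 ^ j * x3 ^ k * u1 ^ l) ∧
      (∀ g : G, ∃ k ∈ K, ∃ n ∈ H, g = k * n)

/-- FIN: three such normal subgroups force `H = G`. -/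
def FIN : Prop := ∀ {G : Type u} [Group G] [Finite G] {T H : Subgroup G}
    {x1 x2 x3 u1 u2 u3 : G}, Cfg3 T H x1 x2 x3 u1 u2 u3 →
    ∀ K1 K2 K3 : Subgroup G, K1.Normal → K2.Normal → K3.Normal →
      (∀ g ∈ H, g ∈ K1 ↔ ∃ j k l : ℕ, g = x2 ^ j * x3 ^ k * u1 ^ l) →
      (∀ g ∈ H, g ∈ K2 ↔ ∃ j k l : ℕ, g = x1 ^ j * x3 ^ k * u2 ^ l) →
      (∀ g ∈ H, g ∈ K3 ↔ ∃ j k l : ℕ, g = x2 ^ j * x1 ^ k * u3 ^ l) →
      (∀ g : G, ∃ k ∈ K3, ∃ n ∈ H, g = k * n) → H = ⊤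

/-- OMEGA: the linear character exists. -/
def OMEGA : Prop := ∀ {G : Type u} [Group G] [Finite G] {T H : Subgroup G}
    {x1 x2 x3 u1 u2 u3 : G}, Cfg3 T H x1 x2 x3 u1 u2 u3 →
    ∃ f : Subgroup.centralizer ({x1} : Set G) →* ℂˣ, Om3 x1 x2 x3 u1 f

/-- EXC3: `exc = 3` on the part of `C_G(x1)` where `f ≠ 1`. -/
def EXC3 : Prop := ∀ {G : Type u} [Group G] [Fintype G] {T H : Subgroup G}
    {x1 x2 x3 u1 u2 u3 : G}, Cfg3 T H x1 x2 x3 u1 u2 u3 →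
    ∀ f : Subgroup.centralizer ({x1} : Set G) →* ℂˣ, Om3 x1 x2 x3 u1 f →
    ∀ g (hg : g ∈ Subgroup.centralizer ({x1} : Set G)), f ⟨g, hg⟩ ≠ 1 → exc x1 f g = 3

/-- EXCINV: `exc` vanishes at elements of order at most 2. -/
def EXCINV : Prop := ∀ {G : Type u} [Group G] [Fintype G] {T H : Subgroup G}
    {x1 x2 x3 u1 u2 u3 : G}, Cfg3 T H x1 x2 x3 u1 u2 u3 →
    ∀ f : Subgroup.centralizer ({x1} : Set G) →* ℂˣ, Om3 x1 x2 x3 u1 f →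
    ∀ u : G, u ^ 2 = 1 → exc x1 f u = 0

/-- PRODVAN: `exc` vanishes on products of two conjugates of `u1`. -/
def PRODVAN : Prop := ∀ {G : Type u} [Group G] [Fintype G] {T H : Subgroup G}
    {x1 x2 x3 u1 u2 u3 : G}, Cfg3 T H x1 x2 x3 u1 u2 u3 →
    ∀ f : Subgroup.centralizer ({x1} : Set G) →* ℂˣ, Om3 x1 x2 x3 u1 f →
    ¬ IsConj u1 u2 → ¬ IsConj u1 u3 → ∀ h : G, exc x1 f (u1 * (h * u1 * h⁻¹)) = 0

/-- KB: `u1` lies in the kernel of `Y'`, while `x1` does not. -/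
def KB : Prop := ∀ {G : Type u} [Group G] [Fintype G] {T H : Subgroup G}
    {x1 x2 x3 u1 u2 u3 : G}, Cfg3 T H x1 x2 x3 u1 u2 u3 →
    ∀ f : Subgroup.centralizer ({x1} : Set G) →* ℂˣ, Om3 x1 x2 x3 u1 f →
    ¬ IsConj u1 u2 → ¬ IsConj u1 u3 → ∀ Y' Y'' : G → ℂ,
    IsIrrCharacter G Y' → IsIrrCharacter G Y'' → (∀ g, exc x1 f g = 1 - Y' g + Y'' g) →
    Y' 1 = Y'' 1 + 1 → Y' u1 = Y' 1 ∧ Y' x1 ≠ Y' 1

end Cfsg.Agent.Lib.Helper32.T3Stmt
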