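import Mathlib
import Cfsg.Agent.Lib.Helper32.D8Stmt

/-!
# S3716: assembly of the pieces
-/

set_option autoImplicit false

namespace Cfsg.Agent.Lib.Helper32.D8Asm

open Cfsg
open Cfsg.Agent.Lib.Helper32.D8Stmt

universe u

section

variable {G : Type u} [Group G] [Fintype G] {T N : Subgroup G} {x y a b w : G}

omit [Fintype G] in
theorem cz_ne_zero [Finite G] (v : G) : cz v ≠ 0 := by
  unfold cz
  exact_mod_cast (Nat.card_pos (α := Subgroup.centralizer ({v} : Set G))).ne'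

/-- The abstract data from the pieces. -/
theorem base (hGENCH : GENCH.{u}) (hZERO : ZERO.{u}) (hGRAMX : GRAMX.{u}) (hCROSS : CROSS.{u})
    (hDUAL : DUAL.{u}) (hc : Cfg T N x y a b w)
    (f g : Subgroup.centralizer ({x} : Set G) →* ℂˣ) (hfg : Om2 x y b f g)
    (f' g' : Subgroup.centralizer ({x * y} : Set G) →* ℂˣ)
    (hfg' : Om2 (x * y) (x * y⁻¹) w f' g') :
    Base (th1 x f) (th2 x f g) (th1 (x * y) f') (th2 (x * y) f' g') a w := by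
  have hd := (hDUAL hc).1
  obtain ⟨g1, g2⟩ := hGENCH x f g
  obtain ⟨g3, g4⟩ := hGENCH (x * y) f' g'
  have z := hZERO hc f g hfg
  have z' := hZERO hd f' g' hfg'
  obtain ⟨n11, n22, n12, n21, t1, t2⟩ := hGRAMX hc f g hfg
  obtain ⟨n33, n44, n34, n43, t3, t4⟩ := hGRAMX hd f' g' hfg'
  obtain ⟨n13, n31, n14, n41, n23, n32, n24, n42⟩ := hCROSS hc f g hfg f' g' hfg'
  have e1 : (1 : G) ^ 2 = 1 := one_pow 2
  exact
    { g1 := g1, g2 := g2, g3 := g3, g4 := g4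
      o1 := (z 1 e1).1, o2 := (z 1 e1).2, o3 := (z' 1 e1).1, o4 := (z' 1 e1).2
      a1 := (z a hc.a2).1, a2 := (z a hc.a2).2, a3 := (z' a hc.a2).1, a4 := (z' a hc.a2).2
      w1 := (z w hc.w2).1, w2 := (z w hc.w2).2, w3 := (z' w hc.w2).1, w4 := (z' w hc.w2).2
      t1 := t1, t2 := t2, t3 := t3, t4 := t4
      n11 := n11, n22 := n22, n33 := n33, n44 := n44
      n12 := n12, n21 := n21, n34 := n34, n43 := n43
      n13 := n13, n31 := n31, n14 := n14, n41 := n41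
      n23 := n23, n32 := n32, n24 := n24, n42 := n42 }

omit [Fintype G] in
theorem nine_dvd [Finite G] (hc : Cfg T N x y a b w) : 9 ∣ Nat.card G := by
  rw [← hc.cardT]
  exact Subgroup.card_subgroup_dvd_card T

/-- No fusion. -/
theorem case1 (hGENCH : GENCH.{u}) (hZERO : ZERO.{u}) (hGRAMX : GRAMX.{u}) (hCROSS : CROSS.{u})
    (hDUAL : DUAL.{u}) (hNOFUS : NOFUS.{u}) (hOMEGA2 : OMEGA2.{u}) (hCS1 : CS1.{u})
    (hCSD1 : CSD1.{u}) (hCASE1 : CASE1.{u}) (hLIN : LIN.{u})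
    (hs : IsSimpleGroup G) (hc : Cfg T N x y a b w)
    (h1 : ¬ IsConj a (a * b)) (h2 : ¬ IsConj w (a * b)) : False := by
  have haw : ¬ IsConj a w := hNOFUS hc
  obtain ⟨f, g, hfg⟩ := hOMEGA2 hc
  have hd := (hDUAL hc).1
  obtain ⟨f', g', hfg'⟩ := hOMEGA2 hd
  have hb := base hGENCH hZERO hGRAMX hCROSS hDUAL hc f g hfg f' g' hfg'
  obtain ⟨c1, c2⟩ := hCS1 hc f g hfg haw h1 h2
  obtain ⟨c3, c4⟩ := hCSD1 hc f' g' hfg' haw h1 h2
  obtain ⟨χ, hχ, hne, hχ1⟩ :=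
    hCASE1 _ _ _ _ a w (cz a) (cz w) hb (cz_ne_zero a) (cz_ne_zero w) ⟨c1, c2, c3, c4⟩
  exact hne (hLIN hs (nine_dvd hc) χ hχ hχ1)

/-- Fusion `a ~ a*b`. -/
theorem case2 (hGENCH : GENCH.{u}) (hZERO : ZERO.{u}) (hGRAMX : GRAMX.{u}) (hCROSS : CROSS.{u})
    (hDUAL : DUAL.{u}) (hNOFUS : NOFUS.{u}) (hOMEGA2 : OMEGA2.{u}) (hCS2 : CS2.{u})
    (hCSD2 : CSD2.{u}) (hMOD9 : MOD9.{u}) (hCASE2 : CASE2.{u}) (hLIN : LIN.{u}) (hKER : KER.{u})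
    (hs : IsSimpleGroup G) (hc : Cfg T N x y a b w)
    (h1 : IsConj a (a * b)) : False := by
  have haw : ¬ IsConj a w := hNOFUS hc
  obtain ⟨hd, -, -, -, ha1, hw1⟩ := hDUAL hc
  obtain ⟨f, g, hfg⟩ := hOMEGA2 hc
  obtain ⟨f', g', hfg'⟩ := hOMEGA2 hd
  have hb := base hGENCH hZERO hGRAMX hCROSS hDUAL hc f g hfg f' g' hfg'
  have hm := hMOD9 hc f g hfg f' g' hfg'
  obtain ⟨c1, c2⟩ := hCS2 hc f g hfg haw h1
  obtain ⟨c3, c4⟩ := hCSD2 hc f' g' hfg' haw h1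
  obtain ⟨χ, hχ, hne, h | h | h⟩ :=
    hCASE2 _ _ _ _ a w (cz a) (cz w) hb (cz_ne_zero a) (cz_ne_zero w) hm ⟨c1, c2, c3, c4⟩
  · exact hne (hLIN hs (nine_dvd hc) χ hχ h)
  · exact hne (hKER hs χ hχ a ha1 h)
  · exact hne (hKER hs χ hχ w hw1 h)

end

/-- The statement S3716 from the pieces. -/
theorem full (hCFGA : CFGA.{u}) (hCFGB : CFGB.{u})
    (hGENCH : GENCH.{u}) (hZERO : ZERO.{u}) (hGRAMX : GRAMX.{u}) (hCROSS : CROSS.{u})
    (hDUAL : DUAL.{u}) (hNOFUS : NOFUS.{u}) (hOMEGA2 : OMEGA2.{u}) (hCS1 : CS1.{u})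
    (hCSD1 : CSD1.{u}) (hCS2 : CS2.{u}) (hCSD2 : CSD2.{u}) (hMOD9 : MOD9.{u})
    (hCASE1 : CASE1.{u}) (hCASE2 : CASE2.{u}) (hLIN : LIN.{u}) (hKER : KER.{u})
    {G : Type u} [Group G] [Finite G] (M : Sylow 3 G)
    (hM9 : Nat.card ↥(M : Subgroup G) = 9)
    (hMel : ∀ m ∈ (M : Subgroup G), m ^ 3 = 1)
    (hCM : Subgroup.centralizer ((M : Subgroup G) : Set G) = (M : Subgroup G))
    (N : Subgroup G) (hN : N = Subgroup.normalizer ((M : Subgroup G) : Set G))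
    (hCg : ∀ g ∈ (M : Subgroup G), g ≠ 1 → Subgroup.centralizer ({g} : Set G) ≤ N)
    (hS : ∀ S : Sylow 2 ↥N, Nonempty (↥(S : Subgroup ↥N) ≃* DihedralGroup 4)) :
    ¬ IsSimpleGroup G := by
  intro hs
  have := Fintype.ofFinite G
  have h72 := hCFGA M hM9 hMel hCM N hN hCg hS
  obtain ⟨x, y, a, b, w, hc⟩ := hCFGB M hM9 hMel hCM N hN hCg hS h72
  by_cases h1 : IsConj a (a * b)
  · exact case2 hGENCH hZERO hGRAMX hCROSS hDUAL hNOFUS hOMEGA2 hCS2 hCSD2 hMOD9 hCASE2 hLIN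
      hKER hs hc h1
  by_cases h2 : IsConj w (a * b)
  · obtain ⟨hd, e1, e2, -, -, -⟩ := hDUAL hc
    refine case2 hGENCH hZERO hGRAMX hCROSS hDUAL hNOFUS hOMEGA2 hCS2 hCSD2 hMOD9 hCASE2 hLIN
      hKER hs hd ?_
    rw [e2]
    have h3 : IsConj (w * a * b) w := by
      rw [e1]
      exact (isConj_iff.2 ⟨a, rfl⟩).symm
    exact h3.trans h2
  exact case1 hGENCH hZERO hGRAMX hCROSS hDUAL hNOFUS hOMEGA2 hCS1 hCSD1 hCASE1 hLIN hs hc h1 h2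

end Cfsg.Agent.Lib.Helper32.D8Asm
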