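import Mathlib
import Cfsg.Agent.Lib.Helper32.D8Stmt

/-!
# S3716 piece NF: normal form in `N = (<x> x <y>) : <a, b, w>` (order 72)
-/

set_option autoImplicit false

namespace Cfsg.Agent.Lib.Helper32.D8NF

open Cfsg
open Cfsg.Agent.Lib.Helper32.D8Stmt

universe u

variable {G : Type u} [Group G] {T N : Subgroup G} {x y a b w : G}

theorem a_inv (hc : Cfg T N x y a b w) : a⁻¹ = a := by
  rw [inv_eq_iff_mul_eq_one, ← pow_two, hc.a2]

theorem b_inv (hc : Cfg T N x y a b w) : b⁻¹ = b := by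
  rw [inv_eq_iff_mul_eq_one, ← pow_two, hc.b2]

theorem x_inv (hc : Cfg T N x y a b w) : x⁻¹ = x ^ 2 := by
  rw [inv_eq_iff_mul_eq_one, ← pow_succ', hc.x3]

theorem y_inv (hc : Cfg T N x y a b w) : y⁻¹ = y ^ 2 := by
  rw [inv_eq_iff_mul_eq_one, ← pow_succ', hc.y3]

theorem y1 (hc : Cfg T N x y a b w) : y ≠ 1 := fun h => hc.yx (h ▸ one_mem _)

theorem a_mul_x (hc : Cfg T N x y a b w) : a * x = x ^ 2 * a := by
  rw [← x_inv hc, ← hc.ax]
  group

theorem b_mul_y (hc : Cfg T N x y a b w) : b * y = y ^ 2 * b := by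
  rw [← y_inv hc, ← hc.by_]
  group

theorem a_pow_mod (hc : Cfg T N x y a b w) (k : ℕ) : a ^ k = a ^ (k % 2) := by
  conv_lhs => rw [← Nat.div_add_mod k 2, pow_add, pow_mul, hc.a2, one_pow, one_mul]

theorem b_pow_mod (hc : Cfg T N x y a b w) (k : ℕ) : b ^ k = b ^ (k % 2) := by
  conv_lhs => rw [← Nat.div_add_mod k 2, pow_add, pow_mul, hc.b2, one_pow, one_mul]

theorem x_pow_mod (hc : Cfg T N x y a b w) (k : ℕ) : x ^ k = x ^ (k % 3) := by
  conv_lhs => rw [← Nat.div_add_mod k 3, pow_add, pow_mul, hc.x3, one_pow, one_mul]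

theorem y_pow_mod (hc : Cfg T N x y a b w) (k : ℕ) : y ^ k = y ^ (k % 3) := by
  conv_lhs => rw [← Nat.div_add_mod k 3, pow_add, pow_mul, hc.y3, one_pow, one_mul]

theorem a_pow_mul_x_pow (hc : Cfg T N x y a b w) (k i : ℕ) :
    a ^ k * x ^ i = x ^ (if k % 2 = 0 then i else 2 * i) * a ^ k := by
  rw [a_pow_mod hc k]
  have h2 : k % 2 < 2 := Nat.mod_lt _ (by norm_num)
  rcases Nat.lt_succ_iff_lt_or_eq.1 h2 with h | h
  · have h0 : k % 2 = 0 := by omega
    rw [h0]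
    simp
  · rw [h]
    simp only [pow_one, one_ne_zero, if_false]
    have hs : SemiconjBy a x (x ^ 2) := a_mul_x hc
    have := (hs.pow_right i).eq
    rw [this, ← pow_mul]

theorem b_pow_mul_y_pow (hc : Cfg T N x y a b w) (l j : ℕ) :
    b ^ l * y ^ j = y ^ (if l % 2 = 0 then j else 2 * j) * b ^ l := by
  rw [b_pow_mod hc l]
  have h2 : l % 2 < 2 := Nat.mod_lt _ (by norm_num)
  rcases Nat.lt_succ_iff_lt_or_eq.1 h2 with h | h
  · have h0 : l % 2 = 0 := by omega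
    rw [h0]
    simp
  · rw [h]
    simp only [pow_one, one_ne_zero, if_false]
    have hs : SemiconjBy b y (y ^ 2) := b_mul_y hc
    have := (hs.pow_right j).eq
    rw [this, ← pow_mul]

theorem cxy (hc : Cfg T N x y a b w) : Commute x y := hc.xy
theorem cab (hc : Cfg T N x y a b w) : Commute a b := hc.ab
theorem cay (hc : Cfg T N x y a b w) : Commute a y := hc.ay
theorem cbx (hc : Cfg T N x y a b w) : Commute b x := hc.bx

/-- The product rule. -/
theorem prod4 (hc : Cfg T N x y a b w) (i j k l i' j' k' l' : ℕ) :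
    (x ^ i * y ^ j * a ^ k * b ^ l) * (x ^ i' * y ^ j' * a ^ k' * b ^ l') =
      x ^ (i + (if k % 2 = 0 then i' else 2 * i')) *
        y ^ (j + (if l % 2 = 0 then j' else 2 * j')) * a ^ (k + k') * b ^ (l + l') := by
  have e1 : b ^ l * x ^ i' = x ^ i' * b ^ l := ((cbx hc).pow_pow l i').eq
  have e2 : a ^ k * x ^ i' = x ^ (if k % 2 = 0 then i' else 2 * i') * a ^ k :=
    a_pow_mul_x_pow hc k i'
  have e3 : b ^ l * y ^ j' = y ^ (if l % 2 = 0 then j' else 2 * j') * b ^ l :=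
    b_pow_mul_y_pow hc l j'
  have e4 : ∀ m : ℕ, a ^ k * y ^ m = y ^ m * a ^ k := fun m => ((cay hc).pow_pow k m).eq
  have e5 : ∀ m n : ℕ, y ^ m * x ^ n = x ^ n * y ^ m := fun m n => ((cxy hc).pow_pow n m).eq.symm
  have e6 : b ^ l * a ^ k' = a ^ k' * b ^ l := ((cab hc).pow_pow k' l).eq.symm
  set i'' := (if k % 2 = 0 then i' else 2 * i') with hi''
  set j'' := (if l % 2 = 0 then j' else 2 * j') with hj''
  calc (x ^ i * y ^ j * a ^ k * b ^ l) * (x ^ i' * y ^ j' * a ^ k' * b ^ l')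
      = x ^ i * y ^ j * a ^ k * (b ^ l * x ^ i') * y ^ j' * a ^ k' * b ^ l' := by group
    _ = x ^ i * y ^ j * (a ^ k * x ^ i') * (b ^ l * y ^ j') * a ^ k' * b ^ l' := by
        rw [e1]; group
    _ = x ^ i * (y ^ j * x ^ i'') * (a ^ k * y ^ j'') * (b ^ l * a ^ k') * b ^ l' := by
        rw [e2, e3]; group
    _ = x ^ i * (x ^ i'' * y ^ j) * (y ^ j'' * a ^ k) * (a ^ k' * b ^ l) * b ^ l' := by
        rw [e5, e4, e6]
    _ = x ^ (i + i'') * y ^ (j + j'') * a ^ (k + k') * b ^ (l + l') := by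
        rw [pow_add, pow_add, pow_add, pow_add]; group

/-- Conjugation of `x` by a normal form. -/
theorem conj_x (hc : Cfg T N x y a b w) (i j k l : ℕ) :
    (x ^ i * y ^ j * a ^ k * b ^ l) * x * (x ^ i * y ^ j * a ^ k * b ^ l)⁻¹ =
      x ^ (if k % 2 = 0 then 1 else 2) := by
  have e1 : b ^ l * x = x * b ^ l := ((cbx hc).pow_left l).eq
  have e2 : a ^ k * x = x ^ (if k % 2 = 0 then 1 else 2) * a ^ k := by
    have := a_pow_mul_x_pow hc k 1
    simpa using this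
  have e5 : ∀ n : ℕ, y ^ j * x ^ n = x ^ n * y ^ j := fun n => ((cxy hc).pow_pow n j).eq.symm
  set e := (if k % 2 = 0 then 1 else 2) with he
  have e6 : x ^ i * x ^ e = x ^ e * x ^ i := by rw [← pow_add, ← pow_add, add_comm]
  calc (x ^ i * y ^ j * a ^ k * b ^ l) * x * (x ^ i * y ^ j * a ^ k * b ^ l)⁻¹
      = x ^ i * y ^ j * a ^ k * (b ^ l * x) * (x ^ i * y ^ j * a ^ k * b ^ l)⁻¹ := by group
    _ = x ^ i * y ^ j * (a ^ k * x) * b ^ l * (x ^ i * y ^ j * a ^ k * b ^ l)⁻¹ := by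
        rw [e1]; group
    _ = x ^ i * (y ^ j * x ^ e) * a ^ k * b ^ l * (x ^ i * y ^ j * a ^ k * b ^ l)⁻¹ := by
        rw [e2]; group
    _ = (x ^ i * x ^ e) * y ^ j * a ^ k * b ^ l * (x ^ i * y ^ j * a ^ k * b ^ l)⁻¹ := by
        rw [e5]; group
    _ = x ^ e := by rw [e6]; group

/-- Conjugation of `y` by a normal form. -/
theorem conj_y (hc : Cfg T N x y a b w) (i j k l : ℕ) :
    (x ^ i * y ^ j * a ^ k * b ^ l) * y * (x ^ i * y ^ j * a ^ k * b ^ l)⁻¹ =
      y ^ (if l % 2 = 0 then 1 else 2) := by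
  have e2 : b ^ l * y = y ^ (if l % 2 = 0 then 1 else 2) * b ^ l := by
    have := b_pow_mul_y_pow hc l 1
    simpa using this
  set e := (if l % 2 = 0 then 1 else 2) with he
  have e4 : a ^ k * y ^ e = y ^ e * a ^ k := ((cay hc).pow_pow k e).eq
  have e5 : x ^ i * y ^ e = y ^ e * x ^ i := ((cxy hc).pow_pow i e).eq
  have e6 : y ^ j * y ^ e = y ^ e * y ^ j := by rw [← pow_add, ← pow_add, add_comm]
  calc (x ^ i * y ^ j * a ^ k * b ^ l) * y * (x ^ i * y ^ j * a ^ k * b ^ l)⁻¹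
      = x ^ i * y ^ j * a ^ k * (b ^ l * y) * (x ^ i * y ^ j * a ^ k * b ^ l)⁻¹ := by group
    _ = x ^ i * y ^ j * (a ^ k * y ^ e) * b ^ l * (x ^ i * y ^ j * a ^ k * b ^ l)⁻¹ := by
        rw [e2]; group
    _ = x ^ i * (y ^ j * y ^ e) * a ^ k * b ^ l * (x ^ i * y ^ j * a ^ k * b ^ l)⁻¹ := by
        rw [e4]; group
    _ = (x ^ i * y ^ e) * y ^ j * a ^ k * b ^ l * (x ^ i * y ^ j * a ^ k * b ^ l)⁻¹ := by
        rw [e6]; group
    _ = y ^ e := by rw [e5]; group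

theorem x_sq_ne (hc : Cfg T N x y a b w) : x ^ 2 ≠ x ^ 1 := by
  intro h
  apply hc.x1
  have : x ^ 2 = x := by simpa using h
  calc x = x⁻¹ * x ^ 2 := by group
    _ = 1 := by rw [this]; group

theorem y_sq_ne (hc : Cfg T N x y a b w) : y ^ 2 ≠ y ^ 1 := by
  intro h
  apply y1 hc
  have : y ^ 2 = y := by simpa using h
  calc y = y⁻¹ * y ^ 2 := by group
    _ = 1 := by rw [this]; group

theorem orderOf_x (hc : Cfg T N x y a b w) : orderOf x = 3 :=
  orderOf_eq_prime hc.x3 hc.x1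

theorem orderOf_y (hc : Cfg T N x y a b w) : orderOf y = 3 :=
  orderOf_eq_prime hc.y3 (y1 hc)

/-- `x^i = y^j` forces both trivial. -/
theorem x_pow_eq_y_pow (hc : Cfg T N x y a b w) (i j : ℕ) (h : x ^ i = y ^ j) :
    j % 3 = 0 := by
  by_contra hj
  have h3 : j % 3 < 3 := Nat.mod_lt _ (by norm_num)
  have h' : x ^ i = y ^ (j % 3) := by rw [h, y_pow_mod hc j]
  have hcases : j % 3 = 1 ∨ j % 3 = 2 := by omega
  rcases hcases with h1 | h2
  · rw [h1, pow_one] at h'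
    exact hc.yx (h' ▸ Subgroup.npow_mem_zpowers x i)
  · rw [h2] at h'
    have : y = (x ^ i) ^ 2 := by
      rw [h', ← pow_mul]
      calc y = y ^ 3 * y := by rw [hc.y3, one_mul]
        _ = y ^ (2 * 2) := by group
    exact hc.yx (this ▸ (Subgroup.zpowers x).pow_mem (Subgroup.npow_mem_zpowers x i) 2)

/-- Uniqueness of the normal form. -/
theorem nf4_unique (hc : Cfg T N x y a b w) (i j k l i' j' k' l' : ℕ)
    (h : x ^ i * y ^ j * a ^ k * b ^ l = x ^ i' * y ^ j' * a ^ k' * b ^ l') :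
    i % 3 = i' % 3 ∧ j % 3 = j' % 3 ∧ k % 2 = k' % 2 ∧ l % 2 = l' % 2 := by
  have hk : k % 2 = k' % 2 := by
    have e1 := conj_x hc i j k l
    have e2 := conj_x hc i' j' k' l'
    rw [h, e2] at e1
    have h2 : k % 2 < 2 := Nat.mod_lt _ (by norm_num)
    have h2' : k' % 2 < 2 := Nat.mod_lt _ (by norm_num)
    by_contra hne
    by_cases h0 : k % 2 = 0
    · have h0' : ¬ k' % 2 = 0 := by omega
      rw [if_pos h0, if_neg h0'] at e1
      exact x_sq_ne hc e1
    · have h0' : k' % 2 = 0 := by omega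
      rw [if_neg h0, if_pos h0'] at e1
      exact x_sq_ne hc e1.symm
  have hl : l % 2 = l' % 2 := by
    have e1 := conj_y hc i j k l
    have e2 := conj_y hc i' j' k' l'
    rw [h, e2] at e1
    have h2 : l % 2 < 2 := Nat.mod_lt _ (by norm_num)
    have h2' : l' % 2 < 2 := Nat.mod_lt _ (by norm_num)
    by_contra hne
    by_cases h0 : l % 2 = 0
    · have h0' : ¬ l' % 2 = 0 := by omega
      rw [if_pos h0, if_neg h0'] at e1
      exact y_sq_ne hc e1
    · have h0' : l' % 2 = 0 := by omega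
      rw [if_neg h0, if_pos h0'] at e1
      exact y_sq_ne hc e1.symm
  have h' : x ^ i * y ^ j = x ^ i' * y ^ j' := by
    rw [a_pow_mod hc k, a_pow_mod hc k', b_pow_mod hc l, b_pow_mod hc l', hk, hl] at h
    exact mul_right_cancel (mul_right_cancel h)
  -- x^(i + 2 i') = y^(j' + 2 j)
  have h'' : x ^ (i + 2 * i') = y ^ (j' + 2 * j) := by
    have e5 : y ^ j * x ^ (2 * i') = x ^ (2 * i') * y ^ j :=
      ((cxy hc).pow_pow (2 * i') j).eq.symm
    have ex : x ^ i' * x ^ (2 * i') = 1 := by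
      rw [← pow_add, show i' + 2 * i' = 3 * i' by ring, pow_mul, hc.x3, one_pow]
    have ey : y ^ j * y ^ (2 * j) = 1 := by
      rw [← pow_add, show j + 2 * j = 3 * j by ring, pow_mul, hc.y3, one_pow]
    have e5' : y ^ j' * x ^ (2 * i') = x ^ (2 * i') * y ^ j' :=
      ((cxy hc).pow_pow (2 * i') j').eq.symm
    have s1 : (x ^ i * y ^ j) * x ^ (2 * i') * y ^ (2 * j) = x ^ (i + 2 * i') := by
      rw [mul_assoc (x ^ i) (y ^ j), e5, pow_add]
      simp only [mul_assoc]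
      rw [ey, mul_one]
    have s2 : (x ^ i' * y ^ j') * x ^ (2 * i') * y ^ (2 * j) = y ^ (j' + 2 * j) := by
      rw [mul_assoc (x ^ i') (y ^ j'), e5', ← mul_assoc (x ^ i'), ex, one_mul, pow_add]
    rw [← s1, h', s2]
  have hj0 := x_pow_eq_y_pow hc _ _ h''
  have hj : j % 3 = j' % 3 := by omega
  have hx : x ^ i = x ^ i' := by
    rw [y_pow_mod hc j, y_pow_mod hc j', hj] at h'
    exact mul_right_cancel h'
  have hi : i % 3 = i' % 3 := by
    have := (pow_eq_pow_iff_modEq (x := x) (n := i) (m := i')).1 hx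
    rw [orderOf_x hc] at this
    exact this
  exact ⟨hi, hj, hk, hl⟩


theorem w_inv (hc : Cfg T N x y a b w) : w⁻¹ = w := by
  rw [inv_eq_iff_mul_eq_one, ← pow_two, hc.w2]

theorem w_pow_mod (hc : Cfg T N x y a b w) (k : ℕ) : w ^ k = w ^ (k % 2) := by
  conv_lhs => rw [← Nat.div_add_mod k 2, pow_add, pow_mul, hc.w2, one_pow, one_mul]

theorem w_mul_x (hc : Cfg T N x y a b w) : w * x = y * w := by
  rw [← hc.wx]
  group

theorem w_mul_a (hc : Cfg T N x y a b w) : w * a = b * w := by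
  rw [← hc.wa]
  group

theorem w_mul_y (hc : Cfg T N x y a b w) : w * y = x * w := by
  have h1 : w * w = 1 := by rw [← pow_two, hc.w2]
  calc w * y = w * (w * x * w⁻¹) := by rw [hc.wx]
    _ = (w * w) * x * w⁻¹ := by group
    _ = x * w := by rw [h1, one_mul, w_inv hc]

theorem w_mul_b (hc : Cfg T N x y a b w) : w * b = a * w := by
  have h1 : w * w = 1 := by rw [← pow_two, hc.w2]
  calc w * b = w * (w * a * w⁻¹) := by rw [hc.wa]
    _ = (w * w) * a * w⁻¹ := by group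
    _ = a * w := by rw [h1, one_mul, w_inv hc]

/-- Moving `w` across a normal form. -/
theorem w_mul_nf4 (hc : Cfg T N x y a b w) (i j k l : ℕ) :
    w * (x ^ i * y ^ j * a ^ k * b ^ l) = (x ^ j * y ^ i * a ^ l * b ^ k) * w := by
  have e1 : w * x ^ i = y ^ i * w := (SemiconjBy.pow_right (w_mul_x hc : SemiconjBy w x y) i).eq
  have e2 : w * y ^ j = x ^ j * w := (SemiconjBy.pow_right (w_mul_y hc : SemiconjBy w y x) j).eq
  have e3 : w * a ^ k = b ^ k * w := (SemiconjBy.pow_right (w_mul_a hc : SemiconjBy w a b) k).eq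
  have e4 : w * b ^ l = a ^ l * w := (SemiconjBy.pow_right (w_mul_b hc : SemiconjBy w b a) l).eq
  have e5 : x ^ j * y ^ i = y ^ i * x ^ j := ((cxy hc).pow_pow j i).eq
  have e6 : a ^ l * b ^ k = b ^ k * a ^ l := ((cab hc).pow_pow l k).eq
  calc w * (x ^ i * y ^ j * a ^ k * b ^ l) = (w * x ^ i) * y ^ j * a ^ k * b ^ l := by group
    _ = y ^ i * (w * y ^ j) * a ^ k * b ^ l := by rw [e1]; group
    _ = y ^ i * x ^ j * (w * a ^ k) * b ^ l := by rw [e2]; group
    _ = y ^ i * x ^ j * b ^ k * (w * b ^ l) := by rw [e3]; group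
    _ = (y ^ i * x ^ j) * (b ^ k * a ^ l) * w := by rw [e4]; group
    _ = (x ^ j * y ^ i * a ^ l * b ^ k) * w := by rw [← e5, ← e6]; group

/-- The product rule. -/
theorem prod_rule (hc : Cfg T N x y a b w) (i j k l m i' j' k' l' m' : ℕ) :
    (x ^ i * y ^ j * a ^ k * b ^ l * w ^ m) * (x ^ i' * y ^ j' * a ^ k' * b ^ l' * w ^ m') =
      if m % 2 = 0 then
        x ^ (i + (if k % 2 = 0 then i' else 2 * i')) *
          y ^ (j + (if l % 2 = 0 then j' else 2 * j')) * a ^ (k + k') * b ^ (l + l') *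
            w ^ (m + m')
      else
        x ^ (i + (if k % 2 = 0 then j' else 2 * j')) *
          y ^ (j + (if l % 2 = 0 then i' else 2 * i')) * a ^ (k + l') * b ^ (l + k') *
            w ^ (m + m') := by
  by_cases hm : m % 2 = 0
  · rw [if_pos hm]
    have hw : w ^ m = 1 := by rw [w_pow_mod hc m, hm, pow_zero]
    have hw' : w ^ (m + m') = w ^ m' := by rw [pow_add, hw, one_mul]
    rw [hw, hw', mul_one, ← mul_assoc, prod4 hc]
  · rw [if_neg hm]
    have hm1 : m % 2 = 1 := by omega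
    have hw : w ^ m = w := by rw [w_pow_mod hc m, hm1, pow_one]
    have hw' : w ^ (m + m') = w * w ^ m' := by rw [pow_add, hw]
    rw [hw, hw']
    calc (x ^ i * y ^ j * a ^ k * b ^ l * w) * (x ^ i' * y ^ j' * a ^ k' * b ^ l' * w ^ m')
        = (x ^ i * y ^ j * a ^ k * b ^ l) * (w * (x ^ i' * y ^ j' * a ^ k' * b ^ l')) *
            w ^ m' := by group
      _ = (x ^ i * y ^ j * a ^ k * b ^ l) * (x ^ j' * y ^ i' * a ^ l' * b ^ k') *
            (w * w ^ m') := by rw [w_mul_nf4 hc]; group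
      _ = _ := by rw [prod4 hc]

/-- Conjugation of `x` by a normal form. -/
theorem conj5_x (hc : Cfg T N x y a b w) (i j k l m : ℕ) :
    (x ^ i * y ^ j * a ^ k * b ^ l * w ^ m) * x * (x ^ i * y ^ j * a ^ k * b ^ l * w ^ m)⁻¹ =
      if m % 2 = 0 then x ^ (if k % 2 = 0 then 1 else 2)
      else y ^ (if l % 2 = 0 then 1 else 2) := by
  by_cases hm : m % 2 = 0
  · rw [if_pos hm]
    have hw : w ^ m = 1 := by rw [w_pow_mod hc m, hm, pow_zero]
    rw [hw, mul_one, conj_x hc]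
  · rw [if_neg hm]
    have hm1 : m % 2 = 1 := by omega
    have hw : w ^ m = w := by rw [w_pow_mod hc m, hm1, pow_one]
    rw [hw, ← conj_y hc i j k l, ← hc.wx]
    group

theorem x_pow_ne_y_pow (hc : Cfg T N x y a b w) (k l : ℕ) :
    x ^ (if k % 2 = 0 then 1 else 2) ≠ y ^ (if l % 2 = 0 then 1 else 2) := by
  intro h
  have := x_pow_eq_y_pow hc _ _ h
  split_ifs at this <;> omega

/-- Uniqueness of the normal form. -/
theorem nf_unique (hc : Cfg T N x y a b w) (i j k l m i' j' k' l' m' : ℕ)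
    (h : x ^ i * y ^ j * a ^ k * b ^ l * w ^ m = x ^ i' * y ^ j' * a ^ k' * b ^ l' * w ^ m') :
    i % 3 = i' % 3 ∧ j % 3 = j' % 3 ∧ k % 2 = k' % 2 ∧ l % 2 = l' % 2 ∧ m % 2 = m' % 2 := by
  have hm : m % 2 = m' % 2 := by
    have e1 := conj5_x hc i j k l m
    have e2 := conj5_x hc i' j' k' l' m'
    rw [h, e2] at e1
    by_contra hne
    by_cases h0 : m % 2 = 0
    · have h0' : ¬ m' % 2 = 0 := by omega
      rw [if_pos h0, if_neg h0'] at e1
      exact x_pow_ne_y_pow hc _ _ e1.symm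
    · have h0' : m' % 2 = 0 := by omega
      rw [if_neg h0, if_pos h0'] at e1
      exact x_pow_ne_y_pow hc _ _ e1
  have h' : x ^ i * y ^ j * a ^ k * b ^ l = x ^ i' * y ^ j' * a ^ k' * b ^ l' := by
    rw [w_pow_mod hc m, w_pow_mod hc m', hm] at h
    exact mul_right_cancel h
  obtain ⟨h1, h2, h3, h4⟩ := nf4_unique hc _ _ _ _ _ _ _ _ h'
  exact ⟨h1, h2, h3, h4, hm⟩

theorem nf_mem_T (hc : Cfg T N x y a b w) (i j : ℕ) : x ^ i * y ^ j ∈ T :=
  T.mul_mem (T.pow_mem hc.xT _) (T.pow_mem hc.yT _)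

theorem nf_mem_N (hc : Cfg T N x y a b w) (i j k l m : ℕ) :
    x ^ i * y ^ j * a ^ k * b ^ l * w ^ m ∈ N :=
  N.mul_mem (N.mul_mem (N.mul_mem (hc.TN (nf_mem_T hc i j)) (N.pow_mem hc.aN _))
    (N.pow_mem hc.bN _)) (N.pow_mem hc.wN _)

/-- Membership in `T` via normal forms. -/
theorem mem_T_iff [Finite G] (hc : Cfg T N x y a b w) (g : G) :
    g ∈ T ↔ ∃ i j : ℕ, g = x ^ i * y ^ j := by
  constructor
  · intro hg
    let e : Fin 3 × Fin 3 → T := fun p => ⟨x ^ (p.1 : ℕ) * y ^ (p.2 : ℕ), nf_mem_T hc _ _⟩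
    have hinj : Function.Injective e := by
      rintro ⟨i, j⟩ ⟨i', j'⟩ h
      have h' : x ^ (i : ℕ) * y ^ (j : ℕ) = x ^ (i' : ℕ) * y ^ (j' : ℕ) :=
        congrArg Subtype.val h
      have h'' : x ^ (i : ℕ) * y ^ (j : ℕ) * a ^ 0 * b ^ 0 =
          x ^ (i' : ℕ) * y ^ (j' : ℕ) * a ^ 0 * b ^ 0 := by simpa using h'
      obtain ⟨h1, h2, -, -⟩ := nf4_unique hc _ _ _ _ _ _ _ _ h''
      simp only [Prod.mk.injEq]
      refine ⟨Fin.ext ?_, Fin.ext ?_⟩
      · have := i.2; have := i'.2; omega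
      · have := j.2; have := j'.2; omega
    have hbij : Function.Bijective e :=
      hinj.bijective_of_nat_card_le (by rw [hc.cardT]; simp)
    obtain ⟨⟨i, j⟩, hp⟩ := hbij.2 ⟨g, hg⟩
    exact ⟨i, j, (congrArg Subtype.val hp).symm⟩
  · rintro ⟨i, j, rfl⟩
    exact nf_mem_T hc i j

/-- Membership in `N` via normal forms. -/
theorem mem_N_iff [Finite G] (hc : Cfg T N x y a b w) (g : G) :
    g ∈ N ↔ ∃ i j k l m : ℕ, g = x ^ i * y ^ j * a ^ k * b ^ l * w ^ m := by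
  constructor
  · intro hg
    let e : Fin 3 × Fin 3 × Fin 2 × Fin 2 × Fin 2 → N := fun p =>
      ⟨x ^ (p.1 : ℕ) * y ^ (p.2.1 : ℕ) * a ^ (p.2.2.1 : ℕ) * b ^ (p.2.2.2.1 : ℕ) *
        w ^ (p.2.2.2.2 : ℕ), nf_mem_N hc _ _ _ _ _⟩
    have hinj : Function.Injective e := by
      rintro ⟨i, j, k, l, m⟩ ⟨i', j', k', l', m'⟩ h
      have h' : x ^ (i : ℕ) * y ^ (j : ℕ) * a ^ (k : ℕ) * b ^ (l : ℕ) * w ^ (m : ℕ) =
          x ^ (i' : ℕ) * y ^ (j' : ℕ) * a ^ (k' : ℕ) * b ^ (l' : ℕ) * w ^ (m' : ℕ) :=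
        congrArg Subtype.val h
      obtain ⟨h1, h2, h3, h4, h5⟩ := nf_unique hc _ _ _ _ _ _ _ _ _ _ h'
      simp only [Prod.mk.injEq]
      refine ⟨Fin.ext ?_, Fin.ext ?_, Fin.ext ?_, Fin.ext ?_, Fin.ext ?_⟩
      · have := i.2; have := i'.2; omega
      · have := j.2; have := j'.2; omega
      · have := k.2; have := k'.2; omega
      · have := l.2; have := l'.2; omega
      · have := m.2; have := m'.2; omega
    have hbij : Function.Bijective e :=
      hinj.bijective_of_nat_card_le (by rw [hc.cardN]; simp)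
    obtain ⟨⟨i, j, k, l, m⟩, hp⟩ := hbij.2 ⟨g, hg⟩
    exact ⟨i, j, k, l, m, (congrArg Subtype.val hp).symm⟩
  · rintro ⟨i, j, k, l, m, rfl⟩
    exact nf_mem_N hc i j k l m

/-- The centralizer of `x`. -/
theorem mem_centralizer_x_iff [Finite G] (hc : Cfg T N x y a b w) (g : G) :
    g ∈ Subgroup.centralizer ({x} : Set G) ↔ ∃ i j l : ℕ, g = x ^ i * y ^ j * b ^ l := by
  rw [Subgroup.mem_centralizer_iff]
  constructor
  · intro h
    have hgx : g * x = x * g := (h x rfl).symm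
    have hgN : g ∈ N := hc.loc x hc.xT hc.x1 g hgx
    obtain ⟨i, j, k, l, m, rfl⟩ := (mem_N_iff hc g).1 hgN
    have e1 := conj5_x hc i j k l m
    rw [hgx, mul_assoc, mul_inv_cancel, mul_one] at e1
    have hm : m % 2 = 0 := by
      by_contra hm
      rw [if_neg hm] at e1
      have e2 : x ^ (if (0 : ℕ) % 2 = 0 then 1 else 2) = y ^ (if l % 2 = 0 then 1 else 2) := by
        simpa using e1
      exact x_pow_ne_y_pow hc 0 l e2
    rw [if_pos hm] at e1
    have hk : k % 2 = 0 := by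
      by_contra hk
      rw [if_neg hk] at e1
      exact x_sq_ne hc (by simpa using e1.symm)
    refine ⟨i, j, l, ?_⟩
    rw [a_pow_mod hc k, hk, pow_zero, mul_one, w_pow_mod hc m, hm, pow_zero, mul_one]
  · rintro ⟨i, j, l, rfl⟩ h hh
    rw [Set.mem_singleton_iff.1 hh]
    have e1 : Commute x (x ^ i) := Commute.pow_right (Commute.refl x) i
    have e2 : Commute x (y ^ j) := Commute.pow_right (cxy hc) j
    have e3 : Commute x (b ^ l) := Commute.pow_right (cbx hc).symm l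
    exact ((e1.mul_right e2).mul_right e3).eq

/-- Values of `f`, `g` on normal forms. -/
theorem fg_apply [Finite G] (hc : Cfg T N x y a b w)
    (f g : Subgroup.centralizer ({x} : Set G) →* ℂˣ)
    (hfg : Om2 x y b f g) (i j l : ℕ)
    (h : x ^ i * y ^ j * b ^ l ∈ Subgroup.centralizer ({x} : Set G))
    (hx : x ∈ Subgroup.centralizer ({x} : Set G)) :
    f ⟨x ^ i * y ^ j * b ^ l, h⟩ = f ⟨x, hx⟩ ^ i ∧
      ((g ⟨x ^ i * y ^ j * b ^ l, h⟩ : ℂˣ) : ℂ) = (-1) ^ l := by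
  have hy : y ∈ Subgroup.centralizer ({x} : Set G) :=
    (mem_centralizer_x_iff hc y).2 ⟨0, 1, 0, by simp⟩
  have hb : b ∈ Subgroup.centralizer ({x} : Set G) :=
    (mem_centralizer_x_iff hc b).2 ⟨0, 0, 1, by simp⟩
  have e : (⟨x ^ i * y ^ j * b ^ l, h⟩ : Subgroup.centralizer ({x} : Set G)) =
      ⟨x, hx⟩ ^ i * ⟨y, hy⟩ ^ j * ⟨b, hb⟩ ^ l := by
    apply Subtype.ext
    simp
  constructor
  · rw [e, map_mul, map_mul, map_pow, map_pow, map_pow, hfg.fy hy, hfg.fb hb, one_pow, one_pow,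
      mul_one, mul_one]
  · rw [e, map_mul, map_mul, map_pow, map_pow, map_pow, hfg.gx hx, hfg.gy hy, hfg.gb hb, one_pow,
      one_pow, one_mul, one_mul]
    simp

/-- `|C_G(x)| = 18`. -/
theorem card_Cx [Finite G] (hc : Cfg T N x y a b w) :
    Nat.card (Subgroup.centralizer ({x} : Set G)) = 18 := by
  let e : Fin 3 × Fin 3 × Fin 2 → Subgroup.centralizer ({x} : Set G) := fun p =>
    ⟨x ^ (p.1 : ℕ) * y ^ (p.2.1 : ℕ) * b ^ (p.2.2 : ℕ),
      (mem_centralizer_x_iff hc _).2 ⟨_, _, _, rfl⟩⟩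
  have hinj : Function.Injective e := by
    rintro ⟨i, j, l⟩ ⟨i', j', l'⟩ h
    have h' : x ^ (i : ℕ) * y ^ (j : ℕ) * b ^ (l : ℕ) =
        x ^ (i' : ℕ) * y ^ (j' : ℕ) * b ^ (l' : ℕ) := congrArg Subtype.val h
    have h'' : x ^ (i : ℕ) * y ^ (j : ℕ) * a ^ 0 * b ^ (l : ℕ) =
        x ^ (i' : ℕ) * y ^ (j' : ℕ) * a ^ 0 * b ^ (l' : ℕ) := by simpa using h'
    obtain ⟨h1, h2, -, h4⟩ := nf4_unique hc _ _ _ _ _ _ _ _ h''
    simp only [Prod.mk.injEq]
    refine ⟨Fin.ext ?_, Fin.ext ?_, Fin.ext ?_⟩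
    · have := i.2; have := i'.2; omega
    · have := j.2; have := j'.2; omega
    · have := l.2; have := l'.2; omega
  have hsurj : Function.Surjective e := by
    rintro ⟨g, hg⟩
    obtain ⟨i, j, l, rfl⟩ := (mem_centralizer_x_iff hc g).1 hg
    refine ⟨(⟨i % 3, Nat.mod_lt _ (by norm_num)⟩, ⟨j % 3, Nat.mod_lt _ (by norm_num)⟩,
      ⟨l % 2, Nat.mod_lt _ (by norm_num)⟩), ?_⟩
    apply Subtype.ext
    show x ^ (i % 3) * y ^ (j % 3) * b ^ (l % 2) = _
    rw [← x_pow_mod hc, ← y_pow_mod hc, ← b_pow_mod hc]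
  rw [← Nat.card_congr (Equiv.ofBijective e ⟨hinj, hsurj⟩)]
  simp [Nat.card_eq_fintype_card]

/-- The piece NF. -/
theorem main : D8Stmt.NF.{u} := by
  intro G _ _ T N x y a b w hc
  exact ⟨mem_T_iff hc, mem_N_iff hc, nf_unique hc, prod_rule hc, mem_centralizer_x_iff hc,
    fun f g hfg i j l h hx => fg_apply hc f g hfg i j l h hx, card_Cx hc⟩

end Cfsg.Agent.Lib.Helper32.D8NF
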