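import Mathlib
import Cfsg.Agent.Lib.Helper32.D8Stmt
import Cfsg.Agent.Lib.Helper32.D8Asm
import Cfsg.Agent.Lib.Helper1.D8MOD9
import Cfsg.Agent.Lib.Helper1.D8ZERO
import Cfsg.Agent.Lib.Helper11.D8CS2
import Cfsg.Agent.Lib.Helper12.D8LOCaw
import Cfsg.Agent.Lib.Helper12.D8LOCwz
import Cfsg.Agent.Lib.Helper12.D8LOCzw
import Cfsg.Agent.Lib.Helper15.D8INVCL
import Cfsg.Agent.Lib.Helper16.D8CFGB
import Cfsg.Agent.Lib.Helper17.D8FIB2b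
import Cfsg.Agent.Lib.Helper17.D8PAIRSUM2
import Cfsg.Agent.Lib.Helper20.D8C2T
import Cfsg.Agent.Lib.Helper26.D8CROSS
import Cfsg.Agent.Lib.Helper26.D8GENCH
import Cfsg.Agent.Lib.Helper26.D8VALD
import Cfsg.Agent.Lib.Helper29.D8BBINV
import Cfsg.Agent.Lib.Helper30.D8VALA
import Cfsg.Agent.Lib.Helper30.D8VALB
import Cfsg.Agent.Lib.Helper31.D8TRI
import Cfsg.Agent.Lib.Helper32.D8NF
import Cfsg.Agent.Lib.Helper35.D8CFGA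
import Cfsg.Agent.Lib.Helper38.D8DUAL
import Cfsg.Agent.Lib.Helper46.D8CSD1
import Cfsg.Agent.Lib.Helper48.D8PAIR
import Cfsg.Agent.Lib.Helper50.D8GRAMX
import Cfsg.Agent.Lib.Helper50.D8IP
import Cfsg.Agent.Lib.Helper51.D8CASE1
import Cfsg.Agent.Lib.Helper53.D8COMMON
import Cfsg.Agent.Lib.Helper53.D8XM
import Cfsg.Agent.Lib.Helper58.D8LOCaa
import Cfsg.Agent.Lib.Helper61.D8C2A
import Cfsg.Agent.Lib.Helper61.D8CS3
import Cfsg.Agent.Lib.Helper62.D8KER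
import Cfsg.Agent.Lib.Helper62.D8LIN
import Cfsg.Agent.Lib.Helper65.D8RED2
import Cfsg.Agent.Lib.Helper67.D8ALGB
import Cfsg.Agent.Lib.Helper7.D8LOCaz
import Cfsg.Agent.Lib.Helper7.D8LOCww
import Cfsg.Agent.Lib.Helper70.D8NOFUS
import Cfsg.Agent.Lib.Helper70.D8TI
import Cfsg.Agent.Lib.Helper71.D8CS1
import Cfsg.Agent.Lib.Helper72.D8C2B
import Cfsg.Agent.Lib.Helper79.D8COMMONNEG
import Cfsg.Agent.Lib.Helper79.D8MULT4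
import Cfsg.Agent.Lib.Helper8.D8OMEGA2
import Cfsg.Agent.Lib.Helper84.D8CSD2
import Cfsg.Agent.Lib.Helper85.D8CASE2
import Cfsg.Agent.Lib.Helper95.D8ALG2
import Cfsg.Agent.Lib.Helper95.D8LOCza
import Cfsg.Agent.Lib.Helper97.D8LOCzz

/-!
# S3716: all pieces put together
-/

set_option autoImplicit false

namespace Cfsg.Agent.Lib.Helper32.D8Final

open Cfsg
open Cfsg.Agent.Lib.Helper32

universe u

/-- The statement S3716 (in universe `u`). -/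
theorem full
    {G : Type u} [Group G] [Finite G] (M : Sylow 3 G)
    (hM9 : Nat.card ↥(M : Subgroup G) = 9)
    (hMel : ∀ m ∈ (M : Subgroup G), m ^ 3 = 1)
    (hCM : Subgroup.centralizer ((M : Subgroup G) : Set G) = (M : Subgroup G))
    (N : Subgroup G) (hN : N = Subgroup.normalizer ((M : Subgroup G) : Set G))
    (hCg : ∀ g ∈ (M : Subgroup G), g ≠ 1 → Subgroup.centralizer ({g} : Set G) ≤ N)
    (hS : ∀ S : Sylow 2 ↥N, Nonempty (↥(S : Subgroup ↥N) ≃* DihedralGroup 4)) :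
    ¬ IsSimpleGroup G :=
  have hCFGA : D8Stmt.CFGA.{u} := Cfsg.Agent.Lib.Helper35.D8CFGA.main
  have hCFGB : D8Stmt.CFGB.{u} := Cfsg.Agent.Lib.Helper16.D8CFGB.main
  have hGENCH : D8Stmt.GENCH.{u} := Cfsg.Agent.Lib.Helper26.D8GENCH.main
  have hNF : D8Stmt.NF.{u} := Cfsg.Agent.Lib.Helper32.D8NF.main
  have hZERO : D8Stmt.ZERO.{u} := Cfsg.Agent.Lib.Helper1.D8ZERO.main hNF
  have hIP : D8Stmt.IP.{u} := Cfsg.Agent.Lib.Helper50.D8IP.main hNF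
  have hTI : D8Stmt.TI.{u} := Cfsg.Agent.Lib.Helper70.D8TI.main
  have hVALA : D8Stmt.VALA.{u} := Cfsg.Agent.Lib.Helper30.D8VALA.main hNF hTI
  have hVALB : D8Stmt.VALB.{u} := Cfsg.Agent.Lib.Helper30.D8VALB.main hNF hTI
  have hGRAMX : D8Stmt.GRAMX.{u} := Cfsg.Agent.Lib.Helper50.D8GRAMX.main hIP hVALA hVALB
  have hDUAL : D8Stmt.DUAL.{u} := Cfsg.Agent.Lib.Helper38.D8DUAL.main
  have hVALD : D8Stmt.VALD.{u} := Cfsg.Agent.Lib.Helper26.D8VALD.main hDUAL hVALA hVALB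
  have hCROSS : D8Stmt.CROSS.{u} := Cfsg.Agent.Lib.Helper26.D8CROSS.main hIP hVALD
  have hNOFUS : D8Stmt.NOFUS.{u} := Cfsg.Agent.Lib.Helper70.D8NOFUS.main hNF
  have hOMEGA2 : D8Stmt.OMEGA2.{u} := Cfsg.Agent.Lib.Helper8.D8OMEGA2.main hNF
  have hPAIRSUM2 : D8Stmt.PAIRSUM2.{u} := Cfsg.Agent.Lib.Helper17.D8PAIRSUM2.main
  have hFIB2b : D8Stmt.FIB2b.{u} := Cfsg.Agent.Lib.Helper17.D8FIB2b.main
  have hRED2 : D8Stmt.RED2.{u} := Cfsg.Agent.Lib.Helper65.D8RED2.main hNF hTI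
  have hINVCL : D8Stmt.INVCL.{u} := Cfsg.Agent.Lib.Helper15.D8INVCL.main hNF
  have hLOCaa : D8Stmt.LOCaa.{u} := Cfsg.Agent.Lib.Helper58.D8LOCaa.main hNF
  have hLOCaw : D8Stmt.LOCaw.{u} := Cfsg.Agent.Lib.Helper12.D8LOCaw.main hNF
  have hLOCww : D8Stmt.LOCww.{u} := Cfsg.Agent.Lib.Helper7.D8LOCww.main hNF
  have hCS1 : D8Stmt.CS1.{u} := Cfsg.Agent.Lib.Helper71.D8CS1.main hPAIRSUM2 hFIB2b hRED2 hINVCL hNF hLOCaa hLOCaw hLOCww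
  have hBBINV : D8Stmt.BBINV.{u} := Cfsg.Agent.Lib.Helper29.D8BBINV.main
  have hCSD1 : D8Stmt.CSD1.{u} := Cfsg.Agent.Lib.Helper46.D8CSD1.main hCS1 hBBINV hDUAL
  have hLOCaz : D8Stmt.LOCaz.{u} := Cfsg.Agent.Lib.Helper7.D8LOCaz.main hNF
  have hLOCza : D8Stmt.LOCza.{u} := Cfsg.Agent.Lib.Helper95.D8LOCza.main hLOCaz
  have hLOCzz : D8Stmt.LOCzz.{u} := Cfsg.Agent.Lib.Helper97.D8LOCzz.main hNF
  have hLOCzw : D8Stmt.LOCzw.{u} := Cfsg.Agent.Lib.Helper12.D8LOCzw.main hNF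
  have hCS2 : D8Stmt.CS2.{u} := Cfsg.Agent.Lib.Helper11.D8CS2.main hPAIRSUM2 hFIB2b hRED2 hINVCL hNF hLOCaa hLOCaz hLOCza hLOCzz hLOCaw hLOCzw hLOCww
  have hLOCwz : D8Stmt.LOCwz.{u} := Cfsg.Agent.Lib.Helper12.D8LOCwz.main hNF
  have hCS3 : D8Stmt.CS3.{u} := Cfsg.Agent.Lib.Helper61.D8CS3.main hPAIRSUM2 hFIB2b hRED2 hINVCL hNF hLOCaa hLOCaz hLOCzz hLOCaw hLOCzw hLOCwz hLOCww
  have hCSD2 : D8Stmt.CSD2.{u} := Cfsg.Agent.Lib.Helper84.D8CSD2.main hDUAL hBBINV hCS3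
  have hMOD9 : D8Stmt.MOD9.{u} := Cfsg.Agent.Lib.Helper1.D8MOD9.main hIP hDUAL hNF
  have hCOMMONNEG : D8Stmt.COMMONNEG.{u} := Cfsg.Agent.Lib.Helper79.D8COMMONNEG.main
  have hPAIR : D8Stmt.PAIR.{u} := Cfsg.Agent.Lib.Helper48.D8PAIR.main
  have hCASE1 : D8Stmt.CASE1.{u} := Cfsg.Agent.Lib.Helper51.D8CASE1.main hCOMMONNEG hPAIR
  have hMULT4 : D8Stmt.MULT4.{u} := Cfsg.Agent.Lib.Helper79.D8MULT4.main
  have hCOMMON : D8Stmt.COMMON.{u} := Cfsg.Agent.Lib.Helper53.D8COMMON.main hMULT4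
  have hXM : D8Stmt.XM.{u} := Cfsg.Agent.Lib.Helper53.D8XM.main hMULT4
  have hALG2 : D8Stmt.ALG2 := Cfsg.Agent.Lib.Helper95.D8ALG2.main
  have hC2A : D8Stmt.C2A.{u} := Cfsg.Agent.Lib.Helper61.D8C2A.main hPAIR hALG2
  have hALGB : D8Stmt.ALGB := Cfsg.Agent.Lib.Helper67.D8ALGB.main
  have hC2B : D8Stmt.C2B.{u} := Cfsg.Agent.Lib.Helper72.D8C2B.main hPAIR hALGB
  have hTRI : D8Stmt.TRI.{u} := Cfsg.Agent.Lib.Helper31.D8TRI.main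
  have hC2T : D8Stmt.C2T.{u} := Cfsg.Agent.Lib.Helper20.D8C2T.main hTRI
  have hCASE2 : D8Stmt.CASE2.{u} := Cfsg.Agent.Lib.Helper85.D8CASE2.main hMULT4 hCOMMON hCOMMONNEG hXM hC2A hC2B hC2T
  have hLIN : D8Stmt.LIN.{u} := Cfsg.Agent.Lib.Helper62.D8LIN.main
  have hKER : D8Stmt.KER.{u} := Cfsg.Agent.Lib.Helper62.D8KER.main
  D8Asm.full hCFGA hCFGB hGENCH hZERO hGRAMX hCROSS hDUAL hNOFUS hOMEGA2 hCS1 hCSD1 hCS2 hCSD2 hMOD9 hCASE1 hCASE2 hLIN hKER M hM9 hMel hCM N hN hCg hS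

end Cfsg.Agent.Lib.Helper32.D8Final
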