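import Mathlib
import Cfsg.Agent.Lib.Helper95.HupP1

/-!
S3360 / P2 (helper12's Huppert split): a faithful absolutely irreducible representation of a
finite group of class ≤ 2 has degree² = index of the centre.
-/

namespace Cfsg.Agent.Lib.Helper32.HupP2

open Module

theorem center_index_eq_sq {L V N : Type*} [Field L] [AddCommGroup V] [Module L V]
    [FiniteDimensional L V] [Nontrivial V] [Group N] [Finite N]
    (r : N →* Module.End L V) (hinj : Function.Injective r)
    (hirr : ∀ W : Submodule L V, (∀ n : N, ∀ w ∈ W, r n w ∈ W) → W = ⊥ ∨ W = ⊤)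
    (hcom : ∀ T : Module.End L V, (∀ n : N, T * r n = r n * T) →
      ∃ c : L, T = c • (1 : Module.End L V))
    (hcl : ∀ a b : N, a * b * a⁻¹ * b⁻¹ ∈ Subgroup.center N) :
    (Subgroup.center N).index = (Module.finrank L V) ^ 2 := by
  classical
  have hr1 : r 1 = 1 := map_one r
  have hmul : ∀ a b, r (a * b) = r a * r b := map_mul r
  have hne : ∀ n : N, r n ≠ 0 := by
    intro n h
    have : (1 : Module.End L V) = 0 := by
      rw [← hr1, ← mul_inv_cancel n, hmul, h, zero_mul]
    exact one_ne_zero this
  -- central elements act as scalars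
  have hscal : ∀ z ∈ Subgroup.center N, ∃ c : L, r z = c • (1 : Module.End L V) := by
    intro z hz
    apply hcom
    intro n
    rw [← hmul, ← hmul]
    congr 1
    exact (Subgroup.mem_center_iff.mp hz n).symm
  -- conjugation multiplies r t by a scalar
  have hconj : ∀ t y : N, ∃ c : L, r y * r t * r y⁻¹ = c • r t := by
    intro t y
    obtain ⟨c, hc⟩ := hscal _ (hcl y t)
    refine ⟨c, ?_⟩
    calc r y * r t * r y⁻¹ = r (y * t * y⁻¹ * t⁻¹ * t) := by
          rw [← hmul, ← hmul]; congr 1; group
      _ = r (y * t * y⁻¹ * t⁻¹) * r t := hmul _ _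
      _ = c • r t := by rw [hc, smul_mul_assoc, one_mul]
  choose χ hχ using hconj
  have huniq : ∀ (t : N) (c c' : L), c • r t = c' • r t → c = c' := by
    intro t c c' h
    by_contra hcc
    have h1 : (c - c') • r t = 0 := by rw [sub_smul, h, sub_self]
    rcases smul_eq_zero.mp h1 with h2 | h2
    · exact hcc (sub_eq_zero.mp h2)
    · exact hne t h2
  have hχ1 : ∀ t, χ t 1 = 1 := by
    intro t
    apply huniq t
    rw [← hχ t 1, one_smul, inv_one, hr1, one_mul, mul_one]
  have hχmul : ∀ t y y', χ t (y * y') = χ t y * χ t y' := by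
    intro t y y'
    apply huniq t
    rw [← hχ t (y * y')]
    calc r (y * y') * r t * r (y * y')⁻¹ = r y * (r y' * r t * r y'⁻¹) * r y⁻¹ := by
          rw [mul_inv_rev, hmul, hmul]; simp only [mul_assoc]
      _ = r y * (χ t y' • r t) * r y⁻¹ := by rw [hχ t y']
      _ = χ t y' • (r y * r t * r y⁻¹) := by rw [mul_smul_comm, smul_mul_assoc]
      _ = (χ t y * χ t y') • r t := by rw [hχ t y, smul_smul, mul_comm]
  let X : N → (N →* L) := fun t =>
    { toFun := χ t
      map_one' := hχ1 t
      map_mul' := hχmul t }
  have hXapp : ∀ t y, X t y = χ t y := fun t y => rfl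
  -- the quotient by the centre
  let Q := N ⧸ Subgroup.center N
  have hout : ∀ q : Q, (QuotientGroup.mk (Quotient.out q) : Q) = q := fun q => Quotient.out_eq' q
  have hXinj : Function.Injective (fun q : Q => X (Quotient.out q)) := by
    intro q q' h
    set t := Quotient.out q with ht
    set t' := Quotient.out q' with ht'
    have hE : ∀ y : N, t⁻¹ * (y * t * y⁻¹) = t'⁻¹ * (y * t' * y⁻¹) := by
      intro y
      apply hinj
      have h1 : χ t y = χ t' y := by
        have := congrArg (fun f : N →* L => f y) h
        exact this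
      have e1 : r (t⁻¹ * (y * t * y⁻¹)) = χ t y • (1 : Module.End L V) := by
        rw [hmul, hmul, hmul, hχ t y, mul_smul_comm, ← hmul, inv_mul_cancel, hr1]
      have e2 : r (t'⁻¹ * (y * t' * y⁻¹)) = χ t' y • (1 : Module.End L V) := by
        rw [hmul, hmul, hmul, hχ t' y, mul_smul_comm, ← hmul, inv_mul_cancel, hr1]
      rw [e1, e2, h1]
    have hc : t' * t⁻¹ ∈ Subgroup.center N := by
      rw [Subgroup.mem_center_iff]
      intro y
      have := hE y
      calc y * (t' * t⁻¹) = t' * (t'⁻¹ * (y * t' * y⁻¹)) * y * t⁻¹ := by group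
        _ = t' * (t⁻¹ * (y * t * y⁻¹)) * y * t⁻¹ := by rw [this]
        _ = t' * t⁻¹ * y := by group
    have hc2 : t⁻¹ * t' ∈ Subgroup.center N := by
      have := (inferInstance : (Subgroup.center N).Normal).conj_mem _ hc t⁻¹
      have e : t⁻¹ * (t' * t⁻¹) * t⁻¹⁻¹ = t⁻¹ * t' := by group
      rwa [e] at this
    rw [← hout q, ← hout q']
    exact QuotientGroup.eq.mpr hc2
  have : Fintype Q := Fintype.ofFinite Q
  -- linear independence of the representatives
  have hLI : LinearIndependent L (fun q : Q => r (Quotient.out q)) := by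
    rw [Fintype.linearIndependent_iff]
    intro c hc q0
    by_contra hq0
    have hD : LinearIndependent L (fun q : Q => ((X (Quotient.out q) : N →* L) : N → L)) :=
      (linearIndependent_monoidHom N L).comp _ hXinj
    rw [Fintype.linearIndependent_iff] at hD
    have hΦ : ∀ Φ : Module.Dual L (Module.End L V), Φ (r (Quotient.out q0)) = 0 := by
      intro Φ
      have h1 : ∑ q : Q, (c q * Φ (r (Quotient.out q))) • ((X (Quotient.out q) : N →* L) : N → L)
          = 0 := by
        funext y
        simp only [Finset.sum_apply, Pi.smul_apply, smul_eq_mul, Pi.zero_apply]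
        have h2 : r y * (∑ q : Q, c q • r (Quotient.out q)) * r y⁻¹
            = ∑ q : Q, (c q * χ (Quotient.out q) y) • r (Quotient.out q) := by
          rw [Finset.mul_sum, Finset.sum_mul]
          refine Finset.sum_congr rfl (fun q _ => ?_)
          rw [mul_smul_comm, smul_mul_assoc, hχ, smul_smul]
        rw [hc, mul_zero, zero_mul] at h2
        have h3 := congrArg Φ h2
        rw [map_zero, map_sum] at h3
        simp only [map_smul, smul_eq_mul] at h3
        rw [h3]
        refine Finset.sum_congr rfl (fun q _ => ?_)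
        rw [hXapp]
        ring
      have h4 := hD _ h1 q0
      exact (mul_eq_zero.mp h4).resolve_left hq0
    have : r (Quotient.out q0) = 0 := (Module.forall_dual_apply_eq_zero_iff L _).mp hΦ
    exact hne _ this
  -- the representatives span
  have hspan : Submodule.span L (Set.range (fun q : Q => r (Quotient.out q))) = ⊤ := by
    rw [eq_top_iff, ← Cfsg.Agent.Lib.Helper95.HupP1.span_range_eq_top r hirr hcom,
      Submodule.span_le]
    rintro _ ⟨n, rfl⟩
    set t := Quotient.out (QuotientGroup.mk n : Q) with ht
    have hz : t⁻¹ * n ∈ Subgroup.center N := QuotientGroup.eq.mp (hout _)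
    obtain ⟨c, hc⟩ := hscal _ hz
    have : r n = c • r t := by
      calc r n = r (t * (t⁻¹ * n)) := by congr 1; group
        _ = r t * r (t⁻¹ * n) := hmul _ _
        _ = c • r t := by rw [hc, mul_smul_comm, mul_one]
    rw [this]
    exact Submodule.smul_mem _ _ (Submodule.subset_span ⟨_, rfl⟩)
  have h1 : Module.finrank L (Module.End L V) = Module.finrank L V ^ 2 := by
    rw [Module.finrank_linearMap, sq]
  have h2 : Fintype.card Q ≤ Module.finrank L (Module.End L V) := hLI.fintype_card_le_finrank
  have h3 : Module.finrank L (Module.End L V) ≤ Fintype.card Q := by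
    have := finrank_range_le_card (R := L) (fun q : Q => r (Quotient.out q))
    rw [Set.finrank, hspan, finrank_top] at this
    exact this
  show Nat.card Q = _
  rw [Nat.card_eq_fintype_card, ← h1]
  omega

end Cfsg.Agent.Lib.Helper32.HupP2
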