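import Mathlib

/-!
S3360 / P3 (helper12's Huppert split): an element centralising the cyclic centre `Z` of a
class-2 normal subgroup `N` and acting trivially on `N / Z` induces an inner automorphism of `N`.
-/

namespace Cfsg.Agent.Lib.Helper32.HupP3

/-- Homs from a finite abelian group into a finite cyclic group: at most `|A|` of them. -/
theorem card_hom_le (A C : Type*) [CommGroup A] [Finite A] [Group C] [Finite C] [IsCyclic C] :
    Nat.card (A →* C) ≤ Nat.card A := by
  classical
  have hm : Nat.card C ≠ 0 := Nat.card_pos.ne'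
  have : NeZero (Nat.card C) := ⟨hm⟩
  have hcard : Nat.card C = Nat.card (rootsOfUnity (Nat.card C) ℂ) :=
    (Complex.card_rootsOfUnity _).symm
  let e : C ≃* rootsOfUnity (Nat.card C) ℂ := mulEquivOfCyclicCardEq hcard
  let ι : C →* ℂˣ := (Subgroup.subtype _).comp e.toMonoidHom
  have hι : Function.Injective ι := by
    intro a b h
    have h1 : (e a : ℂˣ) = (e b : ℂˣ) := h
    exact e.injective (Subtype.ext h1)
  have : NeZero (Monoid.exponent A) := ⟨Monoid.exponent_ne_zero_of_finite⟩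
  have hA : Nat.card (A →* ℂˣ) = Nat.card A :=
    CommGroup.card_monoidHom_of_hasEnoughRootsOfUnity A ℂ
  have : Finite (A →* ℂˣ) := by
    apply Nat.finite_of_card_ne_zero
    rw [hA]
    exact Nat.card_pos.ne'
  rw [← hA]
  refine Nat.card_le_card_of_injective (fun φ : A →* C => ι.comp φ) ?_
  intro φ ψ h
  ext a
  have h1 : ι (φ a) = ι (ψ a) := by
    have := congrArg (fun f : A →* ℂˣ => f a) h
    simpa using this
  exact hι h1

/-- Injective map from a finite abelian group to its `C`-dual, `C` cyclic: surjective. -/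
theorem surjective_of_injective_dual (A C : Type*) [CommGroup A] [Finite A] [Group C] [Finite C]
    [IsCyclic C] (Φ : A → (A →* C)) (hΦ : Function.Injective Φ) : Function.Surjective Φ := by
  have : Finite (A →* C) := by
    have : Finite (A → C) := inferInstance
    exact Finite.of_injective (fun f : A →* C => (f : A → C)) DFunLike.coe_injective
  exact (Function.Injective.bijective_of_nat_card_le hΦ (card_hom_le A C)).2

theorem exists_mem_mul_centralizer {G : Type*} [Group G] (N Z : Subgroup G) [Finite N] [N.Normal]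
    (hZ : ∀ z : G, z ∈ Z ↔ z ∈ N ∧ ∀ n ∈ N, n * z = z * n) (hZc : IsCyclic Z)
    (hcl : ∀ a ∈ N, ∀ b ∈ N, a * b * a⁻¹ * b⁻¹ ∈ Z)
    (g : G) (hgZ : ∀ z ∈ Z, g * z = z * g) (hgN : ∀ y ∈ N, g * y * g⁻¹ * y⁻¹ ∈ Z) :
    ∃ t ∈ N, ∀ y ∈ N, (t⁻¹ * g) * y = y * (t⁻¹ * g) := by
  classical
  have hZN : Z ≤ N := fun z hz => ((hZ z).mp hz).1
  have hZcen : ∀ z ∈ Z, ∀ n ∈ N, n * z = z * n := fun z hz => ((hZ z).mp hz).2
  have : Finite Z := Finite.of_injective (Subgroup.inclusion hZN) (Subgroup.inclusion_injective hZN)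
  -- the subgroup Z inside N is normal (central)
  have hZnn : (Z.subgroupOf N).Normal := by
    refine ⟨fun z hz n => ?_⟩
    rw [Subgroup.mem_subgroupOf] at hz ⊢
    have h1 : (n : G) * (z : G) = (z : G) * (n : G) := hZcen _ hz _ n.2
    have h2 : ((n * z * n⁻¹ : N) : G) = (z : G) := by
      push_cast
      rw [h1]; group
    rw [h2]; exact hz
  -- N / Z is commutative
  let cg : CommGroup (↥N ⧸ Z.subgroupOf N) :=
    { (inferInstance : Group (↥N ⧸ Z.subgroupOf N)) with
      mul_comm := by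
        intro a b
        induction a using QuotientGroup.induction_on with
        | H x =>
          induction b using QuotientGroup.induction_on with
          | H y =>
            rw [← QuotientGroup.mk_mul, ← QuotientGroup.mk_mul, QuotientGroup.eq,
              Subgroup.mem_subgroupOf]
            have := hcl (y : G)⁻¹ (N.inv_mem y.2) (x : G)⁻¹ (N.inv_mem x.2)
            have e : (((x * y)⁻¹ * (y * x) : N) : G)
                = (y : G)⁻¹ * (x : G)⁻¹ * ((y : G)⁻¹)⁻¹ * ((x : G)⁻¹)⁻¹ := by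
              push_cast; group
            rw [e]; exact this }
  -- a general "commutator hom" N → Z for an element h with [h, N] ≤ Z
  have key : ∀ h : G, (∀ y ∈ N, h * y * h⁻¹ * y⁻¹ ∈ Z) → (∀ z ∈ Z, h * z = z * h) →
      ∃ φ : (↥N ⧸ Z.subgroupOf N) →* ↥Z, ∀ y : N,
        ((φ (QuotientGroup.mk y) : Z) : G) = h * (y : G) * h⁻¹ * (y : G)⁻¹ := by
    intro h hhN hhZ
    let γ : ↥N →* ↥Z :=
      { toFun := fun y => ⟨h * (y : G) * h⁻¹ * (y : G)⁻¹, hhN _ y.2⟩
        map_one' := by
          apply Subtype.ext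
          simp
        map_mul' := by
          intro y s
          apply Subtype.ext
          have hc : (h * (s : G) * h⁻¹ * (s : G)⁻¹) ∈ Z := hhN _ s.2
          have hcomm : (y : G)⁻¹ * (h * (s : G) * h⁻¹ * (s : G)⁻¹)
              = (h * (s : G) * h⁻¹ * (s : G)⁻¹) * (y : G)⁻¹ :=
            hZcen _ hc _ (N.inv_mem y.2)
          show h * ((y * s : N) : G) * h⁻¹ * ((y * s : N) : G)⁻¹
            = (h * (y : G) * h⁻¹ * (y : G)⁻¹) * (h * (s : G) * h⁻¹ * (s : G)⁻¹)
          push_cast
          calc h * ((y : G) * (s : G)) * h⁻¹ * ((y : G) * (s : G))⁻¹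
              = h * (y : G) * h⁻¹ * ((h * (s : G) * h⁻¹ * (s : G)⁻¹) * (y : G)⁻¹) := by group
            _ = h * (y : G) * h⁻¹ * ((y : G)⁻¹ * (h * (s : G) * h⁻¹ * (s : G)⁻¹)) := by
                rw [hcomm]
            _ = _ := by group }
    have hker : Z.subgroupOf N ≤ γ.ker := by
      intro z hz
      rw [Subgroup.mem_subgroupOf] at hz
      rw [MonoidHom.mem_ker]
      apply Subtype.ext
      show h * (z : G) * h⁻¹ * (z : G)⁻¹ = 1
      rw [hhZ _ hz]; group
    refine ⟨QuotientGroup.lift (Z.subgroupOf N) γ hker, fun y => ?_⟩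
    rfl
  -- the map t ↦ γ_t on the quotient
  have hex : ∀ t : N, ∃ φ : (↥N ⧸ Z.subgroupOf N) →* ↥Z, ∀ y : N,
        ((φ (QuotientGroup.mk y) : Z) : G) = (t : G) * (y : G) * (t : G)⁻¹ * (y : G)⁻¹ :=
    fun t => key (t : G) (fun y hy => hcl _ t.2 _ hy)
      (fun z hz => hZcen z hz _ t.2)
  choose Ψ hΨ using hex
  have hΨeq : ∀ t s : N, t⁻¹ * s ∈ Z.subgroupOf N → Ψ t = Ψ s := by
    intro t s hts
    rw [Subgroup.mem_subgroupOf] at hts
    ext y
    show ((Ψ t (QuotientGroup.mk y) : Z) : G) = ((Ψ s (QuotientGroup.mk y) : Z) : G)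
    · rw [hΨ t y, hΨ s y]
      have h1 : ((t⁻¹ * s : N) : G) = (t : G)⁻¹ * (s : G) := by push_cast; rfl
      rw [h1] at hts
      have h2 := hZcen _ hts _ y.2
      -- s = t * c with c central
      have h3 : (s : G) = (t : G) * ((t : G)⁻¹ * (s : G)) := by group
      rw [h3]
      calc (t : G) * (y : G) * (t : G)⁻¹ * (y : G)⁻¹
          = (t : G) * ((y : G) * ((t : G)⁻¹ * (s : G))) * ((t : G)⁻¹ * (s : G))⁻¹ * (t : G)⁻¹
              * (y : G)⁻¹ := by group
        _ = (t : G) * (((t : G)⁻¹ * (s : G)) * (y : G)) * ((t : G)⁻¹ * (s : G))⁻¹ * (t : G)⁻¹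
              * (y : G)⁻¹ := by rw [h2]
        _ = _ := by group
  let Φ : (↥N ⧸ Z.subgroupOf N) → ((↥N ⧸ Z.subgroupOf N) →* ↥Z) :=
    fun a => Quotient.liftOn' a Ψ (fun t s h => hΨeq t s (QuotientGroup.leftRel_apply.mp h))
  have hΦmk : ∀ t : N, Φ (QuotientGroup.mk t) = Ψ t := fun t => rfl
  have hΦinj : Function.Injective Φ := by
    intro a b hab
    induction a using QuotientGroup.induction_on with
    | H t =>
      induction b using QuotientGroup.induction_on with
      | H s =>
        rw [hΦmk, hΦmk] at hab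
        rw [QuotientGroup.eq, Subgroup.mem_subgroupOf]
        have h1 : ((t⁻¹ * s : N) : G) = (t : G)⁻¹ * (s : G) := by push_cast; rfl
        rw [h1]
        refine (hZ _).mpr ⟨N.mul_mem (N.inv_mem t.2) s.2, ?_⟩
        intro n hn
        have h2 : (t : G) * n * (t : G)⁻¹ * n⁻¹ = (s : G) * n * (s : G)⁻¹ * n⁻¹ := by
          have := hΨ t ⟨n, hn⟩
          have h' := hΨ s ⟨n, hn⟩
          rw [hab] at this
          rw [this] at h'
          exact h'
        have h3 : (t : G) * n * (t : G)⁻¹ = (s : G) * n * (s : G)⁻¹ := by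
          have := congrArg (fun u => u * n) h2
          simpa using this
        calc n * ((t : G)⁻¹ * (s : G))
            = (t : G)⁻¹ * ((t : G) * n * (t : G)⁻¹) * (s : G) := by group
          _ = (t : G)⁻¹ * ((s : G) * n * (s : G)⁻¹) * (s : G) := by rw [h3]
          _ = (t : G)⁻¹ * (s : G) * n := by group
  have : Finite (↥N ⧸ Z.subgroupOf N) := inferInstance
  have : IsCyclic ↥Z := hZc
  have hsurj := surjective_of_injective_dual (↥N ⧸ Z.subgroupOf N) ↥Z Φ hΦinj
  obtain ⟨δ, hδ⟩ := key g hgN hgZ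
  obtain ⟨a, ha⟩ := hsurj δ
  induction a using QuotientGroup.induction_on with
  | H t =>
    rw [hΦmk] at ha
    refine ⟨(t : G), t.2, fun y hy => ?_⟩
    have h1 := hΨ t ⟨y, hy⟩
    have h2 := hδ ⟨y, hy⟩
    rw [ha, h2] at h1
    have h3 : g * y * g⁻¹ = (t : G) * y * (t : G)⁻¹ := by
      have := congrArg (fun u => u * y) h1
      simpa using this
    calc (t : G)⁻¹ * g * y = (t : G)⁻¹ * (g * y * g⁻¹) * g := by group
      _ = (t : G)⁻¹ * ((t : G) * y * (t : G)⁻¹) * g := by rw [h3]
      _ = y * ((t : G)⁻¹ * g) := by group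

end Cfsg.Agent.Lib.Helper32.HupP3
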