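import Mathlib

/-!
S3360 / P4 (helper12's Huppert split): in a normal subgroup `N` of class ≤ 2 with centre `Z`,
an element `x` of order prime to `|Z|` centralising `Z` and with abelian centraliser in `N`
has `C_N(x) ≤ Z`.
-/

namespace Cfsg.Agent.Lib.Helper32.HupP4

variable {G : Type*} [Group G]

/-- the ordered product `∏_{i<k} x^i w x^-i`. -/
def prodConj (x w : G) : ℕ → G
  | 0 => 1
  | k + 1 => prodConj x w k * (x ^ k * w * (x ^ k)⁻¹)

theorem prodConj_mem (N : Subgroup G) [N.Normal] (x w : G) (hw : w ∈ N) (k : ℕ) :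
    prodConj x w k ∈ N := by
  induction k with
  | zero => exact N.one_mem
  | succ k ih =>
    exact N.mul_mem ih (Subgroup.Normal.conj_mem inferInstance w hw (x ^ k))

theorem conj_prodConj (x w : G) (k : ℕ) :
    x * prodConj x w k * x⁻¹ = w⁻¹ * prodConj x w k * (x ^ k * w * (x ^ k)⁻¹) := by
  induction k with
  | zero => simp [prodConj]
  | succ k ih =>
    have h1 : x * prodConj x w (k + 1) * x⁻¹
        = (x * prodConj x w k * x⁻¹) * (x ^ (k + 1) * w * (x ^ (k + 1))⁻¹) := by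
      simp only [prodConj, pow_succ']
      group
    rw [h1, ih]
    simp only [prodConj]
    group

theorem eq_one_of_coprime (Z : Subgroup G) (ℓ : ℕ) (hℓ : (Nat.card Z).Coprime ℓ)
    (z : G) (hz : z ∈ Z) (hzl : z ^ ℓ = 1) : z = 1 := by
  have h1 : orderOf z ∣ ℓ := orderOf_dvd_of_pow_eq_one hzl
  have h2 : orderOf z ∣ Nat.card Z := Subgroup.orderOf_dvd_natCard Z hz
  have h3 : orderOf z ∣ 1 := by
    have := Nat.dvd_gcd h2 h1
    rwa [Nat.Coprime.gcd_eq_one hℓ] at this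
  exact orderOf_eq_one_iff.mp (Nat.dvd_one.mp h3)

theorem centralizer_le_of_coprime {G : Type*} [Group G] (N Z : Subgroup G) [Finite N] [N.Normal]
    (hZ : ∀ z : G, z ∈ Z ↔ z ∈ N ∧ ∀ n ∈ N, n * z = z * n)
    (hcl : ∀ a ∈ N, ∀ b ∈ N, a * b * a⁻¹ * b⁻¹ ∈ Z)
    (x : G) (ℓ : ℕ) (hx : x ^ ℓ = 1) (hℓ : (Nat.card Z).Coprime ℓ)
    (hxZ : ∀ z ∈ Z, x * z = z * x)
    (hab : ∀ a ∈ N, ∀ b ∈ N, a * x = x * a → b * x = x * b → a * b = b * a) :
    ∀ y ∈ N, y * x = x * y → y ∈ Z := by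
  intro y hyN hyx
  -- central elements commute with N
  have hZc : ∀ z ∈ Z, ∀ n ∈ N, n * z = z * n := fun z hz => ((hZ z).mp hz).2
  have hZN : ∀ z ∈ Z, z ∈ N := fun z hz => ((hZ z).mp hz).1
  -- powers of x centralise Z
  have hxkZ : ∀ k : ℕ, ∀ z ∈ Z, x ^ k * z = z * x ^ k := by
    intro k z hz
    induction k with
    | zero => simp
    | succ k ih =>
      rw [pow_succ, mul_assoc, hxZ z hz, ← mul_assoc, ih, mul_assoc]
  -- powers of x commute with y
  have hyxk : ∀ k : ℕ, y * x ^ k = x ^ k * y := by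
    intro k
    induction k with
    | zero => simp
    | succ k ih =>
      rw [pow_succ, ← mul_assoc, ih, mul_assoc, hyx, ← mul_assoc]
  refine (hZ y).mpr ⟨hyN, ?_⟩
  intro w hw
  set c : G := y * w * y⁻¹ * w⁻¹ with hc
  have hcZ : c ∈ Z := hcl y hyN w hw
  -- commutator of y with the k-th conjugate of w
  have hconj : ∀ k : ℕ, y * (x ^ k * w * (x ^ k)⁻¹) * y⁻¹ * (x ^ k * w * (x ^ k)⁻¹)⁻¹ = c := by
    intro k
    have h1 : y * (x ^ k * w * (x ^ k)⁻¹) * y⁻¹ * (x ^ k * w * (x ^ k)⁻¹)⁻¹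
        = x ^ k * c * (x ^ k)⁻¹ := by
      have e1 : y * x ^ k = x ^ k * y := hyxk k
      have e2 : (x ^ k)⁻¹ * y⁻¹ = y⁻¹ * (x ^ k)⁻¹ := by
        rw [← mul_inv_rev, ← mul_inv_rev, e1]
      calc y * (x ^ k * w * (x ^ k)⁻¹) * y⁻¹ * (x ^ k * w * (x ^ k)⁻¹)⁻¹
          = (y * x ^ k) * w * ((x ^ k)⁻¹ * y⁻¹) * (x ^ k * w⁻¹ * (x ^ k)⁻¹) := by group
        _ = (x ^ k * y) * w * (y⁻¹ * (x ^ k)⁻¹) * (x ^ k * w⁻¹ * (x ^ k)⁻¹) := by rw [e1, e2]
        _ = x ^ k * c * (x ^ k)⁻¹ := by rw [hc]; group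
    rw [h1, hxkZ k c hcZ]
    group
  -- commutator of y with the product is c ^ k
  have hprod : ∀ k : ℕ, y * prodConj x w k * y⁻¹ * (prodConj x w k)⁻¹ = c ^ k := by
    intro k
    induction k with
    | zero => simp [prodConj]
    | succ k ih =>
      have hPN : prodConj x w k ∈ N := prodConj_mem N x w hw k
      have h1 : y * prodConj x w (k + 1) * y⁻¹ * (prodConj x w (k + 1))⁻¹
          = (y * prodConj x w k * y⁻¹)
            * (y * (x ^ k * w * (x ^ k)⁻¹) * y⁻¹ * (x ^ k * w * (x ^ k)⁻¹)⁻¹)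
            * (prodConj x w k)⁻¹ := by
        simp only [prodConj]
        group
      rw [h1, hconj k]
      have h2 : (prodConj x w k)⁻¹ * c = c * (prodConj x w k)⁻¹ :=
        hZc c hcZ _ (N.inv_mem hPN)
      calc y * prodConj x w k * y⁻¹ * c * (prodConj x w k)⁻¹
          = y * prodConj x w k * y⁻¹ * (c * (prodConj x w k)⁻¹) := by group
        _ = y * prodConj x w k * y⁻¹ * ((prodConj x w k)⁻¹ * c) := by rw [h2]
        _ = (y * prodConj x w k * y⁻¹ * (prodConj x w k)⁻¹) * c := by group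
        _ = c ^ (k + 1) := by rw [ih, pow_succ]
  -- P := the full product commutes with x
  set P : G := prodConj x w ℓ with hP
  have hPN : P ∈ N := prodConj_mem N x w hw ℓ
  have hxP : x * P * x⁻¹ = w⁻¹ * P * w := by
    have := conj_prodConj x w ℓ
    rw [hx] at this
    simpa using this
  set z : G := P⁻¹ * w⁻¹ * P * w with hz
  have hzZ : z ∈ Z := by
    have := hcl P⁻¹ (N.inv_mem hPN) w⁻¹ (N.inv_mem hw)
    simpa [hz] using this
  have hxPz : x * P * x⁻¹ = P * z := by rw [hxP, hz]; group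
  have hxkP : ∀ k : ℕ, x ^ k * P * (x ^ k)⁻¹ = P * z ^ k := by
    intro k
    induction k with
    | zero => simp
    | succ k ih =>
      have h1 : x ^ (k + 1) * P * (x ^ (k + 1))⁻¹ = x * (x ^ k * P * (x ^ k)⁻¹) * x⁻¹ := by
        rw [pow_succ']; group
      rw [h1, ih]
      have h2 : x * (P * z ^ k) * x⁻¹ = (x * P * x⁻¹) * (x * z ^ k * x⁻¹) := by group
      rw [h2, hxPz]
      have h3 : x * z ^ k * x⁻¹ = z ^ k := by
        rw [hxZ (z ^ k) (Z.pow_mem hzZ k)]; group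
      rw [h3, pow_succ']
      group
  have hzl : z ^ ℓ = 1 := by
    have := hxkP ℓ
    rw [hx] at this
    simpa using this.symm
  have hz1 : z = 1 := eq_one_of_coprime Z ℓ hℓ z hzZ hzl
  have hPx : P * x = x * P := by
    have : x * P * x⁻¹ = P := by rw [hxPz, hz1, mul_one]
    calc P * x = (x * P * x⁻¹) * x := by rw [this]
      _ = x * P := by group
  have hyP : y * P = P * y := hab y hyN P hPN hyx hPx
  have hcl1 : c ^ ℓ = 1 := by
    rw [← hprod ℓ, ← hP, hyP]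
    group
  have hc1 : c = 1 := eq_one_of_coprime Z ℓ hℓ c hcZ hcl1
  have : y * w * y⁻¹ * w⁻¹ = 1 := hc1
  calc w * y = (y * w * y⁻¹ * w⁻¹) * w * y := by rw [this, one_mul]
    _ = y * w := by group

end Cfsg.Agent.Lib.Helper32.HupP4
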