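import Mathlib
import Cfsg.Agent.S0265
import Cfsg.Agent.Lib.Helper5.SL2Card

/-!
# Maximal subgroups of `PGL₂(q)`: three group-theoretic pieces (helper32, S5891/G1-G3)

`G = PGL(2, F)`, `q = |F|` odd, `L` the image of `SL(2, F)` (index two, simple for `q > 3`).

* `no_small`: a maximal subgroup of `G` has more than two elements.
* `not_dih_five`: for `q = 5` no maximal subgroup not containing `L` is dihedral of order eight
  (Burnside's transfer theorem in `L`).
* `s4_mod8`: a maximal subgroup `≅ S₄` not containing `L` forces `q ≡ 3, 5 (mod 8)`.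
-/

set_option autoImplicit false
set_option linter.unusedSectionVars false
set_option linter.style.haveILetI false

namespace Cfsg.Agent.Lib.Helper32.PglG

open Matrix MatrixGroups

section setup

/-- the image of `SL₂` in `PGL₂` -/
abbrev Lg (F : Type*) [Field F] : Subgroup (Matrix.ProjGenLinGroup (Fin 2) F) :=
  (Matrix.ProjGenLinGroup.mk.comp Matrix.SpecialLinearGroup.toGL).range

variable {F : Type*} [Field F] [Fintype F]

theorem finite_pgl : Finite (Matrix.ProjGenLinGroup (Fin 2) F) :=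
  Finite.of_surjective _ Matrix.ProjGenLinGroup.mk_surjective

theorem card_pgl : Nat.card (Matrix.ProjGenLinGroup (Fin 2) F) =
    Fintype.card F * (Fintype.card F ^ 2 - 1) := by
  rw [Cfsg.Agent.S0265.result 2, Cfsg.Agent.Lib.Helper5.SL2Card.card_SL_two rfl]

theorem range_eq : Lg F =
    (Matrix.ProjectiveSpecialLinearGroup.toPGL (n := Fin 2) (R := F)).range := by
  ext x
  constructor
  · rintro ⟨g, rfl⟩
    exact ⟨QuotientGroup.mk g, rfl⟩
  · rintro ⟨g, rfl⟩
    induction g using QuotientGroup.induction_on with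
    | H g => exact ⟨g, rfl⟩

/-- the image of `SL₂` in `PGL₂` is a copy of `PSL₂` -/
noncomputable def pslEquiv : Matrix.ProjectiveSpecialLinearGroup (Fin 2) F ≃* Lg F :=
  (MonoidHom.ofInjective Matrix.ProjectiveSpecialLinearGroup.toPGL_injective).trans
    (MulEquiv.subgroupCongr range_eq.symm)

theorem two_mul_card_L (hodd : Odd (Fintype.card F)) :
    2 * Nat.card (Lg F) = Fintype.card F * (Fintype.card F ^ 2 - 1) := by
  rw [← Nat.card_congr (pslEquiv (F := F)).toEquiv]
  have h := Cfsg.Agent.Lib.Helper5.SL2Card.card_PSL_two (F := F) rfl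
  have hoddq : Fintype.card F % 2 = 1 := Nat.odd_iff.1 hodd
  have hg : Nat.gcd 2 (Fintype.card F - 1) = 2 := Nat.gcd_eq_left (by omega)
  rw [hg] at h
  rw [← h]; ring

theorem index_L (hodd : Odd (Fintype.card F)) : (Lg F).index = 2 := by
  have h1 := two_mul_card_L hodd
  have h2 := Subgroup.card_mul_index (Lg F)
  rw [card_pgl, ← h1] at h2
  haveI := finite_pgl (F := F)
  have hpos : 0 < Nat.card (Lg F) := Nat.card_pos
  have : Nat.card (Lg F) * (Lg F).index = Nat.card (Lg F) * 2 := by rw [h2]; ring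
  exact Nat.eq_of_mul_eq_mul_left hpos this

theorem simple_L (h3 : 3 < Fintype.card F) : IsSimpleGroup (Lg F) := by
  haveI : IsSimpleGroup (Matrix.ProjectiveSpecialLinearGroup (Fin 2) F) :=
    Matrix.ProjectiveSpecialLinearGroup.rank_two_simple
      (by rw [Nat.card_eq_fintype_card]; omega)
  exact (pslEquiv (F := F)).symm.isSimpleGroup

end setup

section abstract

variable {G : Type*} [Group G]

theorem card_inf_mul_relIndex (H K : Subgroup G) :
    Nat.card (H ⊓ K : Subgroup G) * H.relIndex K = Nat.card K := by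
  have h := Subgroup.card_mul_index ((H ⊓ K).subgroupOf K)
  rw [Nat.card_congr (Subgroup.subgroupOfEquivOfLe (inf_le_right : H ⊓ K ≤ K)).toEquiv] at h
  have e : H.relIndex K = ((H ⊓ K).subgroupOf K).index := (Subgroup.inf_relIndex_right H K).symm
  rw [e]
  exact h

theorem le_normalizer_of_conj_mem (M V : Subgroup G)
    (h : ∀ m ∈ M, ∀ v ∈ V, m * v * m⁻¹ ∈ V) : M ≤ Subgroup.normalizer (V : Set G) := by
  intro m hm
  rw [Subgroup.mem_normalizer_iff]
  intro v
  constructor
  · exact h m hm v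
  · intro hv
    have h1 := h m⁻¹ (M.inv_mem hm) _ hv
    rw [inv_inv] at h1
    have e : m⁻¹ * (m * v * m⁻¹) * m = v := by group
    rwa [e] at h1

/-- `N_G(V) = M` for a nontrivial subgroup `V ≤ M ⊓ L` normalised by the maximal subgroup `M`,
when `M` does not contain the simple subgroup `L`. -/
theorem normalizer_eq_of_simple (L M V : Subgroup G) [IsSimpleGroup L] (hM : IsCoatom M)
    (hML : ¬ L ≤ M) (hV1 : V ≠ ⊥) (hVM : V ≤ M) (hVL : V ≤ L)
    (hnorm : M ≤ Subgroup.normalizer (V : Set G)) : Subgroup.normalizer (V : Set G) = M := by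
  by_contra hne
  have htop : Subgroup.normalizer (V : Set G) = ⊤ := hM.2 _ (lt_of_le_of_ne hnorm (Ne.symm hne))
  haveI hVn : V.Normal := Subgroup.normalizer_eq_top_iff.1 htop
  have hVLn : (V.subgroupOf L).Normal := inferInstance
  rcases hVLn.eq_bot_or_eq_top with h | h
  · rw [Subgroup.subgroupOf_eq_bot] at h
    exact hV1 (by rw [← inf_of_le_left hVL]; exact h.eq_bot)
  · rw [Subgroup.subgroupOf_eq_top] at h
    exact hML (h.trans hVM)

/-- a maximal subgroup of a group of order divisible by `8` and by an odd number `> 1`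
has more than two elements -/
theorem two_lt_card_of_coatom [Finite G] (M : Subgroup G) (hM : IsCoatom M)
    (h8 : 8 ∣ Nat.card G) (r : ℕ) (hr2 : ¬ 2 ∣ r) (hr1 : r ≠ 1) (hr : r ∣ Nat.card G) :
    2 < Nat.card M := by
  haveI : Fact (Nat.Prime 2) := ⟨Nat.prime_two⟩
  by_contra hle
  push Not at hle
  have hpos : 0 < Nat.card M := Nat.card_pos
  have hM2 : IsPGroup 2 M := by
    have h12 : Nat.card M = 1 ∨ Nat.card M = 2 := by omega
    rcases h12 with h | h
    · exact IsPGroup.of_card (n := 0) (by rw [h]; rfl)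
    · exact IsPGroup.of_card (n := 1) (by rw [h]; rfl)
  obtain ⟨P, hP⟩ := hM2.exists_le_sylow
  have hP8 : 2 ^ 3 ∣ Nat.card (P : Subgroup G) := P.pow_dvd_card_of_pow_dvd_card (n := 3) h8
  have hlt : M < (P : Subgroup G) := by
    refine lt_of_le_of_ne hP ?_
    intro h
    rw [← h] at hP8
    have := Nat.le_of_dvd hpos hP8
    omega
  have htop := hM.2 _ hlt
  obtain ⟨k, hk⟩ := IsPGroup.iff_card.1 P.2
  rw [htop, Subgroup.card_top] at hk
  rw [hk] at hr
  obtain ⟨j, -, rfl⟩ := (Nat.dvd_prime_pow Nat.prime_two).1 hr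
  rcases j with _ | j
  · exact hr1 (pow_zero 2)
  · exact hr2 (dvd_pow_self 2 (Nat.succ_ne_zero j))

/-- a group of order `120` with a simple subgroup `L` of index two has no maximal subgroup of
order eight (which would not contain `L`) -/
theorem no_coatom_eight [Finite G] (L M : Subgroup G) (hL2 : L.index = 2) [IsSimpleGroup L]
    (hG : Nat.card G = 120) (hM : IsCoatom M) (hML : ¬ L ≤ M) (hM8 : Nat.card M = 8) :
    False := by
  haveI : Fact (Nat.Prime 2) := ⟨Nat.prime_two⟩
  haveI hLn : L.Normal := Subgroup.normal_of_index_eq_two hL2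
  have hL60 : Nat.card L = 60 := by
    have h1 := Subgroup.card_mul_index L
    rw [hL2, hG] at h1
    omega
  have hrel : L.relIndex M = 2 := by
    have h1 : L.relIndex M ∣ 2 := hL2 ▸ Subgroup.relIndex_dvd_index_of_normal L M
    have h2 : L.relIndex M ≠ 1 := by
      intro h
      rw [Subgroup.relIndex_eq_one] at h
      have h3 := Subgroup.card_dvd_of_le h
      rw [hM8, hL60] at h3
      omega
    rcases (Nat.dvd_prime Nat.prime_two).1 h1 with h | h
    · exact absurd h h2
    · exact h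
  have hV4 : Nat.card (L ⊓ M : Subgroup G) = 4 := by
    have h1 := card_inf_mul_relIndex L M
    rw [hrel, hM8] at h1
    omega
  have hV1 : (L ⊓ M : Subgroup G) ≠ ⊥ := by
    intro h
    rw [h, Subgroup.card_bot] at hV4
    omega
  have hnorm : M ≤ Subgroup.normalizer ((L ⊓ M : Subgroup G) : Set G) :=
    Subgroup.normal_subgroupOf_iff_le_normalizer_inf.1 inferInstance
  have hN := normalizer_eq_of_simple L M (L ⊓ M) hM hML hV1 inf_le_right inf_le_left hnorm
  -- inside `L`
  have hV'4 : Nat.card ((L ⊓ M).subgroupOf L) = 4 := by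
    rw [Nat.card_congr (Subgroup.subgroupOfEquivOfLe (inf_le_left : L ⊓ M ≤ L)).toEquiv, hV4]
  have hV'2 : IsPGroup 2 ((L ⊓ M).subgroupOf L) := IsPGroup.of_card (n := 2) (by rw [hV'4]; rfl)
  obtain ⟨P, hP⟩ := hV'2.exists_le_sylow
  have hPV : (P : Subgroup L) = (L ⊓ M).subgroupOf L := by
    symm
    apply Subgroup.eq_of_le_of_card_ge hP
    obtain ⟨k, hk⟩ := IsPGroup.iff_card.1 P.2
    have hdvd : Nat.card (P : Subgroup L) ∣ Nat.card L := Subgroup.card_subgroup_dvd_card _
    rw [hk, hL60] at hdvd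
    rw [hk, hV'4]
    by_contra hlt
    push Not at hlt
    have h3 : 3 ≤ k := by
      by_contra h
      push Not at h
      interval_cases k <;> omega
    have h4 : 2 ^ 3 ∣ 60 := (pow_dvd_pow 2 h3).trans hdvd
    omega
  have hcomm : ∀ a b : (L ⊓ M).subgroupOf L, a * b = b * a :=
    (IsPGroup.isMulCommutative_of_card_eq_prime_sq (p := 2) (by rw [hV'4]; rfl)).is_comm.comm
  have hP4 : Nat.card (P : Subgroup L) = 4 := by rw [hPV]; exact hV'4
  have hNC : Subgroup.normalizer ((P : Subgroup L) : Set L) ≤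
      Subgroup.centralizer ((P : Subgroup L) : Set L) := by
    rw [hPV]
    intro x hx
    have hxV : x ∈ (L ⊓ M).subgroupOf L := by
      rw [← Subgroup.subgroupOf_normalizer_eq inf_le_left, Subgroup.mem_subgroupOf, hN] at hx
      rw [Subgroup.mem_subgroupOf]
      exact ⟨x.2, hx⟩
    rw [Subgroup.mem_centralizer_iff]
    intro y hy
    have h1 := hcomm ⟨y, hy⟩ ⟨x, hxV⟩
    exact congrArg Subtype.val h1
  have hcompl := MonoidHom.ker_transferSylow_isComplement' P hNC
  have hcard := hcompl.card_mul_card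
  rw [hP4, hL60] at hcard
  rcases (MonoidHom.normal_ker (MonoidHom.transferSylow P hNC)).eq_bot_or_eq_top with h | h
  · rw [h, Subgroup.card_bot] at hcard
    omega
  · rw [h, Subgroup.card_top, hL60] at hcard
    omega

end abstract

section s4

set_option maxRecDepth 1000000 in
theorem v4_comm : ∀ a : Equiv.Perm (Fin 4), a ^ 2 = 1 → Equiv.Perm.sign a = 1 →
    ∀ b : Equiv.Perm (Fin 4), b ^ 2 = 1 → Equiv.Perm.sign b = 1 → a * b = b * a := by
  decide

set_option maxRecDepth 1000000 in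
theorem v4_sq : ∀ a : Equiv.Perm (Fin 4), a ^ 2 = 1 → Equiv.Perm.sign a = 1 →
    ∃ h : Equiv.Perm (Fin 4), h * h = a := by
  decide

/-- the Klein four-group in `S₄` -/
def V4 : Subgroup (Equiv.Perm (Fin 4)) where
  carrier := {g | g ^ 2 = 1 ∧ Equiv.Perm.sign g = 1}
  mul_mem' := by
    rintro a b ⟨ha1, ha2⟩ ⟨hb1, hb2⟩
    refine ⟨?_, by rw [map_mul, ha2, hb2, one_mul]⟩
    have hc := v4_comm a ha1 ha2 b hb1 hb2
    rw [(Commute.mul_pow hc 2), ha1, hb1, one_mul]
  one_mem' := ⟨one_pow 2, map_one _⟩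
  inv_mem' := by
    rintro a ⟨ha1, ha2⟩
    exact ⟨by rw [inv_pow, ha1, inv_one], by rw [map_inv, ha2, inv_one]⟩

instance instDecV4 : DecidablePred (· ∈ V4) := fun g =>
  inferInstanceAs (Decidable (g ^ 2 = 1 ∧ Equiv.Perm.sign g = 1))

set_option maxRecDepth 1000000 in
theorem card_V4 : Nat.card V4 = 4 := by
  rw [Nat.card_eq_fintype_card]
  decide

theorem V4_conj (g : Equiv.Perm (Fin 4)) (hg : g ∈ V4) (x : Equiv.Perm (Fin 4)) :
    x * g * x⁻¹ ∈ V4 := by
  obtain ⟨h1, h2⟩ := hg
  refine ⟨?_, ?_⟩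
  · rw [conj_pow, h1, mul_one, mul_inv_cancel]
  · rw [map_mul, map_mul, map_inv, h2, mul_one, mul_inv_cancel]

variable {G : Type*} [Group G]

/-- if a maximal subgroup `M ≅ S₄` does not contain the simple subgroup `L` of index two,
then `8` does not divide `|L|` -/
theorem not_eight_dvd_of_s4 [Finite G] (L M : Subgroup G) (hL2 : L.index = 2) [IsSimpleGroup L]
    (hM : IsCoatom M) (hML : ¬ L ≤ M) (e : M ≃* Equiv.Perm (Fin 4)) : ¬ 8 ∣ Nat.card L := by
  haveI : Fact (Nat.Prime 2) := ⟨Nat.prime_two⟩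
  haveI hLn : L.Normal := Subgroup.normal_of_index_eq_two hL2
  intro h8
  have hM24 : Nat.card M = 24 := by
    rw [Nat.card_congr e.toEquiv, Nat.card_eq_fintype_card, Fintype.card_perm, Fintype.card_fin]
    rfl
  -- the Klein four-group of `M`
  have hinj : Function.Injective (M.subtype.comp e.symm.toMonoidHom) :=
    M.subtype_injective.comp e.symm.injective
  have hV4 : Nat.card (V4.map (M.subtype.comp e.symm.toMonoidHom)) = 4 := by
    rw [Subgroup.card_map_of_injective hinj, card_V4]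
  have hVM : V4.map (M.subtype.comp e.symm.toMonoidHom) ≤ M := by
    rintro _ ⟨g, -, rfl⟩
    exact (e.symm g).2
  have hVL : V4.map (M.subtype.comp e.symm.toMonoidHom) ≤ L := by
    rintro _ ⟨g, hg, rfl⟩
    obtain ⟨h, rfl⟩ := v4_sq g hg.1 hg.2
    have h1 : (M.subtype.comp e.symm.toMonoidHom) (h * h) =
        ((e.symm h : M) : G) * ((e.symm h : M) : G) := by
      rw [map_mul]; rfl
    rw [h1]
    exact Subgroup.mul_self_mem_of_index_two hL2 _
  have hnorm : M ≤ Subgroup.normalizer
      ((V4.map (M.subtype.comp e.symm.toMonoidHom) : Subgroup G) : Set G) := by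
    apply le_normalizer_of_conj_mem
    rintro m hm _ ⟨g, hg, rfl⟩
    refine ⟨e ⟨m, hm⟩ * g * (e ⟨m, hm⟩)⁻¹, V4_conj g hg _, ?_⟩
    show ((e.symm (e ⟨m, hm⟩ * g * (e ⟨m, hm⟩)⁻¹) : M) : G) = m * ((e.symm g : M) : G) * m⁻¹
    rw [map_mul, map_mul, map_inv, MulEquiv.symm_apply_apply]
    rfl
  have hV1 : V4.map (M.subtype.comp e.symm.toMonoidHom) ≠ ⊥ := by
    intro h
    rw [h, Subgroup.card_bot] at hV4
    omega
  have hN := normalizer_eq_of_simple L M _ hM hML hV1 hVM hVL hnorm
  generalize V4.map (M.subtype.comp e.symm.toMonoidHom) = V at hV4 hVM hVL hnorm hV1 hN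
  -- a subgroup of order `8` of `L` containing `V`
  have hV'4 : Nat.card (V.subgroupOf L) = 2 ^ 2 := by
    rw [Nat.card_congr (Subgroup.subgroupOfEquivOfLe hVL).toEquiv, hV4]
    rfl
  obtain ⟨K', hK'8, hK'V⟩ := Sylow.exists_subgroup_card_pow_succ (p := 2) (n := 2) h8 hV'4
  have hK8 : Nat.card (K'.map L.subtype) = 8 := by
    rw [Subgroup.card_map_of_injective L.subtype_injective, hK'8]
    rfl
  have hKL : K'.map L.subtype ≤ L := Subgroup.map_subtype_le K'
  have hVK : V ≤ K'.map L.subtype := by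
    intro x hx
    exact ⟨⟨x, hVL hx⟩, hK'V (Subgroup.mem_subgroupOf.2 hx), rfl⟩
  generalize K'.map L.subtype = K at hK8 hKL hVK
  have hidx : (V.subgroupOf K).index = 2 := by
    have h1 := Subgroup.card_mul_index (V.subgroupOf K)
    rw [Nat.card_congr (Subgroup.subgroupOfEquivOfLe hVK).toEquiv, hV4, hK8] at h1
    omega
  haveI : (V.subgroupOf K).Normal := Subgroup.normal_of_index_eq_two hidx
  have hKN : K ≤ Subgroup.normalizer (V : Set G) := Subgroup.le_normalizer_of_normal_subgroupOf hVK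
  rw [hN] at hKN
  have hKLM : K ≤ L ⊓ M := le_inf hKL hKN
  have h8' : 8 ∣ Nat.card (L ⊓ M : Subgroup G) := hK8 ▸ Subgroup.card_dvd_of_le hKLM
  have hrel : L.relIndex M ∣ 2 := hL2 ▸ Subgroup.relIndex_dvd_index_of_normal L M
  have hmul := card_inf_mul_relIndex L M
  rw [hM24] at hmul
  rcases (Nat.dvd_prime Nat.prime_two).1 hrel with h | h
  · rw [Subgroup.relIndex_eq_one] at h
    have hLtop : L ≠ ⊤ := by
      intro ht
      rw [ht, Subgroup.index_top] at hL2
      omega
    have hML' : M = L := by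
      by_contra hne
      exact hLtop (hM.2 _ (lt_of_le_of_ne h hne))
    exact hML hML'.ge
  · rw [h] at hmul
    obtain ⟨c, hc⟩ := h8'
    omega

end s4

section final

variable {F : Type*} [Field F] [Fintype F]

theorem sq_mod_eight {q : ℕ} (hq : q % 2 = 1) : 8 ∣ q ^ 2 - 1 := by
  have h1 : q ^ 2 % 8 = 1 % 8 := by
    rw [Nat.pow_mod]
    have h8 : q % 8 = 1 ∨ q % 8 = 3 ∨ q % 8 = 5 ∨ q % 8 = 7 := by omega
    rcases h8 with h | h | h | h <;> rw [h]
  exact Nat.dvd_of_mod_eq_zero (Nat.sub_mod_eq_zero_of_mod_eq h1)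

theorem sq_mod_sixteen {q : ℕ} (hq : q % 8 = 1 ∨ q % 8 = 7) : 16 ∣ q ^ 2 - 1 := by
  have h1 : q ^ 2 % 16 = 1 % 16 := by
    rw [Nat.pow_mod]
    have h16 : q % 16 = 1 ∨ q % 16 = 7 ∨ q % 16 = 9 ∨ q % 16 = 15 := by omega
    rcases h16 with h | h | h | h <;> rw [h]
  exact Nat.dvd_of_mod_eq_zero (Nat.sub_mod_eq_zero_of_mod_eq h1)

theorem no_small {F : Type*} [Field F] [Fintype F] (hodd : Odd (Fintype.card F))
    (h3 : 3 < Fintype.card F) (M : Subgroup (Matrix.ProjGenLinGroup (Fin 2) F))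
    (hM : IsCoatom M) : 2 < Nat.card M := by
  haveI := finite_pgl (F := F)
  have hq : Fintype.card F % 2 = 1 := Nat.odd_iff.1 hodd
  refine two_lt_card_of_coatom M hM ?_ (Fintype.card F) (by omega) (by omega) ?_
  · rw [card_pgl]
    exact Dvd.dvd.mul_left (sq_mod_eight hq) _
  · rw [card_pgl]
    exact dvd_mul_right _ _

theorem not_dih_five {F : Type*} [Field F] [Fintype F] (h5 : Fintype.card F = 5)
    (M : Subgroup (Matrix.ProjGenLinGroup (Fin 2) F)) (hM : IsCoatom M)
    (hML : ¬ (Matrix.ProjGenLinGroup.mk.comp Matrix.SpecialLinearGroup.toGL).range ≤ M)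
    (e : M ≃* DihedralGroup 4) : False := by
  haveI := finite_pgl (F := F)
  have hodd : Odd (Fintype.card F) := by rw [h5]; decide
  haveI := simple_L (F := F) (by omega)
  have hG : Nat.card (Matrix.ProjGenLinGroup (Fin 2) F) = 120 := by
    rw [card_pgl, h5]
    rfl
  have hM8 : Nat.card M = 8 := by rw [Nat.card_congr e.toEquiv, DihedralGroup.nat_card]
  exact no_coatom_eight (Lg F) M (index_L hodd) hG hM hML hM8

theorem s4_mod8 {F : Type*} [Field F] [Fintype F] (hodd : Odd (Fintype.card F))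
    (h3 : 3 < Fintype.card F) (M : Subgroup (Matrix.ProjGenLinGroup (Fin 2) F))
    (hM : IsCoatom M)
    (hML : ¬ (Matrix.ProjGenLinGroup.mk.comp Matrix.SpecialLinearGroup.toGL).range ≤ M)
    (e : M ≃* Equiv.Perm (Fin 4)) : Fintype.card F % 8 = 3 ∨ Fintype.card F % 8 = 5 := by
  haveI := finite_pgl (F := F)
  haveI := simple_L (F := F) h3
  have h8 := not_eight_dvd_of_s4 (Lg F) M (index_L hodd) hM hML e
  have hL := two_mul_card_L (F := F) hodd
  have hq : Fintype.card F % 2 = 1 := Nat.odd_iff.1 hodd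
  by_contra hcon
  apply h8
  have h16 : 16 ∣ Fintype.card F ^ 2 - 1 := sq_mod_sixteen (by omega)
  have h16' : 16 ∣ 2 * Nat.card (Lg F) := hL ▸ Dvd.dvd.mul_left h16 _
  omega

end final

end Cfsg.Agent.Lib.Helper32.PglG
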