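import Mathlib
import Cfsg.Agent.Lib.Helper32.S9Stmt
import Cfsg.Agent.Lib.Helper3.Irr
import Cfsg.Agent.Lib.CT.Kernel

/-!
# S3805: assembly of the pieces
-/

set_option autoImplicit false

namespace Cfsg.Agent.Lib.Helper32.S9Asm

open Cfsg
open Cfsg.Agent.Lib.Helper32.S9Stmt
open Cfsg.Agent.Lib.Helper3
open scoped ComplexConjugate

universe u

section

variable {G : Type u} [Group G] [Fintype G] {T N : Subgroup G} {x y a b : G}

omit [Fintype G] in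
theorem om_ne_one {f : Subgroup.centralizer ({x} : Set G) →* ℂˣ} (hf : Om x y b f) : f ≠ 1 := by
  intro h
  have hx : x ∈ Subgroup.centralizer ({x} : Set G) := by
    rw [Subgroup.mem_centralizer_iff]
    intro g hg
    rw [Set.mem_singleton_iff.1 hg]
  exact hf.fx hx (by rw [h]; rfl)

/-- `exc = 1 - Y' + Y''`. -/
theorem excdec (hEXCB : EXCB.{u}) (hEXCNORM : EXCNORM.{u}) (hGEN3 : GEN3.{u}) (hEXC3 : EXC3.{u})
    (hc : Cfg T N x y a b) (f : Subgroup.centralizer ({x} : Set G) →* ℂˣ) (hf : Om x y b f) :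
    ∃ Y' Y'' : G → ℂ, IsIrrCharacter G Y' ∧ IsIrrCharacter G Y'' ∧
      (∀ g, exc x f g = 1 - Y' g + Y'' g) ∧ Y' 1 = Y'' 1 + 1 ∧ Y' ≠ triv G ∧ Y'' ≠ triv G := by
  have hne := om_ne_one hf
  obtain ⟨hgen, h1, htriv, -⟩ := hEXCB x f hne
  have hnorm := hEXCNORM x f hne (hEXC3 hc f hf)
  exact hGEN3 (exc x f) hgen h1 htriv hnorm

/-- The kernel `K_b` and the linear character `lam`. -/
theorem kerlam (hEXCB : EXCB.{u}) (hEXCNORM : EXCNORM.{u}) (hGEN3 : GEN3.{u}) (hEXC3 : EXC3.{u})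
    (hKB : KB.{u}) (hKGRP : KGRP.{u}) (hKCHAR : KCHAR.{u})
    (hc : Cfg T N x y a b) (f : Subgroup.centralizer ({x} : Set G) →* ℂˣ) (hf : Om x y b f)
    (h1 : ¬ IsConj b a) (h2 : ¬ IsConj b (a * b)) :
    ∃ (K : Subgroup G) (Y' lam : G → ℂ), K.Normal ∧
      (∀ g ∈ N, g ∈ K ↔ ∃ j l : ℕ, g = y ^ j * b ^ l) ∧
      (∀ g : G, ∃ k ∈ K, ∃ n ∈ N, g = k * n) ∧
      IsIrrCharacter G Y' ∧ (∀ g, exc x f g = 1 - Y' g + lam g) ∧ Y' 1 = 2 ∧
      Lam x y a b lam := by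
  obtain ⟨Y', Y'', hY', hY'', hexc, hdeg, -, -⟩ :=
    excdec hEXCB hEXCNORM hGEN3 hEXC3 hc f hf
  obtain ⟨hb', hb'', hx'⟩ := hKB hc f hf h1 h2 Y' Y'' hY' hY'' hexc hdeg
  obtain ⟨K, hKn, hK⟩ := CT.Kernel.exists_normal_ker (Irr.IsIrrCharacter.isCharacter hY')
  have hbK : b ∈ K := (hK b).2 hb'
  have hxK : x ∉ K := fun h => hx' ((hK x).1 h)
  obtain ⟨hKN, hKG⟩ := hKGRP hc K hKn hbK hxK
  obtain ⟨e1, e2, e3, e4, e5, e6⟩ :=
    hKCHAR hc f hf K Y' Y'' hKn hK hKN hKG hY' hY'' hexc hdeg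
  exact ⟨K, Y', Y'', hKn, hKN, hKG, hY', hexc, e2, ⟨hY'', e1, e3, e4, e5, e6⟩⟩

/-- Case P1. -/
theorem p1 (hEXCB : EXCB.{u}) (hEXCNORM : EXCNORM.{u}) (hGEN3 : GEN3.{u}) (hEXC3 : EXC3.{u})
    (hKB : KB.{u}) (hKGRP : KGRP.{u}) (hKCHAR : KCHAR.{u}) (hNOFUS : NOFUS.{u})
    (hOMEGA : OMEGA.{u}) (hP1FIN : P1FIN.{u})
    (hc : Cfg T N x y a b) (h1 : ¬ IsConj a (a * b)) (h2 : ¬ IsConj b (a * b)) : N = ⊤ := by
  have hab : ¬ IsConj a b := hNOFUS hc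
  have hba : ¬ IsConj b a := fun h => hab h.symm
  obtain ⟨f, hf⟩ := hOMEGA hc
  obtain ⟨Kb, -, -, hKbn, hKbN, hKbG, -⟩ :=
    kerlam hEXCB hEXCNORM hGEN3 hEXC3 hKB hKGRP hKCHAR hc f hf hba h2
  have hc' := hc.swap
  obtain ⟨f', hf'⟩ := hOMEGA hc'
  have h1' : ¬ IsConj a (b * a) := by rw [← hc.ab]; exact h1
  obtain ⟨Ka, -, -, hKan, hKaN, -, -⟩ :=
    kerlam hEXCB hEXCNORM hGEN3 hEXC3 hKB hKGRP hKCHAR hc' f' hf' hab h1'
  exact hP1FIN hc Ka Kb hKan hKbn hKaN hKbN hKbG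

open Classical in
/-- The class-multiplication sum of `exc` at `u`, in terms of the class-pair sum. -/
theorem excsum (hPAIRSUM : PAIRSUM.{u}) (hFIB2 : FIB2.{u})
    (f : Subgroup.centralizer ({x} : Set G) →* ℂˣ) (u : G) :
    ∑ h : G, exc x f (u * (h * u * h⁻¹)) =
      (Nat.card (Subgroup.centralizer ({x} : Set G)) : ℂ)⁻¹ *
        ((Nat.card (Subgroup.centralizer ({u} : Set G)) : ℂ) ^ 2 *
          ∑ u₁ ∈ Finset.univ.filter (fun v : G => IsConj u v),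
            ∑ u₂ ∈ Finset.univ.filter (fun v : G => IsConj u v),
              extendByZero (Subgroup.centralizer ({x} : Set G)) (phi x f) (u₁ * u₂)) := by
  have h1 := hPAIRSUM (Subgroup.centralizer ({x} : Set G)) (phi x f) u
  have h2 := hFIB2 (fun u₁ u₂ : G =>
    extendByZero (Subgroup.centralizer ({x} : Set G)) (phi x f) (u₁ * u₂)) u
  unfold exc
  rw [h1, h2]

/-- Case P3 is impossible. -/
theorem p3 (hEXCB : EXCB.{u}) (hEXCNORM : EXCNORM.{u}) (hGEN3 : GEN3.{u}) (hEXC3 : EXC3.{u})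
    (hKB : KB.{u}) (hKGRP : KGRP.{u}) (hKCHAR : KCHAR.{u}) (hNOFUS : NOFUS.{u})
    (hOMEGA : OMEGA.{u}) (hPAIRSUM : PAIRSUM.{u}) (hFIB2 : FIB2.{u}) (hSCHUR3 : SCHUR3.{u})
    (hCLSUMA : CLSUMA.{u}) (hCLSUMB : CLSUMB.{u}) (hCARD18 : CARD18.{u})
    (hEXCINV : EXCINV.{u}) (hVALY : VALY.{u}) (hINT2 : INT2.{u}) (hINT3 : INT3.{u})
    (hARITH : ARITH)
    (hc : Cfg T N x y a b) (h1 : IsConj a (a * b)) : False := by
  have hab : ¬ IsConj a b := hNOFUS hc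
  have hba : ¬ IsConj b a := fun h => hab h.symm
  have hbab : ¬ IsConj b (a * b) := fun h => hab (h1.trans h.symm)
  obtain ⟨f, hf⟩ := hOMEGA hc
  obtain ⟨K, Y', lam, -, -, -, hY', hexc, hY'1, hlam⟩ :=
    kerlam hEXCB hEXCNORM hGEN3 hEXC3 hKB hKGRP hKCHAR hc f hf hba hbab
  have hc' := hc.swap
  obtain ⟨f', hf'⟩ := hOMEGA hc'
  obtain ⟨X', X'', hX', hX'', hexc', hdeg', hX'ne, hX''ne⟩ :=
    excdec hEXCB hEXCNORM hGEN3 hEXC3 hc' f' hf'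
  -- the order of G
  set ca : ℂ := (Nat.card (Subgroup.centralizer ({a} : Set G)) : ℂ) with hca
  have hca0 : ca ≠ 0 := by
    rw [hca]
    exact_mod_cast (Nat.card_pos (α := Subgroup.centralizer ({a} : Set G))).ne'
  have hG0 : (Nat.card G : ℂ) ≠ 0 := by
    exact_mod_cast (Nat.card_pos (α := G)).ne'
  have hYa : Y' a = 0 := by
    have := hexc a
    rw [hEXCINV hc f hf a hc.a2, hlam.va] at this
    linear_combination this
  have hord : (Nat.card G : ℂ) = 4 * ca ^ 2 := by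
    have e1 := excsum hPAIRSUM hFIB2 f a
    rw [hCLSUMA hc f hf h1 hab, hCARD18 hc] at e1
    have e2 := hSCHUR3 (exc x f) Y' lam a hY' hlam.irr hexc
    rw [e1, hYa, hlam.va, hlam.one] at e2
    push_cast at e2
    linear_combination (-1 / 2 : ℂ) * e2
  -- the degree equation
  have h1' : IsConj a (b * a) := by rw [← hc.ab]; exact h1
  have hXa : X' a = 1 + X'' a := by
    have := hexc' a
    rw [hEXCINV hc' f' hf' a hc.a2] at this
    linear_combination this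
  obtain ⟨d, hd0, hd⟩ := Irr.IsIrrCharacter.exists_apply_one_pos hX''
  obtain ⟨z, hz⟩ := hINT2 X'' (Irr.IsIrrCharacter.isCharacter hX'') a hc.a2
  have hdC : (d : ℂ) ≠ 0 := by exact_mod_cast hd0.ne'
  have hd1C : (d : ℂ) + 1 ≠ 0 := by exact_mod_cast (Nat.succ_ne_zero d)
  have hdeq : (8 : ℂ) * ((d : ℂ) - z) ^ 2 = 9 * d * (d + 1) := by
    have e1 := excsum hPAIRSUM hFIB2 f' a
    rw [hCLSUMB hc' f' hf' h1' hba, hCARD18 hc'] at e1
    have e2 := hSCHUR3 (exc y f') X' X'' a hX' hX'' hexc'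
    rw [e1, hXa, hdeg', hd, hz, hord] at e2
    push_cast at e2
    field_simp at e2
    rw [← hca] at e2
    have hca2 : ca ^ 2 ≠ 0 := pow_ne_zero 2 hca0
    apply mul_left_cancel₀ hca2
    linear_combination (-1 / 9 : ℂ) * e2
  have hdeqZ : 8 * ((d : ℤ) - z) ^ 2 = 9 * (d : ℤ) * ((d : ℤ) + 1) := by
    exact_mod_cast hdeq
  -- the value at y
  have hvy : X'' y = 1 := hVALY hc f' hf' lam hlam X' X'' hX' hX'' hexc' hdeg' hX'ne hX''ne
  obtain ⟨z', d', hz', hd', hmod⟩ :=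
    hINT3 X'' (Irr.IsIrrCharacter.isCharacter hX'') y b hc.y3 hc.by_
  have hz1 : z' = 1 := by
    rw [hvy] at hz'
    exact_mod_cast hz'.symm
  have hdd : d' = d := by
    rw [hd] at hd'
    exact_mod_cast hd'.symm
  subst hz1 hdd
  have hmod3 : (d' : ℤ) % 3 = 1 := by omega
  exact hARITH (d' : ℤ) z (by exact_mod_cast hd0) hdeqZ hmod3

end

/-- The assembly: all pieces give the statement. -/
theorem final (hCFG : CFG.{u}) (hEXCB : EXCB.{u}) (hEXCNORM : EXCNORM.{u}) (hGEN3 : GEN3.{u})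
    (hEXC3 : EXC3.{u}) (hKB : KB.{u}) (hKGRP : KGRP.{u}) (hKCHAR : KCHAR.{u})
    (hNOFUS : NOFUS.{u}) (hOMEGA : OMEGA.{u}) (hP1FIN : P1FIN.{u})
    (hPAIRSUM : PAIRSUM.{u}) (hFIB2 : FIB2.{u}) (hSCHUR3 : SCHUR3.{u})
    (hCLSUMA : CLSUMA.{u}) (hCLSUMB : CLSUMB.{u}) (hCARD18 : CARD18.{u})
    (hEXCINV : EXCINV.{u}) (hVALY : VALY.{u}) (hINT2 : INT2.{u}) (hINT3 : INT3.{u})
    (hARITH : ARITH)
    {G : Type u} [Group G] [Finite G]
    (T : Sylow 3 G) (hT : Cfsg.IsElementaryAbelian 3 (T : Subgroup G)) (hcard : Nat.card T = 9)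
    (hC : Subgroup.centralizer ((T : Subgroup G) : Set G) = T)
    [hn : ((T : Subgroup G).subgroupOf (Subgroup.normalizer ((T : Subgroup G) : Set G))).Normal]
    (hK : IsKleinFour (↥(Subgroup.normalizer ((T : Subgroup G) : Set G)) ⧸
      (T : Subgroup G).subgroupOf (Subgroup.normalizer ((T : Subgroup G) : Set G))))
    (hloc : ∀ t ∈ (T : Subgroup G), t ≠ 1 →
      Subgroup.centralizer ({t} : Set G) ≤ Subgroup.normalizer ((T : Subgroup G) : Set G)) :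
    Subgroup.normalizer ((T : Subgroup G) : Set G) = ⊤ := by
  have : Fintype G := Fintype.ofFinite G
  obtain ⟨x, y, a, b, hc⟩ := hCFG T hT hcard hC hK hloc
  by_cases h1 : IsConj a (a * b)
  · exact (p3 hEXCB hEXCNORM hGEN3 hEXC3 hKB hKGRP hKCHAR hNOFUS hOMEGA hPAIRSUM hFIB2 hSCHUR3
      hCLSUMA hCLSUMB hCARD18 hEXCINV hVALY hINT2 hINT3 hARITH hc h1).elim
  · by_cases h2 : IsConj b (a * b)
    · have h2' : IsConj b (b * a) := by rw [← hc.ab]; exact h2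
      exact (p3 hEXCB hEXCNORM hGEN3 hEXC3 hKB hKGRP hKCHAR hNOFUS hOMEGA hPAIRSUM hFIB2 hSCHUR3
        hCLSUMA hCLSUMB hCARD18 hEXCINV hVALY hINT2 hINT3 hARITH hc.swap h2').elim
    · exact p1 hEXCB hEXCNORM hGEN3 hEXC3 hKB hKGRP hKCHAR hNOFUS hOMEGA hP1FIN hc h1 h2

end Cfsg.Agent.Lib.Helper32.S9Asm
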