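import Mathlib
import Cfsg.Agent.Lib.Helper32.S9Stmt
import Cfsg.Agent.Lib.Helper32.S9NF
import Cfsg.Agent.Lib.Helper32.S9Grp
import Cfsg.Agent.Lib.Helper32.S9Exc
import Cfsg.Agent.Lib.Helper32.S9Ker

/-!
# S3805 pieces CLSUMA, CLSUMB (class-pair sums)
-/

set_option autoImplicit false

namespace Cfsg.Agent.Lib.Helper32.S9ClSum

open Cfsg
open Cfsg.Agent.Lib.Helper32.S9Stmt
open Cfsg.Agent.Lib.Helper32.S9NF
open Cfsg.Agent.Lib.Helper32.S9Grp
open Cfsg.Agent.Lib.Helper32.S9Exc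
open Cfsg.Agent.Lib.Helper32.S9Ker
open Cfsg.Agent.Lib.CT.FrobRec

universe u

theorem sumA (ω : ℂ) (h : ω ^ 2 + ω + 1 = 0) :
    ∑ p ∈ (Finset.univ.filter (fun p : Fin 3 × Fin 3 × Fin 2 => p.2.2 = 1 ∨ p.2.1 = 0)),
      ∑ q ∈ (Finset.univ.filter (fun p : Fin 3 × Fin 3 × Fin 2 => p.2.2 = 1 ∨ p.2.1 = 0)),
        (1 - ω ^ ((p.1 : ℕ) + 2 * (q.1 : ℕ))) = 144 := by
  simp only [Finset.sum_filter, Fintype.sum_prod_type, Fin.sum_univ_three, Fin.sum_univ_two]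
  simp
  linear_combination (-16 : ℂ) * (1 + ω ^ 2 + ω ^ 4) * h

theorem sumB (ω : ℂ) (h : ω ^ 2 + ω + 1 = 0) :
    ∑ p ∈ (Finset.univ.filter (fun p : Fin 3 × Fin 3 × Fin 2 => p.2.2 = 1 ∨ p.1 = 0)),
      ∑ q ∈ (Finset.univ.filter (fun p : Fin 3 × Fin 3 × Fin 2 => p.2.2 = 1 ∨ p.1 = 0)),
        (if p.2.2 = q.2.2 then
          1 - ω ^ ((p.1 : ℕ) + (if (p.2.2 : ℕ) % 2 = 0 then (q.1 : ℕ) else 2 * (q.1 : ℕ)))
         else 0) = 81 := by
  simp only [Finset.sum_filter, Fintype.sum_prod_type, Fin.sum_univ_three, Fin.sum_univ_two]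
  simp
  linear_combination (-9 : ℂ) * (1 + ω ^ 2 + ω ^ 4) * h

variable {G : Type u} [Group G] {T N : Subgroup G} {x y a b : G}

theorem a_ne_one (hc : Cfg T N x y a b) : a ≠ 1 := b_ne_one hc.swap

theorem T_conj_a (hc : Cfg T N x y a b) {s : G} (hs : s ∈ T) :
    ∃ m : ℕ, s * a * s⁻¹ = x ^ m * y ^ 0 * a ^ 1 * b ^ 0 := by
  obtain ⟨i, j, rfl⟩ := (hc.memT s).1 hs
  refine ⟨2 * i, ?_⟩
  rw [mul_inv_eq_iff_eq_mul]
  have key : (x ^ (2 * i) * y ^ 0 * a ^ 1 * b ^ 0) * (x ^ i * y ^ j * a ^ 0 * b ^ 0) =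
      x ^ i * y ^ j * a ^ 1 * b ^ 0 := by
    rw [prod_rule hc]
    apply nf_eq hc
    · rw [if_neg (by norm_num)]; omega
    · rw [if_pos (by norm_num)]; omega
    · omega
    · omega
  simpa using key.symm

theorem T_conj_ab (hc : Cfg T N x y a b) {s : G} (hs : s ∈ T) :
    ∃ m n : ℕ, s * (a * b) * s⁻¹ = x ^ m * y ^ n * a ^ 1 * b ^ 1 := by
  obtain ⟨i, j, rfl⟩ := (hc.memT s).1 hs
  refine ⟨2 * i, 2 * j, ?_⟩
  rw [mul_inv_eq_iff_eq_mul]
  have key : (x ^ (2 * i) * y ^ (2 * j) * a ^ 1 * b ^ 1) * (x ^ i * y ^ j * a ^ 0 * b ^ 0) =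
      x ^ i * y ^ j * a ^ 1 * b ^ 1 := by
    rw [prod_rule hc]
    apply nf_eq hc
    · rw [if_neg (by norm_num)]; omega
    · rw [if_neg (by norm_num)]; omega
    · omega
    · omega
  simpa [mul_assoc] using key.symm

theorem isConj_a_nf (hc : Cfg T N x y a b) (m : ℕ) : IsConj a (x ^ m * y ^ 0 * a ^ 1 * b ^ 0) := by
  rw [isConj_iff]
  refine ⟨x ^ (2 * m), ?_⟩
  rw [mul_inv_eq_iff_eq_mul]
  have key : (x ^ m * y ^ 0 * a ^ 1 * b ^ 0) * (x ^ (2 * m) * y ^ 0 * a ^ 0 * b ^ 0) =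
      (x ^ (2 * m) * y ^ 0 * a ^ 0 * b ^ 0) * (x ^ 0 * y ^ 0 * a ^ 1 * b ^ 0) := by
    rw [prod_rule hc, prod_rule hc]
    apply nf_eq hc
    · rw [if_neg (by norm_num), if_pos (by norm_num)]; omega
    · omega
    · omega
    · omega
  simpa using key.symm

theorem isConj_b_nf (hc : Cfg T N x y a b) (m : ℕ) : IsConj b (x ^ 0 * y ^ m * a ^ 0 * b ^ 1) := by
  rw [isConj_iff]
  refine ⟨y ^ (2 * m), ?_⟩
  rw [mul_inv_eq_iff_eq_mul]
  have key : (x ^ 0 * y ^ m * a ^ 0 * b ^ 1) * (x ^ 0 * y ^ (2 * m) * a ^ 0 * b ^ 0) =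
      (x ^ 0 * y ^ (2 * m) * a ^ 0 * b ^ 0) * (x ^ 0 * y ^ 0 * a ^ 0 * b ^ 1) := by
    rw [prod_rule hc, prod_rule hc]
    apply nf_eq hc
    · omega
    · rw [if_neg (by norm_num), if_pos (by norm_num)]; omega
    · omega
    · omega
  simpa using key.symm

theorem isConj_ab_nf (hc : Cfg T N x y a b) (m n : ℕ) :
    IsConj (a * b) (x ^ m * y ^ n * a ^ 1 * b ^ 1) := by
  rw [isConj_iff]
  refine ⟨x ^ (2 * m) * y ^ (2 * n), ?_⟩
  rw [mul_inv_eq_iff_eq_mul]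
  have key : (x ^ m * y ^ n * a ^ 1 * b ^ 1) * (x ^ (2 * m) * y ^ (2 * n) * a ^ 0 * b ^ 0) =
      (x ^ (2 * m) * y ^ (2 * n) * a ^ 0 * b ^ 0) * (x ^ 0 * y ^ 0 * a ^ 1 * b ^ 1) := by
    rw [prod_rule hc, prod_rule hc]
    apply nf_eq hc
    · rw [if_neg (by norm_num), if_pos (by norm_num)]; omega
    · rw [if_neg (by norm_num), if_pos (by norm_num)]; omega
    · omega
    · omega
  simpa [mul_assoc] using key.symm

/-- The value of the extension of `phi` on `C_G(x)` in normal form. -/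
theorem ext_val (hc : Cfg T N x y a b) (f : Subgroup.centralizer ({x} : Set G) →* ℂˣ)
    (hf : Om x y b f) (i j l : ℕ) :
    extendByZero (Subgroup.centralizer ({x} : Set G)) (phi x f) (x ^ i * y ^ j * b ^ l) =
      1 - ((f ⟨x, x_mem_cent⟩ : ℂˣ) : ℂ) ^ i := by
  have hm : x ^ i * y ^ j * b ^ l ∈ Subgroup.centralizer ({x} : Set G) :=
    (mem_centralizer_x_iff hc _).2 ⟨_, _, _, rfl⟩
  rw [extendByZero_apply_of_mem _ _ hm]
  unfold phi
  rw [f_apply hc f hf i j l hm x_mem_cent]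
  simp

/-- The extension of `phi` vanishes on normal forms with an odd power of `a`. -/
theorem ext_zero (hc : Cfg T N x y a b) (f : Subgroup.centralizer ({x} : Set G) →* ℂˣ)
    (i j k l : ℕ) (hk : k % 2 = 1) :
    extendByZero (Subgroup.centralizer ({x} : Set G)) (phi x f)
      (x ^ i * y ^ j * a ^ k * b ^ l) = 0 := by
  apply extendByZero_apply_of_not_mem
  intro hm
  obtain ⟨i', j', l', e⟩ := (mem_centralizer_x_iff hc _).1 hm
  have e' : x ^ i * y ^ j * a ^ k * b ^ l = x ^ i' * y ^ j' * a ^ 0 * b ^ l' := by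
    rw [e]; simp
  obtain ⟨-, -, h3, -⟩ := nf_unique hc _ _ _ _ _ _ _ _ e'
  omega

theorem omega_rel (hc : Cfg T N x y a b) (f : Subgroup.centralizer ({x} : Set G) →* ℂˣ)
    (hf : Om x y b f) :
    ((f ⟨x, x_mem_cent⟩ : ℂˣ) : ℂ) ^ 2 + ((f ⟨x, x_mem_cent⟩ : ℂˣ) : ℂ) + 1 = 0 := by
  set c : ℂ := ((f ⟨x, x_mem_cent⟩ : ℂˣ) : ℂ) with hcdef
  have hc3 : c ^ 3 = 1 := by
    have := congrArg Units.val (f_pow3 hc f hf ⟨x, x_mem_cent⟩)
    simpa using this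
  have hc1 : c ≠ 1 := fun h => hf.fx x_mem_cent (Units.ext h)
  have h0 : (c - 1) * (c ^ 2 + c + 1) = 0 := by
    have : (c - 1) * (c ^ 2 + c + 1) = c ^ 3 - 1 := by ring
    rw [this, hc3, sub_self]
  rcases mul_eq_zero.1 h0 with h | h
  · exact absurd (sub_eq_zero.1 h) hc1
  · exact h

theorem sq_of_conj {u v : G} (hu : u ^ 2 = 1) (h : IsConj u v) : v ^ 2 = 1 := by
  obtain ⟨c, rfl⟩ := isConj_iff.1 h
  rw [conj_pow, hu]
  group

/-- Vanishing of the terms outside `N`. -/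
theorem ext_van (hc : Cfg T N x y a b) (f : Subgroup.centralizer ({x} : Set G) →* ℂˣ)
    (hf : Om x y b f) (u₁ u₂ : G) (h1 : u₁ ^ 2 = 1) (h2 : u₂ ^ 2 = 1)
    (hne : extendByZero (Subgroup.centralizer ({x} : Set G)) (phi x f) (u₁ * u₂) ≠ 0) :
    u₁ ∈ N ∧ u₂ ∈ N :=
  red hc f hf u₁ u₂ h1 h2 (ext_ne_zero f _ hne)

/-- Reduction of a class-pair sum to the part inside `N`. -/
theorem sum_restrict [Fintype G] [DecidableEq G] (hc : Cfg T N x y a b)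
    (f : Subgroup.centralizer ({x} : Set G) →* ℂˣ) (hf : Om x y b f) (C : Finset G)
    [DecidablePred (· ∈ N)] (hC : ∀ u ∈ C, u ^ 2 = 1) :
    ∑ u₁ ∈ C, ∑ u₂ ∈ C,
        extendByZero (Subgroup.centralizer ({x} : Set G)) (phi x f) (u₁ * u₂) =
      ∑ u₁ ∈ C.filter (· ∈ N), ∑ u₂ ∈ C.filter (· ∈ N),
        extendByZero (Subgroup.centralizer ({x} : Set G)) (phi x f) (u₁ * u₂) := by
  have hinner : ∀ u₁ ∈ C, ∑ u₂ ∈ C.filter (· ∈ N),
        extendByZero (Subgroup.centralizer ({x} : Set G)) (phi x f) (u₁ * u₂) =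
      ∑ u₂ ∈ C, extendByZero (Subgroup.centralizer ({x} : Set G)) (phi x f) (u₁ * u₂) := by
    intro u₁ hu₁
    apply Finset.sum_filter_of_ne
    intro u₂ hu₂ hne
    exact (ext_van hc f hf u₁ u₂ (hC u₁ hu₁) (hC u₂ hu₂) hne).2
  have houter : ∑ u₁ ∈ C.filter (· ∈ N), ∑ u₂ ∈ C,
        extendByZero (Subgroup.centralizer ({x} : Set G)) (phi x f) (u₁ * u₂) =
      ∑ u₁ ∈ C, ∑ u₂ ∈ C,
        extendByZero (Subgroup.centralizer ({x} : Set G)) (phi x f) (u₁ * u₂) := by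
    apply Finset.sum_filter_of_ne
    intro u₁ hu₁ hne
    by_contra hN
    apply hne
    apply Finset.sum_eq_zero
    intro u₂ hu₂
    by_contra hne'
    exact hN (ext_van hc f hf u₁ u₂ (hC u₁ hu₁) (hC u₂ hu₂) hne').1
  rw [← houter]
  apply Finset.sum_congr rfl
  intro u₁ hu₁
  exact (hinner u₁ (Finset.mem_filter.1 hu₁).1).symm

/-- The parametrization for CLSUMA. -/
def EA (x y a b : G) : Fin 3 × Fin 3 × Fin 2 → G :=
  fun p => x ^ (p.1 : ℕ) * y ^ (p.2.1 : ℕ) * a ^ 1 * b ^ (p.2.2 : ℕ)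

/-- The parametrization for CLSUMB. -/
def EB (x y a b : G) : Fin 3 × Fin 3 × Fin 2 → G :=
  fun p => x ^ (p.1 : ℕ) * y ^ (p.2.1 : ℕ) * a ^ (p.2.2 : ℕ) * b ^ 1

theorem EA_inj (hc : Cfg T N x y a b) : Function.Injective (EA x y a b) := by
  rintro ⟨i, j, l⟩ ⟨i', j', l'⟩ h
  have h' : x ^ (i : ℕ) * y ^ (j : ℕ) * a ^ 1 * b ^ (l : ℕ) =
      x ^ (i' : ℕ) * y ^ (j' : ℕ) * a ^ 1 * b ^ (l' : ℕ) := h
  obtain ⟨h1, h2, -, h4⟩ := nf_unique hc _ _ _ _ _ _ _ _ h'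
  simp only [Prod.mk.injEq]
  refine ⟨Fin.ext ?_, Fin.ext ?_, Fin.ext ?_⟩
  · have := i.2; have := i'.2; omega
  · have := j.2; have := j'.2; omega
  · have := l.2; have := l'.2; omega

theorem EB_inj (hc : Cfg T N x y a b) : Function.Injective (EB x y a b) := by
  rintro ⟨i, j, l⟩ ⟨i', j', l'⟩ h
  have h' : x ^ (i : ℕ) * y ^ (j : ℕ) * a ^ (l : ℕ) * b ^ 1 =
      x ^ (i' : ℕ) * y ^ (j' : ℕ) * a ^ (l' : ℕ) * b ^ 1 := h
  obtain ⟨h1, h2, h3, -⟩ := nf_unique hc _ _ _ _ _ _ _ _ h'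
  simp only [Prod.mk.injEq]
  refine ⟨Fin.ext ?_, Fin.ext ?_, Fin.ext ?_⟩
  · have := i.2; have := i'.2; omega
  · have := j.2; have := j'.2; omega
  · have := l.2; have := l'.2; omega

/-- The conjugates of `a` in `N` when `a ~ a * b`, `a ≁ b`. -/
theorem classA [Fintype G] [DecidableEq G] (hc : Cfg T N x y a b) (h1 : IsConj a (a * b))
    (h2 : ¬ IsConj a b) (C : Finset G) (hC : ∀ u, u ∈ C ↔ IsConj a u)
    [DecidablePred (· ∈ N)] :
    C.filter (· ∈ N) =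
      (Finset.univ.filter (fun p : Fin 3 × Fin 3 × Fin 2 => p.2.2 = 1 ∨ p.2.1 = 0)).image
        (EA x y a b) := by
  ext u
  simp only [Finset.mem_filter, Finset.mem_image, Finset.mem_univ, true_and, hC]
  constructor
  · rintro ⟨hconj, hN⟩
    have hsq : u ^ 2 = 1 := sq_of_conj hc.a2 hconj
    rcases inv hc u hN hsq with h | ⟨s, hs, h⟩ | ⟨s, hs, h⟩ | ⟨s, hs, h⟩
    · exfalso
      rw [h] at hconj
      obtain ⟨c, hc'⟩ := isConj_iff.1 hconj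
      apply a_ne_one hc
      calc a = c⁻¹ * (c * a * c⁻¹) * c := by group
        _ = 1 := by rw [hc']; group
    · obtain ⟨m, e⟩ := T_conj_a hc hs
      refine ⟨(⟨m % 3, Nat.mod_lt _ (by norm_num)⟩, ⟨0, by norm_num⟩, ⟨0, by norm_num⟩),
        Or.inr rfl, ?_⟩
      rw [h, e]
      show x ^ (m % 3) * y ^ 0 * a ^ 1 * b ^ 0 = _
      rw [← x_pow_mod hc]
    · exfalso
      apply h2
      have : IsConj b u := by
        rw [h, isConj_iff]
        exact ⟨s, rfl⟩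
      exact hconj.trans this.symm
    · obtain ⟨m, n, e⟩ := T_conj_ab hc hs
      refine ⟨(⟨m % 3, Nat.mod_lt _ (by norm_num)⟩, ⟨n % 3, Nat.mod_lt _ (by norm_num)⟩,
        ⟨1, by norm_num⟩), Or.inl rfl, ?_⟩
      rw [h, e]
      show x ^ (m % 3) * y ^ (n % 3) * a ^ 1 * b ^ 1 = _
      rw [← x_pow_mod hc, ← y_pow_mod hc]
  · rintro ⟨⟨i, j, l⟩, hp, rfl⟩
    have hmemN : EA x y a b (i, j, l) ∈ N := (mem_N_iff hc _).2 ⟨_, _, _, _, rfl⟩
    refine ⟨?_, hmemN⟩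
    have hl : (l : ℕ) = 0 ∨ (l : ℕ) = 1 := by have := l.2; omega
    rcases hl with hl | hl
    · have hj : (j : ℕ) = 0 := by
        rcases hp with h | h
        · exfalso
          have : (l : ℕ) = 1 := by simpa using congrArg Fin.val h
          omega
        · simpa using congrArg Fin.val h
      show IsConj a (x ^ (i : ℕ) * y ^ (j : ℕ) * a ^ 1 * b ^ (l : ℕ))
      rw [hl, hj]
      exact isConj_a_nf hc _
    · show IsConj a (x ^ (i : ℕ) * y ^ (j : ℕ) * a ^ 1 * b ^ (l : ℕ))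
      rw [hl]
      exact h1.trans (isConj_ab_nf hc _ _)

/-- The conjugates of `b` in `N` when `b ~ a * b`, `a ≁ b`. -/
theorem classB [Fintype G] [DecidableEq G] (hc : Cfg T N x y a b) (h1 : IsConj b (a * b))
    (h2 : ¬ IsConj a b) (C : Finset G) (hC : ∀ u, u ∈ C ↔ IsConj b u)
    [DecidablePred (· ∈ N)] :
    C.filter (· ∈ N) =
      (Finset.univ.filter (fun p : Fin 3 × Fin 3 × Fin 2 => p.2.2 = 1 ∨ p.1 = 0)).image
        (EB x y a b) := by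
  ext u
  simp only [Finset.mem_filter, Finset.mem_image, Finset.mem_univ, true_and, hC]
  constructor
  · rintro ⟨hconj, hN⟩
    have hsq : u ^ 2 = 1 := sq_of_conj hc.b2 hconj
    rcases inv hc u hN hsq with h | ⟨s, hs, h⟩ | ⟨s, hs, h⟩ | ⟨s, hs, h⟩
    · exfalso
      rw [h] at hconj
      obtain ⟨c, hc'⟩ := isConj_iff.1 hconj
      apply b_ne_one hc
      calc b = c⁻¹ * (c * b * c⁻¹) * c := by group
        _ = 1 := by rw [hc']; group
    · exfalso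
      apply h2
      have : IsConj a u := by
        rw [h, isConj_iff]
        exact ⟨s, rfl⟩
      exact this.trans hconj.symm
    · obtain ⟨m, e⟩ := T_conj_b hc hs
      refine ⟨(⟨0, by norm_num⟩, ⟨m % 3, Nat.mod_lt _ (by norm_num)⟩, ⟨0, by norm_num⟩),
        Or.inr rfl, ?_⟩
      rw [h, e]
      show x ^ 0 * y ^ (m % 3) * a ^ 0 * b ^ 1 = _
      rw [← y_pow_mod hc]
    · obtain ⟨m, n, e⟩ := T_conj_ab hc hs
      refine ⟨(⟨m % 3, Nat.mod_lt _ (by norm_num)⟩, ⟨n % 3, Nat.mod_lt _ (by norm_num)⟩,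
        ⟨1, by norm_num⟩), Or.inl rfl, ?_⟩
      rw [h, e]
      show x ^ (m % 3) * y ^ (n % 3) * a ^ 1 * b ^ 1 = _
      rw [← x_pow_mod hc, ← y_pow_mod hc]
  · rintro ⟨⟨i, j, k⟩, hp, rfl⟩
    have hmemN : EB x y a b (i, j, k) ∈ N := (mem_N_iff hc _).2 ⟨_, _, _, _, rfl⟩
    refine ⟨?_, hmemN⟩
    have hk : (k : ℕ) = 0 ∨ (k : ℕ) = 1 := by have := k.2; omega
    rcases hk with hk | hk
    · have hi : (i : ℕ) = 0 := by
        rcases hp with h | h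
        · exfalso
          have : (k : ℕ) = 1 := by simpa using congrArg Fin.val h
          omega
        · simpa using congrArg Fin.val h
      show IsConj b (x ^ (i : ℕ) * y ^ (j : ℕ) * a ^ (k : ℕ) * b ^ 1)
      rw [hk, hi]
      exact isConj_b_nf hc _
    · show IsConj b (x ^ (i : ℕ) * y ^ (j : ℕ) * a ^ (k : ℕ) * b ^ 1)
      rw [hk]
      exact h1.trans (isConj_ab_nf hc _ _)

/-- Terms for CLSUMA. -/
theorem termA (hc : Cfg T N x y a b) (f : Subgroup.centralizer ({x} : Set G) →* ℂˣ)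
    (hf : Om x y b f) (p q : Fin 3 × Fin 3 × Fin 2) :
    extendByZero (Subgroup.centralizer ({x} : Set G)) (phi x f) (EA x y a b p * EA x y a b q) =
      1 - ((f ⟨x, x_mem_cent⟩ : ℂˣ) : ℂ) ^ ((p.1 : ℕ) + 2 * (q.1 : ℕ)) := by
  obtain ⟨i, j, l⟩ := p
  obtain ⟨i', j', l'⟩ := q
  have e : EA x y a b (i, j, l) * EA x y a b (i', j', l') =
      x ^ ((i : ℕ) + 2 * (i' : ℕ)) *
        y ^ ((j : ℕ) + if (l : ℕ) % 2 = 0 then (j' : ℕ) else 2 * (j' : ℕ)) *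
        b ^ ((l : ℕ) + (l' : ℕ)) := by
    show (x ^ (i : ℕ) * y ^ (j : ℕ) * a ^ 1 * b ^ (l : ℕ)) *
      (x ^ (i' : ℕ) * y ^ (j' : ℕ) * a ^ 1 * b ^ (l' : ℕ)) = _
    rw [prod_rule hc, if_neg (by norm_num), show 1 + 1 = 2 by norm_num, hc.a2, mul_one]
  rw [e, ext_val hc f hf]

/-- Terms for CLSUMB. -/
theorem termB (hc : Cfg T N x y a b) (f : Subgroup.centralizer ({x} : Set G) →* ℂˣ)
    (hf : Om x y b f) (p q : Fin 3 × Fin 3 × Fin 2) :
    extendByZero (Subgroup.centralizer ({x} : Set G)) (phi x f) (EB x y a b p * EB x y a b q) =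
      (if p.2.2 = q.2.2 then
        1 - ((f ⟨x, x_mem_cent⟩ : ℂˣ) : ℂ) ^
          ((p.1 : ℕ) + (if (p.2.2 : ℕ) % 2 = 0 then (q.1 : ℕ) else 2 * (q.1 : ℕ)))
       else 0) := by
  obtain ⟨i, j, k⟩ := p
  obtain ⟨i', j', k'⟩ := q
  have e : EB x y a b (i, j, k) * EB x y a b (i', j', k') =
      x ^ ((i : ℕ) + if (k : ℕ) % 2 = 0 then (i' : ℕ) else 2 * (i' : ℕ)) *
        y ^ ((j : ℕ) + 2 * (j' : ℕ)) * a ^ ((k : ℕ) + (k' : ℕ)) * b ^ (1 + 1) := by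
    show (x ^ (i : ℕ) * y ^ (j : ℕ) * a ^ (k : ℕ) * b ^ 1) *
      (x ^ (i' : ℕ) * y ^ (j' : ℕ) * a ^ (k' : ℕ) * b ^ 1) = _
    rw [prod_rule hc, if_neg (by norm_num : ¬ (1 % 2 = 0))]
  rw [e]
  by_cases hk : k = k'
  · rw [if_pos (show (i, j, k).2.2 = (i', j', k').2.2 from hk)]
    subst hk
    have ea : a ^ ((k : ℕ) + (k : ℕ)) = 1 := by rw [← two_mul, pow_mul, hc.a2, one_pow]
    rw [ea, mul_one, ext_val hc f hf]
  · rw [if_neg (show ¬ (i, j, k).2.2 = (i', j', k').2.2 from hk)]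
    apply ext_zero hc f
    have h1 := k.2
    have h2 := k'.2
    have h3 : (k : ℕ) ≠ (k' : ℕ) := fun h => hk (Fin.ext h)
    omega

open Classical in
/-- CLSUMA. -/
theorem clsuma [Fintype G] (hc : Cfg T N x y a b)
    (f : Subgroup.centralizer ({x} : Set G) →* ℂˣ) (hf : Om x y b f)
    (h1 : IsConj a (a * b)) (h2 : ¬ IsConj a b) :
    ∑ u₁ ∈ Finset.univ.filter (fun v : G => IsConj a v),
      ∑ u₂ ∈ Finset.univ.filter (fun v : G => IsConj a v),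
        extendByZero (Subgroup.centralizer ({x} : Set G)) (phi x f) (u₁ * u₂) = 144 := by
  have hC : ∀ u, u ∈ Finset.univ.filter (fun v : G => IsConj a v) ↔ IsConj a u := by
    intro u; simp
  rw [sum_restrict hc f hf _ (fun u hu => sq_of_conj hc.a2 ((hC u).1 hu)),
    classA hc h1 h2 _ hC]
  rw [Finset.sum_image (fun p _ q _ h => EA_inj hc h)]
  have : ∀ p ∈ (Finset.univ.filter (fun p : Fin 3 × Fin 3 × Fin 2 => p.2.2 = 1 ∨ p.2.1 = 0)),
      ∑ u₂ ∈ (Finset.univ.filter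
          (fun p : Fin 3 × Fin 3 × Fin 2 => p.2.2 = 1 ∨ p.2.1 = 0)).image (EA x y a b),
        extendByZero (Subgroup.centralizer ({x} : Set G)) (phi x f) (EA x y a b p * u₂) =
      ∑ q ∈ (Finset.univ.filter (fun p : Fin 3 × Fin 3 × Fin 2 => p.2.2 = 1 ∨ p.2.1 = 0)),
        (1 - ((f ⟨x, x_mem_cent⟩ : ℂˣ) : ℂ) ^ ((p.1 : ℕ) + 2 * (q.1 : ℕ))) := by
    intro p _
    rw [Finset.sum_image (fun p _ q _ h => EA_inj hc h)]
    exact Finset.sum_congr rfl fun q _ => termA hc f hf p q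
  rw [Finset.sum_congr rfl this]
  exact sumA _ (omega_rel hc f hf)

theorem clsuma_piece : S9Stmt.CLSUMA.{u} := by
  intro G _ _ T N x y a b hc f hf h1 h2
  exact clsuma hc f hf h1 h2

open Classical in
/-- CLSUMB. -/
theorem clsumb [Fintype G] (hc : Cfg T N x y a b)
    (f : Subgroup.centralizer ({x} : Set G) →* ℂˣ) (hf : Om x y b f)
    (h1 : IsConj b (a * b)) (h2 : ¬ IsConj a b) :
    ∑ u₁ ∈ Finset.univ.filter (fun v : G => IsConj b v),
      ∑ u₂ ∈ Finset.univ.filter (fun v : G => IsConj b v),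
        extendByZero (Subgroup.centralizer ({x} : Set G)) (phi x f) (u₁ * u₂) = 81 := by
  have hC : ∀ u, u ∈ Finset.univ.filter (fun v : G => IsConj b v) ↔ IsConj b u := by
    intro u; simp
  rw [sum_restrict hc f hf _ (fun u hu => sq_of_conj hc.b2 ((hC u).1 hu)),
    classB hc h1 h2 _ hC]
  rw [Finset.sum_image (fun p _ q _ h => EB_inj hc h)]
  have : ∀ p ∈ (Finset.univ.filter (fun p : Fin 3 × Fin 3 × Fin 2 => p.2.2 = 1 ∨ p.1 = 0)),
      ∑ u₂ ∈ (Finset.univ.filter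
          (fun p : Fin 3 × Fin 3 × Fin 2 => p.2.2 = 1 ∨ p.1 = 0)).image (EB x y a b),
        extendByZero (Subgroup.centralizer ({x} : Set G)) (phi x f) (EB x y a b p * u₂) =
      ∑ q ∈ (Finset.univ.filter (fun p : Fin 3 × Fin 3 × Fin 2 => p.2.2 = 1 ∨ p.1 = 0)),
        (if p.2.2 = q.2.2 then
          1 - ((f ⟨x, x_mem_cent⟩ : ℂˣ) : ℂ) ^
            ((p.1 : ℕ) + (if (p.2.2 : ℕ) % 2 = 0 then (q.1 : ℕ) else 2 * (q.1 : ℕ)))
         else 0) := by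
    intro p _
    rw [Finset.sum_image (fun p _ q _ h => EB_inj hc h)]
    exact Finset.sum_congr rfl fun q _ => termB hc f hf p q
  rw [Finset.sum_congr rfl this]
  exact sumB _ (omega_rel hc f hf)

theorem clsumb_piece : S9Stmt.CLSUMB.{u} := by
  intro G _ _ T N x y a b hc f hf h1 h2
  exact clsumb hc f hf h1 h2

end Cfsg.Agent.Lib.Helper32.S9ClSum
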