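import Mathlib
import Cfsg.Agent.Lib.Helper32.S9Stmt
import Cfsg.Agent.Lib.Helper32.S9NF
import Cfsg.Agent.Lib.Helper32.S9Grp
import Cfsg.Agent.Lib.Helper32.S9Exc
import Cfsg.Agent.Lib.CT.LinChar
import Cfsg.Agent.Lib.Helper3.Irr

/-!
# S3805 piece KCHAR
-/

set_option autoImplicit false

namespace Cfsg.Agent.Lib.Helper32.S9KChar

open Cfsg
open Cfsg.Agent.Lib.Helper32.S9Stmt
open Cfsg.Agent.Lib.Helper32.S9NF
open Cfsg.Agent.Lib.Helper32.S9Grp
open Cfsg.Agent.Lib.Helper32.S9Exc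
open Cfsg.Agent.Lib.Helper3
open Cfsg.Agent.Lib.CT
open scoped ComplexConjugate

universe u

variable {G : Type u} [Group G] {T N : Subgroup G} {x y a b : G}

/-- `|G| ≤ 6 |K|` when `G = K N` and `<y,b> ≤ K`. -/
theorem card_le_six [Finite G] (hc : Cfg T N x y a b) (K : Subgroup G)
    (hKN : ∀ g ∈ N, g ∈ K ↔ ∃ j l : ℕ, g = y ^ j * b ^ l)
    (hKG : ∀ g : G, ∃ k ∈ K, ∃ n ∈ N, g = k * n) : Nat.card G ≤ 6 * Nat.card K := by
  let e : K × Fin 3 × Fin 2 → G := fun p => (p.1 : G) * (x ^ (p.2.1 : ℕ) * a ^ (p.2.2 : ℕ))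
  have hsurj : Function.Surjective e := by
    intro g
    obtain ⟨k, hk, n, hn, rfl⟩ := hKG g
    obtain ⟨i, j, κ, l, rfl⟩ := (mem_N_iff hc n).1 hn
    have hyb : y ^ j * b ^ l ∈ K := by
      have hN' : y ^ j * b ^ l ∈ N := (mem_N_iff hc _).2 ⟨0, j, 0, l, by simp⟩
      exact (hKN _ hN').2 ⟨j, l, rfl⟩
    refine ⟨(⟨k * (y ^ j * b ^ l), K.mul_mem hk hyb⟩, ⟨i % 3, Nat.mod_lt _ (by norm_num)⟩,
      ⟨κ % 2, Nat.mod_lt _ (by norm_num)⟩), ?_⟩
    show k * (y ^ j * b ^ l) * (x ^ (i % 3) * a ^ (κ % 2)) = k * (x ^ i * y ^ j * a ^ κ * b ^ l)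
    rw [← x_pow_mod hc, ← a_pow_mod hc, mul_assoc]
    congr 1
    have e1 := prod_rule hc 0 j 0 l i 0 κ 0
    have e2 : (x ^ 0 * y ^ j * a ^ 0 * b ^ l) * (x ^ i * y ^ 0 * a ^ κ * b ^ 0) =
        x ^ i * y ^ j * a ^ κ * b ^ l := by
      rw [e1]
      apply nf_eq hc
      · rw [if_pos (by norm_num)]; omega
      · split_ifs <;> omega
      · omega
      · omega
    simpa using e2
  have h := Nat.card_le_card_of_surjective e hsurj
  rw [Nat.card_prod, Nat.card_prod, Nat.card_fin, Nat.card_fin] at h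
  omega

theorem sum_indicator_real [Fintype G] (K : Subgroup G) [DecidablePred (· ∈ K)] (c : ℝ) :
    ∑ t : G, (if t ∈ K then c else 0) = (Nat.card K : ℝ) * c := by
  have h1 : ∀ t : G, (if t ∈ K then c else 0) = c * (if t ∈ K then 1 else 0) := by
    intro t
    split_ifs <;> simp
  simp_rw [h1]
  rw [← Finset.mul_sum, Finset.sum_boole, mul_comm]
  congr 2
  rw [Nat.card_eq_fintype_card]
  exact (Fintype.card_of_subtype _ (fun t => by simp)).symm

/-- KCHAR. -/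
theorem kchar [Fintype G] (hc : Cfg T N x y a b)
    (f : Subgroup.centralizer ({x} : Set G) →* ℂˣ) (hf : Om x y b f)
    (K : Subgroup G) (Y' Y'' : G → ℂ) (hKn : K.Normal) (hK : ∀ g, g ∈ K ↔ Y' g = Y' 1)
    (hKN : ∀ g ∈ N, g ∈ K ↔ ∃ j l : ℕ, g = y ^ j * b ^ l)
    (hKG : ∀ g : G, ∃ k ∈ K, ∃ n ∈ N, g = k * n)
    (hY' : IsIrrCharacter G Y') (hY'' : IsIrrCharacter G Y'')
    (hexc : ∀ g, exc x f g = 1 - Y' g + Y'' g) (hdeg : Y' 1 = Y'' 1 + 1) :
    Y'' 1 = 1 ∧ Y' 1 = 2 ∧ Y'' x = 1 ∧ Y'' y = 1 ∧ Y'' b = 1 ∧ Y'' a = -1 := by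
  classical
  obtain ⟨d, hd0, hd⟩ := Irr.IsIrrCharacter.exists_apply_one_pos hY''
  have hcard := card_le_six hc K hKN hKG
  -- the norm of Y'
  have hnorm : ∑ g : G, Complex.normSq (Y' g) = (Nat.card G : ℝ) := by
    have h1 := Irr.irr_inner_self (⟨Y', hY'⟩ : IrrCharacter G)
    unfold classInner at h1
    have hG0 : (Nat.card G : ℂ) ≠ 0 := by
      exact_mod_cast (Nat.card_pos (α := G)).ne'
    have h2 : ∑ g : G, Y' g * conj (Y' g) = (Nat.card G : ℂ) := by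
      field_simp at h1
      exact h1
    have h3 : ∀ g : G, Y' g * conj (Y' g) = ((Complex.normSq (Y' g) : ℝ) : ℂ) :=
      fun g => Complex.mul_conj (Y' g)
    simp_rw [h3] at h2
    rw [← Complex.ofReal_sum] at h2
    exact_mod_cast h2
  have hle : (Nat.card K : ℝ) * ((d : ℝ) + 1) ^ 2 ≤ (Nat.card G : ℝ) := by
    rw [← hnorm, ← sum_indicator_real K]
    apply Finset.sum_le_sum
    intro g _
    split_ifs with hg
    · rw [(hK g).1 hg, hdeg, hd]
      have : ((d : ℂ) + 1) = (((d : ℝ) + 1 : ℝ) : ℂ) := by push_cast; ring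
      rw [this, Complex.normSq_ofReal]
      nlinarith
    · exact Complex.normSq_nonneg _
  have hd1 : d = 1 := by
    have hKpos : 0 < Nat.card K := Nat.card_pos
    have h6 : (Nat.card G : ℝ) ≤ 6 * (Nat.card K : ℝ) := by exact_mod_cast hcard
    have hKposR : (0 : ℝ) < (Nat.card K : ℝ) := by exact_mod_cast hKpos
    have h7 : ((d : ℝ) + 1) ^ 2 ≤ 6 := by
      by_contra hcon
      push Not at hcon
      nlinarith
    have h8 : (d : ℝ) < 2 := by nlinarith
    have h9 : d < 2 := by exact_mod_cast h8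
    omega
  subst hd1
  have hY''1 : Y'' 1 = 1 := by rw [hd]; simp
  have hY'1 : Y' 1 = 2 := by rw [hdeg, hY''1]; norm_num
  have hchar := Irr.IsIrrCharacter.isCharacter hY''
  -- exc vanishes on K
  have hHN : ∀ t : G, t ∈ Subgroup.centralizer ({x} : Set G) → t ∈ N := fun t ht =>
    hc.loc x (x_mem_T hc) hc.x1 _ (Subgroup.mem_centralizer_iff.1 ht x rfl).symm
  have hx : x ∈ Subgroup.centralizer ({x} : Set G) := x_mem_cent
  have hexcK : ∀ k ∈ K, exc x f k = 0 := by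
    intro k hk
    by_contra hne
    obtain ⟨t, hmem, hfne⟩ := exc_support f k hne
    apply hfne
    have hvK : t⁻¹ * k * t ∈ K := by
      have := hKn.conj_mem k hk t⁻¹
      simpa using this
    obtain ⟨j, l, e⟩ := (hKN _ (hHN _ hmem)).1 hvK
    have e' : t⁻¹ * k * t = x ^ 0 * y ^ j * b ^ l := by rw [e]; simp
    have hm : x ^ 0 * y ^ j * b ^ l ∈ Subgroup.centralizer ({x} : Set G) := e' ▸ hmem
    have : (⟨t⁻¹ * k * t, hmem⟩ : Subgroup.centralizer ({x} : Set G)) =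
        ⟨x ^ 0 * y ^ j * b ^ l, hm⟩ := Subtype.ext e'
    rw [this, f_apply hc f hf 0 j l hm hx, pow_zero]
  have hY''K : ∀ k ∈ K, Y'' k = 1 := by
    intro k hk
    have h1 := hexc k
    rw [hexcK k hk, (hK k).1 hk, hY'1] at h1
    linear_combination -h1
  have hyK : y ∈ K := by
    have hN' : y ∈ N := (mem_N_iff hc _).2 ⟨0, 1, 0, 0, by simp⟩
    exact (hKN _ hN').2 ⟨1, 0, by simp⟩
  have hbK : b ∈ K := by
    have hN' : b ∈ N := (mem_N_iff hc _).2 ⟨0, 0, 0, 1, by simp⟩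
    exact (hKN _ hN').2 ⟨0, 1, by simp⟩
  have hYx : Y'' x = 1 := by
    have h3 : Y'' x ^ 3 = 1 := by
      rw [← LinChar.linear_pow hchar hY''1, hc.x3, hY''1]
    have h2 : Y'' x * Y'' x = 1 := by
      have e1 := LinChar.linear_conj_apply hchar hY''1 x a
      rw [hc.ax, LinChar.linear_inv hchar hY''1] at e1
      have hne := LinChar.linear_ne_zero hchar hY''1 x
      field_simp at e1
      linear_combination -e1
    calc Y'' x = Y'' x ^ 3 * 1 - (Y'' x * Y'' x - 1) * Y'' x := by ring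
      _ = 1 := by rw [h3, h2]; ring
  have hYa : Y'' a = -1 := by
    have h2 : Y'' a ^ 2 = 1 := by
      rw [← LinChar.linear_pow hchar hY''1, hc.a2, hY''1]
    have h2' : (Y'' a - 1) * (Y'' a + 1) = 0 := by linear_combination h2
    rcases mul_eq_zero.1 h2' with h | h
    · exfalso
      have hYa1 : Y'' a = 1 := by linear_combination h
      have h1 := hexc a
      rw [excinv hc f hf a hc.a2, hYa1] at h1
      have hY'a : Y' a = Y' 1 := by rw [hY'1]; linear_combination h1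
      have haK : a ∈ K := (hK a).2 hY'a
      have haN : a ∈ N := (mem_N_iff hc _).2 ⟨0, 0, 1, 0, by simp⟩
      obtain ⟨j, l, e⟩ := (hKN a haN).1 haK
      have e' : x ^ 0 * y ^ 0 * a ^ 1 * b ^ 0 = x ^ 0 * y ^ j * a ^ 0 * b ^ l := by
        simpa using e
      obtain ⟨-, -, h3, -⟩ := nf_unique hc _ _ _ _ _ _ _ _ e'
      omega
    · linear_combination h
  exact ⟨hY''1, hY'1, hYx, hY''K y hyK, hY''K b hbK, hYa⟩

theorem kchar_piece : S9Stmt.KCHAR.{u} := by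
  intro G _ _ T N x y a b hc f hf K Y' Y'' hKn hK hKN hKG hY' hY'' hexc hdeg
  exact kchar hc f hf K Y' Y'' hKn hK hKN hKG hY' hY'' hexc hdeg

end Cfsg.Agent.Lib.Helper32.S9KChar
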