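import Mathlib
import Cfsg.Agent.Lib.Helper32.S9Stmt
import Cfsg.Agent.Lib.Helper32.S9Asm
import Cfsg.Agent.Lib.Helper32.S9Grp
import Cfsg.Agent.Lib.Helper32.S9Exc
import Cfsg.Agent.Lib.Helper32.S9Ker
import Cfsg.Agent.Lib.Helper32.S9KChar
import Cfsg.Agent.Lib.Helper32.S9ClSum
import Cfsg.Agent.Lib.Helper49.S9ARITH
import Cfsg.Agent.Lib.Helper49.S9EXCB
import Cfsg.Agent.Lib.Helper49.S9EXCNORM
import Cfsg.Agent.Lib.Helper49.S9FIB2
import Cfsg.Agent.Lib.Helper49.S9GEN3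
import Cfsg.Agent.Lib.Helper49.S9INT2
import Cfsg.Agent.Lib.Helper49.S9INT3
import Cfsg.Agent.Lib.Helper49.S9PAIRSUM
import Cfsg.Agent.Lib.Helper49.S9SCHUR3
import Cfsg.Agent.Lib.Helper31.S9KGRP
import Cfsg.Agent.Lib.Helper31.S9NOFUS
import Cfsg.Agent.Lib.Helper31.S9P1FIN

/-!
# S3805: everything except the pieces CFG and VALY
-/

set_option autoImplicit false

namespace Cfsg.Agent.Lib.Helper32.S9Final

open Cfsg
open Cfsg.Agent.Lib.Helper32

universe u

/-- The statement, given the two remaining pieces. -/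
theorem pre (hCFG : S9Stmt.CFG.{u}) (hVALY : S9Stmt.VALY.{u})
    {G : Type u} [Group G] [Finite G]
    (T : Sylow 3 G) (hT : Cfsg.IsElementaryAbelian 3 (T : Subgroup G)) (hcard : Nat.card T = 9)
    (hC : Subgroup.centralizer ((T : Subgroup G) : Set G) = T)
    [hn : ((T : Subgroup G).subgroupOf (Subgroup.normalizer ((T : Subgroup G) : Set G))).Normal]
    (hK : IsKleinFour (↥(Subgroup.normalizer ((T : Subgroup G) : Set G)) ⧸
      (T : Subgroup G).subgroupOf (Subgroup.normalizer ((T : Subgroup G) : Set G))))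
    (hloc : ∀ t ∈ (T : Subgroup G), t ≠ 1 →
      Subgroup.centralizer ({t} : Set G) ≤ Subgroup.normalizer ((T : Subgroup G) : Set G)) :
    Subgroup.normalizer ((T : Subgroup G) : Set G) = ⊤ :=
  S9Asm.final hCFG Cfsg.Agent.Lib.Helper49.S9EXCB.main Cfsg.Agent.Lib.Helper49.S9EXCNORM.main
    Cfsg.Agent.Lib.Helper49.S9GEN3.main S9Exc.exc3_piece S9Ker.kb_piece
    Cfsg.Agent.Lib.Helper31.S9KGRP.main S9KChar.kchar_piece Cfsg.Agent.Lib.Helper31.S9NOFUS.main
    S9Ker.omega_piece Cfsg.Agent.Lib.Helper31.S9P1FIN.main Cfsg.Agent.Lib.Helper49.S9PAIRSUM.main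
    Cfsg.Agent.Lib.Helper49.S9FIB2.main Cfsg.Agent.Lib.Helper49.S9SCHUR3.main
    S9ClSum.clsuma_piece S9ClSum.clsumb_piece S9Grp.card18_piece S9Exc.excinv_piece hVALY
    Cfsg.Agent.Lib.Helper49.S9INT2.main Cfsg.Agent.Lib.Helper49.S9INT3.main
    Cfsg.Agent.Lib.Helper49.S9ARITH.main T hT hcard hC hK hloc

end Cfsg.Agent.Lib.Helper32.S9Final
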