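import Mathlib
import Cfsg.Agent.Lib.Helper32.T3Stmt
import Cfsg.Agent.Lib.Helper3.Irr
import Cfsg.Agent.Lib.CT.Kernel

/-!
# S3701: assembly of the pieces
-/

set_option autoImplicit false

namespace Cfsg.Agent.Lib.Helper32.T3Asm

open Cfsg
open Cfsg.Agent.Lib.Helper32
open Cfsg.Agent.Lib.Helper3

universe u

section

variable {G : Type u} [Group G] [Fintype G] {T H : Subgroup G} {x1 x2 x3 u1 u2 u3 : G}

omit [Fintype G] in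
theorem om3_ne_one {f : Subgroup.centralizer ({x1} : Set G) →* ℂˣ} (hf : T3Stmt.Om3 x1 x2 x3 u1 f) :
    f ≠ 1 := by
  intro h
  have hx : x1 ∈ Subgroup.centralizer ({x1} : Set G) := by
    rw [Subgroup.mem_centralizer_iff]
    intro g hg
    rw [Set.mem_singleton_iff.1 hg]
  exact hf.fx1 hx (by rw [h]; rfl)

/-- The normal subgroup `K_1` (kernel of the exceptional character `Y'`): it meets `H` in
`<x2, x3, u1>` and supplements `H`. -/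
theorem ker3 (hEXCB : S9Stmt.EXCB.{u}) (hEXCNORM : S9Stmt.EXCNORM.{u})
    (hGEN3 : S9Stmt.GEN3.{u}) (hOMEGA : T3Stmt.OMEGA.{u}) (hEXC3 : T3Stmt.EXC3.{u}) (hNOFUS : T3Stmt.NOFUS.{u})
    (hKB : T3Stmt.KB.{u}) (hKGRP : T3Stmt.KGRP.{u}) (hc : T3Stmt.Cfg3 T H x1 x2 x3 u1 u2 u3) :
    ∃ K : Subgroup G, K.Normal ∧
      (∀ g ∈ H, g ∈ K ↔ ∃ j k l : ℕ, g = x2 ^ j * x3 ^ k * u1 ^ l) ∧
      (∀ g : G, ∃ k ∈ K, ∃ n ∈ H, g = k * n) := by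
  obtain ⟨f, hf⟩ := hOMEGA hc
  have hne := om3_ne_one hf
  obtain ⟨hgen, h1, htriv, -⟩ := hEXCB x1 f hne
  have hnorm := hEXCNORM x1 f hne (hEXC3 hc f hf)
  obtain ⟨Y', Y'', hY', hY'', hexc, hdeg, -, -⟩ := hGEN3 (S9Stmt.exc x1 f) hgen h1 htriv hnorm
  have h12 : ¬ IsConj u1 u2 := hNOFUS hc
  have h13 : ¬ IsConj u1 u3 := hNOFUS hc.perm23
  obtain ⟨hu, hx⟩ := hKB hc f hf h12 h13 Y' Y'' hY' hY'' hexc hdeg
  obtain ⟨K, hKn, hK⟩ := CT.Kernel.exists_normal_ker (Irr.IsIrrCharacter.isCharacter hY')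
  have huK : u1 ∈ K := (hK u1).2 hu
  have hxK : x1 ∉ K := fun h => hx ((hK x1).1 h)
  obtain ⟨hKH, hKG⟩ := hKGRP hc K hKn huK hxK
  exact ⟨K, hKn, hKH, hKG⟩

end

/-- The assembly: all pieces give the statement. -/
theorem final (hCFG : T3Stmt.CFG.{u}) (hEXCB : S9Stmt.EXCB.{u}) (hEXCNORM : S9Stmt.EXCNORM.{u})
    (hGEN3 : S9Stmt.GEN3.{u}) (hOMEGA : T3Stmt.OMEGA.{u}) (hEXC3 : T3Stmt.EXC3.{u}) (hNOFUS : T3Stmt.NOFUS.{u})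
    (hKB : T3Stmt.KB.{u}) (hKGRP : T3Stmt.KGRP.{u}) (hFIN : T3Stmt.FIN.{u})
    {G : Type u} [Group G] [Finite G] (H : Subgroup G)
    (hH : Nonempty (↥H ≃* ↥(Subgroup.closure ({Equiv.swap (0 : Fin 9) 1 * Equiv.swap 1 2,
        Equiv.swap (3 : Fin 9) 4 * Equiv.swap 4 5, Equiv.swap (6 : Fin 9) 7 * Equiv.swap 7 8,
        Equiv.swap (0 : Fin 9) 1 * Equiv.swap 3 4,
        Equiv.swap (0 : Fin 9) 1 * Equiv.swap 6 7} : Set (Equiv.Perm (Fin 9))))))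
    (T : Subgroup G) (hTH : T ≤ H) (hT : Nat.card T = 27)
    (hN : Subgroup.normalizer (T : Set G) = H)
    (hC : ∀ t ∈ T, t ≠ 1 → Subgroup.centralizer ({t} : Set G) ≤ H) : H = ⊤ := by
  have : Fintype G := Fintype.ofFinite G
  obtain ⟨x1, x2, x3, u1, u2, u3, hc⟩ := hCFG H hH T hTH hT hN hC
  obtain ⟨K1, hK1n, hK1H, -⟩ :=
    ker3 hEXCB hEXCNORM hGEN3 hOMEGA hEXC3 hNOFUS hKB hKGRP hc
  obtain ⟨K2, hK2n, hK2H, -⟩ :=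
    ker3 hEXCB hEXCNORM hGEN3 hOMEGA hEXC3 hNOFUS hKB hKGRP hc.perm12
  obtain ⟨K3, hK3n, hK3H, hK3G⟩ :=
    ker3 hEXCB hEXCNORM hGEN3 hOMEGA hEXC3 hNOFUS hKB hKGRP hc.perm13
  exact hFIN hc K1 K2 K3 hK1n hK2n hK3n hK1H hK2H hK3H hK3G

end Cfsg.Agent.Lib.Helper32.T3Asm
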