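import Mathlib
import Cfsg.Agent.Lib.Helper32.T3Stmt

/-!
# S3701: normal form toolkit for the configuration `Cfg3`

Normal form of the elements of `H`: `x1^i * x2^j * x3^k * u1^l * u2^m`.
-/

set_option autoImplicit false

namespace Cfsg.Agent.Lib.Helper32.T3NF

open Cfsg
open Cfsg.Agent.Lib.Helper32.S9Stmt
open Cfsg.Agent.Lib.Helper32.T3Stmt

universe u

section generic

variable {G : Type u} [Group G]

theorem g_inv2 {v : G} (h : v ^ 2 = 1) : v⁻¹ = v := by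
  rw [inv_eq_iff_mul_eq_one, ← pow_two, h]

theorem g_inv3 {x : G} (h : x ^ 3 = 1) : x⁻¹ = x ^ 2 := by
  rw [inv_eq_iff_mul_eq_one, ← pow_succ', h]

theorem g_pow_mod2 {v : G} (h : v ^ 2 = 1) (k : ℕ) : v ^ k = v ^ (k % 2) := by
  conv_lhs => rw [← Nat.div_add_mod k 2, pow_add, pow_mul, h, one_pow, one_mul]

theorem g_pow_mod3 {x : G} (h : x ^ 3 = 1) (k : ℕ) : x ^ k = x ^ (k % 3) := by
  conv_lhs => rw [← Nat.div_add_mod k 3, pow_add, pow_mul, h, one_pow, one_mul]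

theorem g_pow3_zero {x : G} (h : x ^ 3 = 1) {n : ℕ} (hn : n % 3 = 0) : x ^ n = 1 := by
  rw [g_pow_mod3 h n, hn, pow_zero]

theorem g_pow2_zero {v : G} (h : v ^ 2 = 1) {n : ℕ} (hn : n % 2 = 0) : v ^ n = 1 := by
  rw [g_pow_mod2 h n, hn, pow_zero]

theorem g_sq_ne {x : G} (hx : x ≠ 1) : x ^ 2 ≠ x ^ 1 := by
  intro h
  apply hx
  have h2 : x * x = x * 1 := by simpa [pow_two] using h
  exact mul_left_cancel h2

/-- An involution inverting an element of order 3. -/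
theorem g_semi {v x : G} (hv : v ^ 2 = 1) (hx : x ^ 3 = 1) (h : v * x * v⁻¹ = x⁻¹) (l j : ℕ) :
    v ^ l * x ^ j = x ^ (if l % 2 = 0 then j else 2 * j) * v ^ l := by
  rw [g_pow_mod2 hv l]
  have h2 : l % 2 < 2 := Nat.mod_lt _ (by norm_num)
  rcases Nat.lt_succ_iff_lt_or_eq.1 h2 with h' | h'
  · have h0 : l % 2 = 0 := by omega
    rw [h0]
    simp
  · rw [h']
    simp only [pow_one, one_ne_zero, if_false]
    have hs : SemiconjBy v x (x ^ 2) := by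
      show v * x = x ^ 2 * v
      rw [← g_inv3 hx, ← h]
      group
    have := (hs.pow_right j).eq
    rw [this, ← pow_mul]

theorem g_re {p q q' : G} (h : p * q = q' * p) (r : G) : p * (q * r) = q' * (p * r) := by
  rw [← mul_assoc, h, mul_assoc]

end generic

section cfg

variable {G : Type u} [Group G] {T H : Subgroup G} {x1 x2 x3 u1 u2 u3 : G}

theorem u1_inv (hc : Cfg3 T H x1 x2 x3 u1 u2 u3) : u1⁻¹ = u1 := g_inv2 hc.u1sq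
theorem u2_inv (hc : Cfg3 T H x1 x2 x3 u1 u2 u3) : u2⁻¹ = u2 := g_inv2 hc.u2sq
theorem u3_inv (hc : Cfg3 T H x1 x2 x3 u1 u2 u3) : u3⁻¹ = u3 := g_inv2 hc.u3sq
theorem x1_inv (hc : Cfg3 T H x1 x2 x3 u1 u2 u3) : x1⁻¹ = x1 ^ 2 := g_inv3 hc.x13
theorem x2_inv (hc : Cfg3 T H x1 x2 x3 u1 u2 u3) : x2⁻¹ = x2 ^ 2 := g_inv3 hc.x23
theorem x3_inv (hc : Cfg3 T H x1 x2 x3 u1 u2 u3) : x3⁻¹ = x3 ^ 2 := g_inv3 hc.x33

theorem c12 (hc : Cfg3 T H x1 x2 x3 u1 u2 u3) : Commute x1 x2 := hc.c12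
theorem c13 (hc : Cfg3 T H x1 x2 x3 u1 u2 u3) : Commute x1 x3 := hc.c13
theorem c23 (hc : Cfg3 T H x1 x2 x3 u1 u2 u3) : Commute x2 x3 := hc.c23
theorem cu12 (hc : Cfg3 T H x1 x2 x3 u1 u2 u3) : Commute u1 u2 :=
  show u1 * u2 = u2 * u1 by rw [hc.u12, hc.u21]
theorem cu13 (hc : Cfg3 T H x1 x2 x3 u1 u2 u3) : Commute u1 u3 :=
  show u1 * u3 = u3 * u1 by rw [hc.u13, hc.u31]
theorem cu23 (hc : Cfg3 T H x1 x2 x3 u1 u2 u3) : Commute u2 u3 :=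
  show u2 * u3 = u3 * u2 by rw [hc.u23, hc.u32]
theorem cu1x1 (hc : Cfg3 T H x1 x2 x3 u1 u2 u3) : Commute u1 x1 := hc.a11
theorem cu2x2 (hc : Cfg3 T H x1 x2 x3 u1 u2 u3) : Commute u2 x2 := hc.a22
theorem cu3x3 (hc : Cfg3 T H x1 x2 x3 u1 u2 u3) : Commute u3 x3 := hc.a33

theorem u1_x2 (hc : Cfg3 T H x1 x2 x3 u1 u2 u3) (l j : ℕ) :
    u1 ^ l * x2 ^ j = x2 ^ (if l % 2 = 0 then j else 2 * j) * u1 ^ l :=
  g_semi hc.u1sq hc.x23 hc.a12 l j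

theorem u1_x3 (hc : Cfg3 T H x1 x2 x3 u1 u2 u3) (l k : ℕ) :
    u1 ^ l * x3 ^ k = x3 ^ (if l % 2 = 0 then k else 2 * k) * u1 ^ l :=
  g_semi hc.u1sq hc.x33 hc.a13 l k

theorem u2_x1 (hc : Cfg3 T H x1 x2 x3 u1 u2 u3) (m i : ℕ) :
    u2 ^ m * x1 ^ i = x1 ^ (if m % 2 = 0 then i else 2 * i) * u2 ^ m :=
  g_semi hc.u2sq hc.x13 hc.a21 m i

theorem u2_x3 (hc : Cfg3 T H x1 x2 x3 u1 u2 u3) (m k : ℕ) :
    u2 ^ m * x3 ^ k = x3 ^ (if m % 2 = 0 then k else 2 * k) * u2 ^ m :=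
  g_semi hc.u2sq hc.x33 hc.a23 m k

theorem u3_x1 (hc : Cfg3 T H x1 x2 x3 u1 u2 u3) (n i : ℕ) :
    u3 ^ n * x1 ^ i = x1 ^ (if n % 2 = 0 then i else 2 * i) * u3 ^ n :=
  g_semi hc.u3sq hc.x13 hc.a31 n i

theorem u3_x2 (hc : Cfg3 T H x1 x2 x3 u1 u2 u3) (n j : ℕ) :
    u3 ^ n * x2 ^ j = x2 ^ (if n % 2 = 0 then j else 2 * j) * u3 ^ n :=
  g_semi hc.u3sq hc.x23 hc.a32 n j

theorem u1u2_eq (hc : Cfg3 T H x1 x2 x3 u1 u2 u3) (l m : ℕ) :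
    u1 ^ l * u2 ^ m = u3 ^ l * u2 ^ (l + m) := by
  have h : u1 ^ l = u3 ^ l * u2 ^ l := by
    rw [← (cu23 hc).symm.mul_pow, hc.u32]
  rw [h, pow_add, mul_assoc]

theorem u12_x3 (hc : Cfg3 T H x1 x2 x3 u1 u2 u3) (l m k : ℕ) :
    u1 ^ l * (u2 ^ m * x3 ^ k) =
      x3 ^ (if (l + m) % 2 = 0 then k else 2 * k) * (u1 ^ l * u2 ^ m) := by
  have e1 := u1u2_eq hc l m
  have e2 := u2_x3 hc (l + m) k
  have e3 : u3 ^ l * x3 ^ (if (l + m) % 2 = 0 then k else 2 * k) =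
      x3 ^ (if (l + m) % 2 = 0 then k else 2 * k) * u3 ^ l := ((cu3x3 hc).pow_pow l _).eq
  calc u1 ^ l * (u2 ^ m * x3 ^ k) = (u1 ^ l * u2 ^ m) * x3 ^ k := by rw [mul_assoc]
    _ = u3 ^ l * (u2 ^ (l + m) * x3 ^ k) := by rw [e1, mul_assoc]
    _ = (u3 ^ l * x3 ^ (if (l + m) % 2 = 0 then k else 2 * k)) * u2 ^ (l + m) := by
        rw [e2, mul_assoc]
    _ = x3 ^ (if (l + m) % 2 = 0 then k else 2 * k) * (u3 ^ l * u2 ^ (l + m)) := by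
        rw [e3, mul_assoc]
    _ = _ := by rw [e1]

/-- The product rule. -/
theorem prod_rule (hc : Cfg3 T H x1 x2 x3 u1 u2 u3) (i j k l m i' j' k' l' m' : ℕ) :
    (x1 ^ i * x2 ^ j * x3 ^ k * u1 ^ l * u2 ^ m) *
        (x1 ^ i' * x2 ^ j' * x3 ^ k' * u1 ^ l' * u2 ^ m') =
      x1 ^ (i + (if m % 2 = 0 then i' else 2 * i')) *
        x2 ^ (j + (if l % 2 = 0 then j' else 2 * j')) *
        x3 ^ (k + (if (l + m) % 2 = 0 then k' else 2 * k')) * u1 ^ (l + l') * u2 ^ (m + m') := by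
  have f1 := g_re (u2_x1 hc m i')
  have f2 := g_re (((cu2x2 hc).pow_pow m j').eq)
  have f4 := g_re (((cu1x1 hc).pow_pow l (if m % 2 = 0 then i' else 2 * i')).eq)
  have f5 := g_re (u1_x2 hc l j')
  have f6 : ∀ r : G, u1 ^ l * (u2 ^ m * (x3 ^ k' * r)) =
      x3 ^ (if (l + m) % 2 = 0 then k' else 2 * k') * (u1 ^ l * (u2 ^ m * r)) := by
    intro r
    have := u12_x3 hc l m k'
    calc u1 ^ l * (u2 ^ m * (x3 ^ k' * r)) = (u1 ^ l * (u2 ^ m * x3 ^ k')) * r := by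
          simp only [mul_assoc]
      _ = _ := by rw [this]; simp only [mul_assoc]
  have f7 : u2 ^ m * (u1 ^ l' * u2 ^ m') = u1 ^ l' * (u2 ^ m * u2 ^ m') :=
    g_re (((cu12 hc).symm.pow_pow m l').eq) _
  have t1 := g_re (((c13 hc).symm.pow_pow k (if m % 2 = 0 then i' else 2 * i')).eq)
  have t2 := g_re (((c12 hc).symm.pow_pow j (if m % 2 = 0 then i' else 2 * i')).eq)
  have t3 := g_re (((c23 hc).symm.pow_pow k (if l % 2 = 0 then j' else 2 * j')).eq)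
  simp only [mul_assoc, pow_add]
  rw [f1, f2, f4, f5, f6, f7, t1, t2, t3]

theorem T_mul (hc : Cfg3 T H x1 x2 x3 u1 u2 u3) (i j k i' j' k' : ℕ) :
    (x1 ^ i * x2 ^ j * x3 ^ k) * (x1 ^ i' * x2 ^ j' * x3 ^ k') =
      x1 ^ (i + i') * x2 ^ (j + j') * x3 ^ (k + k') := by
  have t1 := g_re (((c13 hc).symm.pow_pow k i').eq)
  have t2 := g_re (((c12 hc).symm.pow_pow j i').eq)
  have t3 : x3 ^ k * (x2 ^ j' * x3 ^ k') = x2 ^ j' * (x3 ^ k * x3 ^ k') :=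
    g_re (((c23 hc).symm.pow_pow k j').eq) _
  simp only [mul_assoc, pow_add]
  rw [t1, t2, t3]

theorem T_mul_nf (hc : Cfg3 T H x1 x2 x3 u1 u2 u3) (i j k i' j' k' l m : ℕ) :
    (x1 ^ i * x2 ^ j * x3 ^ k) * (x1 ^ i' * x2 ^ j' * x3 ^ k' * u1 ^ l * u2 ^ m) =
      x1 ^ (i + i') * x2 ^ (j + j') * x3 ^ (k + k') * u1 ^ l * u2 ^ m := by
  rw [← T_mul hc]
  simp only [mul_assoc]

theorem nf_eq (hc : Cfg3 T H x1 x2 x3 u1 u2 u3) {i j k l m i' j' k' l' m' : ℕ}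
    (hi : i % 3 = i' % 3) (hj : j % 3 = j' % 3) (hk : k % 3 = k' % 3)
    (hl : l % 2 = l' % 2) (hm : m % 2 = m' % 2) :
    x1 ^ i * x2 ^ j * x3 ^ k * u1 ^ l * u2 ^ m =
      x1 ^ i' * x2 ^ j' * x3 ^ k' * u1 ^ l' * u2 ^ m' := by
  have e1 : x1 ^ i = x1 ^ i' := by rw [g_pow_mod3 hc.x13 i, g_pow_mod3 hc.x13 i', hi]
  have e2 : x2 ^ j = x2 ^ j' := by rw [g_pow_mod3 hc.x23 j, g_pow_mod3 hc.x23 j', hj]
  have e3 : x3 ^ k = x3 ^ k' := by rw [g_pow_mod3 hc.x33 k, g_pow_mod3 hc.x33 k', hk]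
  have e4 : u1 ^ l = u1 ^ l' := by rw [g_pow_mod2 hc.u1sq l, g_pow_mod2 hc.u1sq l', hl]
  have e5 : u2 ^ m = u2 ^ m' := by rw [g_pow_mod2 hc.u2sq m, g_pow_mod2 hc.u2sq m', hm]
  rw [e1, e2, e3, e4, e5]

theorem T_eq (hc : Cfg3 T H x1 x2 x3 u1 u2 u3) {i j k i' j' k' : ℕ}
    (hi : i % 3 = i' % 3) (hj : j % 3 = j' % 3) (hk : k % 3 = k' % 3) :
    x1 ^ i * x2 ^ j * x3 ^ k = x1 ^ i' * x2 ^ j' * x3 ^ k' := by
  have e1 : x1 ^ i = x1 ^ i' := by rw [g_pow_mod3 hc.x13 i, g_pow_mod3 hc.x13 i', hi]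
  have e2 : x2 ^ j = x2 ^ j' := by rw [g_pow_mod3 hc.x23 j, g_pow_mod3 hc.x23 j', hj]
  have e3 : x3 ^ k = x3 ^ k' := by rw [g_pow_mod3 hc.x33 k, g_pow_mod3 hc.x33 k', hk]
  rw [e1, e2, e3]

/-- Moving `u1^l * u2^m` across an element of `T`. -/
theorem V_mul_T (hc : Cfg3 T H x1 x2 x3 u1 u2 u3) (l m i j k : ℕ) :
    (u1 ^ l * u2 ^ m) * (x1 ^ i * x2 ^ j * x3 ^ k) =
      (x1 ^ (if m % 2 = 0 then i else 2 * i) * x2 ^ (if l % 2 = 0 then j else 2 * j) *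
        x3 ^ (if (l + m) % 2 = 0 then k else 2 * k)) * (u1 ^ l * u2 ^ m) := by
  have h := prod_rule hc 0 0 0 l m i j k 0 0
  simp only [pow_zero, one_mul, mul_one, zero_add, add_zero] at h
  rw [h]
  simp only [mul_assoc]

/-- Conjugating an element of `T` by `u1^l * u2^m`. -/
theorem V_conj_T (hc : Cfg3 T H x1 x2 x3 u1 u2 u3) (l m i j k : ℕ) :
    (u1 ^ l * u2 ^ m) * (x1 ^ i * x2 ^ j * x3 ^ k) * (u1 ^ l * u2 ^ m)⁻¹ =
      x1 ^ (if m % 2 = 0 then i else 2 * i) * x2 ^ (if l % 2 = 0 then j else 2 * j) *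
        x3 ^ (if (l + m) % 2 = 0 then k else 2 * k) := by
  rw [V_mul_T hc, mul_inv_cancel_right]

theorem u1_conj_T (hc : Cfg3 T H x1 x2 x3 u1 u2 u3) (i j k : ℕ) :
    u1 * (x1 ^ i * x2 ^ j * x3 ^ k) * u1⁻¹ = x1 ^ i * x2 ^ (2 * j) * x3 ^ (2 * k) := by
  have h := V_conj_T hc 1 0 i j k
  simp only [pow_one, pow_zero, mul_one] at h
  rw [h]
  simp

theorem u2_conj_T (hc : Cfg3 T H x1 x2 x3 u1 u2 u3) (i j k : ℕ) :
    u2 * (x1 ^ i * x2 ^ j * x3 ^ k) * u2⁻¹ = x1 ^ (2 * i) * x2 ^ j * x3 ^ (2 * k) := by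
  have h := V_conj_T hc 0 1 i j k
  simp only [pow_one, pow_zero, one_mul] at h
  rw [h]
  simp

theorem u3_conj_T (hc : Cfg3 T H x1 x2 x3 u1 u2 u3) (i j k : ℕ) :
    u3 * (x1 ^ i * x2 ^ j * x3 ^ k) * u3⁻¹ = x1 ^ (2 * i) * x2 ^ (2 * j) * x3 ^ k := by
  have h := V_conj_T hc 1 1 i j k
  simp only [pow_one, hc.u12] at h
  rw [h]
  simp

theorem T_indep (hc : Cfg3 T H x1 x2 x3 u1 u2 u3) (i j k i' j' k' : ℕ)
    (h : x1 ^ i * x2 ^ j * x3 ^ k = x1 ^ i' * x2 ^ j' * x3 ^ k') :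
    i % 3 = i' % 3 ∧ j % 3 = j' % 3 ∧ k % 3 = k' % 3 := by
  have o1 : orderOf x1 = 3 := orderOf_eq_prime hc.x13 hc.ne1
  have o2 : orderOf x2 = 3 := orderOf_eq_prime hc.x23 hc.ne2
  have o3 : orderOf x3 = 3 := orderOf_eq_prime hc.x33 hc.ne3
  have key : ∀ i j k : ℕ,
      (x1 ^ i * x2 ^ j * x3 ^ k) * (u1 * (x1 ^ i * x2 ^ j * x3 ^ k) * u1⁻¹) = x1 ^ (i + i) ∧
      (x1 ^ i * x2 ^ j * x3 ^ k) * (u2 * (x1 ^ i * x2 ^ j * x3 ^ k) * u2⁻¹) = x2 ^ (j + j) ∧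
      (x1 ^ i * x2 ^ j * x3 ^ k) * (u3 * (x1 ^ i * x2 ^ j * x3 ^ k) * u3⁻¹) = x3 ^ (k + k) := by
    intro i j k
    refine ⟨?_, ?_, ?_⟩
    · rw [u1_conj_T hc, T_mul hc, g_pow3_zero hc.x23 (show (j + 2 * j) % 3 = 0 by omega),
        g_pow3_zero hc.x33 (show (k + 2 * k) % 3 = 0 by omega), mul_one, mul_one]
    · rw [u2_conj_T hc, T_mul hc, g_pow3_zero hc.x13 (show (i + 2 * i) % 3 = 0 by omega),
        g_pow3_zero hc.x33 (show (k + 2 * k) % 3 = 0 by omega), mul_one, one_mul]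
    · rw [u3_conj_T hc, T_mul hc, g_pow3_zero hc.x13 (show (i + 2 * i) % 3 = 0 by omega),
        g_pow3_zero hc.x23 (show (j + 2 * j) % 3 = 0 by omega), one_mul, one_mul]
  obtain ⟨a1, a2, a3⟩ := key i j k
  obtain ⟨b1, b2, b3⟩ := key i' j' k'
  rw [h] at a1 a2 a3
  have r1 : x1 ^ (i + i) = x1 ^ (i' + i') := a1.symm.trans b1
  have r2 : x2 ^ (j + j) = x2 ^ (j' + j') := a2.symm.trans b2
  have r3 : x3 ^ (k + k) = x3 ^ (k' + k') := a3.symm.trans b3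
  rw [pow_eq_pow_iff_modEq, o1] at r1
  rw [pow_eq_pow_iff_modEq, o2] at r2
  rw [pow_eq_pow_iff_modEq, o3] at r3
  unfold Nat.ModEq at r1 r2 r3
  omega

theorem nf_mul_x1 (hc : Cfg3 T H x1 x2 x3 u1 u2 u3) (i j k l m : ℕ) :
    (x1 ^ i * x2 ^ j * x3 ^ k * u1 ^ l * u2 ^ m) * x1 =
      x1 ^ (if m % 2 = 0 then 1 else 2) * (x1 ^ i * x2 ^ j * x3 ^ k * u1 ^ l * u2 ^ m) := by
  have e1 := prod_rule hc i j k l m 1 0 0 0 0
  simp only [pow_zero, pow_one, mul_one] at e1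
  have e2 := T_mul_nf hc (if m % 2 = 0 then 1 else 2) 0 0 i j k l m
  simp only [pow_zero, mul_one] at e2
  rw [e1, e2]
  apply nf_eq hc <;> (try split_ifs) <;> omega

theorem nf_mul_x2 (hc : Cfg3 T H x1 x2 x3 u1 u2 u3) (i j k l m : ℕ) :
    (x1 ^ i * x2 ^ j * x3 ^ k * u1 ^ l * u2 ^ m) * x2 =
      x2 ^ (if l % 2 = 0 then 1 else 2) * (x1 ^ i * x2 ^ j * x3 ^ k * u1 ^ l * u2 ^ m) := by
  have e1 := prod_rule hc i j k l m 0 1 0 0 0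
  simp only [pow_zero, pow_one, mul_one, one_mul] at e1
  have e2 := T_mul_nf hc 0 (if l % 2 = 0 then 1 else 2) 0 i j k l m
  simp only [pow_zero, mul_one, one_mul] at e2
  rw [e1, e2]
  apply nf_eq hc <;> (try split_ifs) <;> omega

/-- Uniqueness of the normal form. -/
theorem nf_unique (hc : Cfg3 T H x1 x2 x3 u1 u2 u3) (i j k l m i' j' k' l' m' : ℕ)
    (h : x1 ^ i * x2 ^ j * x3 ^ k * u1 ^ l * u2 ^ m =
      x1 ^ i' * x2 ^ j' * x3 ^ k' * u1 ^ l' * u2 ^ m') :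
    i % 3 = i' % 3 ∧ j % 3 = j' % 3 ∧ k % 3 = k' % 3 ∧ l % 2 = l' % 2 ∧ m % 2 = m' % 2 := by
  have hm : m % 2 = m' % 2 := by
    have e1 := nf_mul_x1 hc i j k l m
    have e2 := nf_mul_x1 hc i' j' k' l' m'
    rw [h] at e1
    have e3 : x1 ^ (if m % 2 = 0 then 1 else 2) = x1 ^ (if m' % 2 = 0 then 1 else 2) :=
      mul_right_cancel (e1.symm.trans e2)
    rcases Nat.mod_two_eq_zero_or_one m with h0 | h0 <;>
      rcases Nat.mod_two_eq_zero_or_one m' with h0' | h0'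
    · omega
    · rw [if_pos h0, if_neg (by omega)] at e3
      exact absurd e3.symm (g_sq_ne hc.ne1)
    · rw [if_pos h0', if_neg (by omega)] at e3
      exact absurd e3 (g_sq_ne hc.ne1)
    · omega
  have hl : l % 2 = l' % 2 := by
    have e1 := nf_mul_x2 hc i j k l m
    have e2 := nf_mul_x2 hc i' j' k' l' m'
    rw [h] at e1
    have e3 : x2 ^ (if l % 2 = 0 then 1 else 2) = x2 ^ (if l' % 2 = 0 then 1 else 2) :=
      mul_right_cancel (e1.symm.trans e2)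
    rcases Nat.mod_two_eq_zero_or_one l with h0 | h0 <;>
      rcases Nat.mod_two_eq_zero_or_one l' with h0' | h0'
    · omega
    · rw [if_pos h0, if_neg (by omega)] at e3
      exact absurd e3.symm (g_sq_ne hc.ne2)
    · rw [if_pos h0', if_neg (by omega)] at e3
      exact absurd e3 (g_sq_ne hc.ne2)
    · omega
  have e4 : u1 ^ l = u1 ^ l' := by rw [g_pow_mod2 hc.u1sq l, g_pow_mod2 hc.u1sq l', hl]
  have e5 : u2 ^ m = u2 ^ m' := by rw [g_pow_mod2 hc.u2sq m, g_pow_mod2 hc.u2sq m', hm]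
  rw [e4, e5] at h
  have ht : x1 ^ i * x2 ^ j * x3 ^ k = x1 ^ i' * x2 ^ j' * x3 ^ k' :=
    mul_right_cancel (mul_right_cancel h)
  obtain ⟨hi, hj, hk⟩ := T_indep hc _ _ _ _ _ _ ht
  exact ⟨hi, hj, hk, hl, hm⟩

theorem mem_H_iff (hc : Cfg3 T H x1 x2 x3 u1 u2 u3) (g : G) :
    g ∈ H ↔ ∃ i j k l m : ℕ, g = x1 ^ i * x2 ^ j * x3 ^ k * u1 ^ l * u2 ^ m := by
  rw [hc.memH]
  constructor
  · rintro ⟨t, ht, hg⟩
    obtain ⟨i, j, k, rfl⟩ := (hc.memT t).1 ht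
    rcases hg with rfl | rfl | rfl | rfl
    · exact ⟨i, j, k, 0, 0, by simp⟩
    · exact ⟨i, j, k, 1, 0, by simp⟩
    · exact ⟨i, j, k, 0, 1, by simp⟩
    · exact ⟨i, j, k, 1, 1, by rw [pow_one, pow_one, mul_assoc _ u1 u2, hc.u12]⟩
  · rintro ⟨i, j, k, l, m, rfl⟩
    refine ⟨x1 ^ i * x2 ^ j * x3 ^ k, (hc.memT _).2 ⟨i, j, k, rfl⟩, ?_⟩
    rw [g_pow_mod2 hc.u1sq l, g_pow_mod2 hc.u2sq m]
    rcases Nat.mod_two_eq_zero_or_one l with h0 | h0 <;>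
      rcases Nat.mod_two_eq_zero_or_one m with h1 | h1 <;> rw [h0, h1]
    · left; simp
    · right; right; left; simp
    · right; left; simp
    · right; right; right; rw [pow_one, pow_one, mul_assoc _ u1 u2, hc.u12]

theorem x1_mem_T (hc : Cfg3 T H x1 x2 x3 u1 u2 u3) : x1 ∈ T :=
  (hc.memT x1).2 ⟨1, 0, 0, by simp⟩

theorem x2_mem_T (hc : Cfg3 T H x1 x2 x3 u1 u2 u3) : x2 ∈ T :=
  (hc.memT x2).2 ⟨0, 1, 0, by simp⟩

theorem x3_mem_T (hc : Cfg3 T H x1 x2 x3 u1 u2 u3) : x3 ∈ T :=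
  (hc.memT x3).2 ⟨0, 0, 1, by simp⟩

theorem T_le_H (hc : Cfg3 T H x1 x2 x3 u1 u2 u3) : T ≤ H :=
  fun t ht => (hc.memH t).2 ⟨t, ht, Or.inl rfl⟩

theorem u1_mem_H (hc : Cfg3 T H x1 x2 x3 u1 u2 u3) : u1 ∈ H :=
  (hc.memH u1).2 ⟨1, T.one_mem, by simp⟩

theorem u2_mem_H (hc : Cfg3 T H x1 x2 x3 u1 u2 u3) : u2 ∈ H :=
  (hc.memH u2).2 ⟨1, T.one_mem, by simp⟩

theorem u3_mem_H (hc : Cfg3 T H x1 x2 x3 u1 u2 u3) : u3 ∈ H :=
  (hc.memH u3).2 ⟨1, T.one_mem, by simp⟩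

theorem T_pow3 (hc : Cfg3 T H x1 x2 x3 u1 u2 u3) {t : G} (ht : t ∈ T) : t ^ 3 = 1 := by
  obtain ⟨i, j, k, rfl⟩ := (hc.memT t).1 ht
  rw [pow_succ, pow_two, T_mul hc, T_mul hc, g_pow3_zero hc.x13 (show (i + i + i) % 3 = 0 by omega),
    g_pow3_zero hc.x23 (show (j + j + j) % 3 = 0 by omega),
    g_pow3_zero hc.x33 (show (k + k + k) % 3 = 0 by omega), mul_one, mul_one]

theorem T_comm (hc : Cfg3 T H x1 x2 x3 u1 u2 u3) {s t : G} (hs : s ∈ T) (ht : t ∈ T) :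
    s * t = t * s := by
  obtain ⟨i, j, k, rfl⟩ := (hc.memT s).1 hs
  obtain ⟨i', j', k', rfl⟩ := (hc.memT t).1 ht
  rw [T_mul hc, T_mul hc, add_comm i, add_comm j, add_comm k]

theorem sq_mem_T (hc : Cfg3 T H x1 x2 x3 u1 u2 u3) {n : G} (hn : n ∈ H) : n ^ 2 ∈ T := by
  obtain ⟨i, j, k, l, m, rfl⟩ := (mem_H_iff hc n).1 hn
  rw [pow_two, prod_rule hc]
  have ea : u1 ^ (l + l) = 1 := by rw [← two_mul, pow_mul, hc.u1sq, one_pow]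
  have eb : u2 ^ (m + m) = 1 := by rw [← two_mul, pow_mul, hc.u2sq, one_pow]
  rw [ea, eb, mul_one, mul_one]
  exact (hc.memT _).2 ⟨_, _, _, rfl⟩

/-- The centralizer of `x1`. -/
theorem mem_centralizer_x1_iff (hc : Cfg3 T H x1 x2 x3 u1 u2 u3) (g : G) :
    g ∈ Subgroup.centralizer ({x1} : Set G) ↔
      ∃ i j k l : ℕ, g = x1 ^ i * x2 ^ j * x3 ^ k * u1 ^ l := by
  rw [Subgroup.mem_centralizer_iff]
  constructor
  · intro h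
    have hgx : g * x1 = x1 * g := (h x1 rfl).symm
    have hgN : g ∈ H := hc.loc x1 (x1_mem_T hc) hc.ne1 g hgx
    obtain ⟨i, j, k, l, m, rfl⟩ := (mem_H_iff hc g).1 hgN
    have e1 := nf_mul_x1 hc i j k l m
    rw [hgx] at e1
    have e2 : x1 ^ 1 = x1 ^ (if m % 2 = 0 then 1 else 2) := by
      rw [pow_one]
      exact mul_right_cancel e1
    have hm : m % 2 = 0 := by
      by_contra hm
      rw [if_neg hm] at e2
      exact g_sq_ne hc.ne1 e2.symm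
    refine ⟨i, j, k, l, ?_⟩
    rw [g_pow2_zero hc.u2sq hm, mul_one]
  · rintro ⟨i, j, k, l, rfl⟩ h hh
    rw [Set.mem_singleton_iff.1 hh]
    have e1 : Commute x1 (x1 ^ i) := Commute.pow_right (Commute.refl x1) i
    have e2 : Commute x1 (x2 ^ j) := Commute.pow_right (c12 hc) j
    have e3 : Commute x1 (x3 ^ k) := Commute.pow_right (c13 hc) k
    have e4 : Commute x1 (u1 ^ l) := Commute.pow_right (cu1x1 hc).symm l
    exact (((e1.mul_right e2).mul_right e3).mul_right e4).eq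

theorem x1_mem_cent : x1 ∈ Subgroup.centralizer ({x1} : Set G) := by
  rw [Subgroup.mem_centralizer_iff]
  intro g hg
  rw [Set.mem_singleton_iff.1 hg]

theorem cent_le_H (hc : Cfg3 T H x1 x2 x3 u1 u2 u3) :
    Subgroup.centralizer ({x1} : Set G) ≤ H := by
  intro g hg
  obtain ⟨i, j, k, l, rfl⟩ := (mem_centralizer_x1_iff hc g).1 hg
  exact (mem_H_iff hc _).2 ⟨i, j, k, l, 0, by simp⟩

/-- Values of `f` on normal forms. -/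
theorem f_apply (hc : Cfg3 T H x1 x2 x3 u1 u2 u3)
    (f : Subgroup.centralizer ({x1} : Set G) →* ℂˣ) (hf : Om3 x1 x2 x3 u1 f) (i j k l : ℕ)
    (h : x1 ^ i * x2 ^ j * x3 ^ k * u1 ^ l ∈ Subgroup.centralizer ({x1} : Set G))
    (hx : x1 ∈ Subgroup.centralizer ({x1} : Set G)) :
    f ⟨x1 ^ i * x2 ^ j * x3 ^ k * u1 ^ l, h⟩ = f ⟨x1, hx⟩ ^ i := by
  have h2 : x2 ∈ Subgroup.centralizer ({x1} : Set G) :=
    (mem_centralizer_x1_iff hc x2).2 ⟨0, 1, 0, 0, by simp⟩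
  have h3 : x3 ∈ Subgroup.centralizer ({x1} : Set G) :=
    (mem_centralizer_x1_iff hc x3).2 ⟨0, 0, 1, 0, by simp⟩
  have hu : u1 ∈ Subgroup.centralizer ({x1} : Set G) :=
    (mem_centralizer_x1_iff hc u1).2 ⟨0, 0, 0, 1, by simp⟩
  have e : (⟨x1 ^ i * x2 ^ j * x3 ^ k * u1 ^ l, h⟩ : Subgroup.centralizer ({x1} : Set G)) =
      ⟨x1, hx⟩ ^ i * ⟨x2, h2⟩ ^ j * ⟨x3, h3⟩ ^ k * ⟨u1, hu⟩ ^ l := by
    apply Subtype.ext
    simp
  rw [e, map_mul, map_mul, map_mul, map_pow, map_pow, map_pow, map_pow, hf.fx2 h2, hf.fx3 h3,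
    hf.fu1 hu, one_pow, one_pow, one_pow, mul_one, mul_one, mul_one]

/-- `f` takes cube roots of unity as values. -/
theorem f_pow3 (hc : Cfg3 T H x1 x2 x3 u1 u2 u3)
    (f : Subgroup.centralizer ({x1} : Set G) →* ℂˣ) (hf : Om3 x1 x2 x3 u1 f)
    (g : Subgroup.centralizer ({x1} : Set G)) : f g ^ 3 = 1 := by
  obtain ⟨g, hg⟩ := g
  obtain ⟨i, j, k, l, rfl⟩ := (mem_centralizer_x1_iff hc g).1 hg
  rw [f_apply hc f hf i j k l hg x1_mem_cent, ← pow_mul, mul_comm, pow_mul, ← map_pow]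
  have : (⟨x1, x1_mem_cent⟩ : Subgroup.centralizer ({x1} : Set G)) ^ 3 = 1 := by
    apply Subtype.ext
    simp [hc.x13]
  rw [this, map_one, one_pow]

/-- `|H| = 108`. -/
theorem card_H (hc : Cfg3 T H x1 x2 x3 u1 u2 u3) : Nat.card H = 108 := by
  let e : Fin 3 × Fin 3 × Fin 3 × Fin 2 × Fin 2 → H := fun p =>
    ⟨x1 ^ (p.1 : ℕ) * x2 ^ (p.2.1 : ℕ) * x3 ^ (p.2.2.1 : ℕ) * u1 ^ (p.2.2.2.1 : ℕ) *
        u2 ^ (p.2.2.2.2 : ℕ), (mem_H_iff hc _).2 ⟨_, _, _, _, _, rfl⟩⟩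
  have hinj : Function.Injective e := by
    rintro ⟨i, j, k, l, m⟩ ⟨i', j', k', l', m'⟩ h
    have h' : x1 ^ (i : ℕ) * x2 ^ (j : ℕ) * x3 ^ (k : ℕ) * u1 ^ (l : ℕ) * u2 ^ (m : ℕ) =
        x1 ^ (i' : ℕ) * x2 ^ (j' : ℕ) * x3 ^ (k' : ℕ) * u1 ^ (l' : ℕ) * u2 ^ (m' : ℕ) :=
      congrArg Subtype.val h
    obtain ⟨h1, h2, h3, h4, h5⟩ := nf_unique hc _ _ _ _ _ _ _ _ _ _ h'
    simp only [Prod.mk.injEq]
    refine ⟨Fin.ext ?_, Fin.ext ?_, Fin.ext ?_, Fin.ext ?_, Fin.ext ?_⟩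
    · have := i.2; have := i'.2; omega
    · have := j.2; have := j'.2; omega
    · have := k.2; have := k'.2; omega
    · have := l.2; have := l'.2; omega
    · have := m.2; have := m'.2; omega
  have hsurj : Function.Surjective e := by
    rintro ⟨g, hg⟩
    obtain ⟨i, j, k, l, m, rfl⟩ := (mem_H_iff hc g).1 hg
    refine ⟨(⟨i % 3, Nat.mod_lt _ (by norm_num)⟩, ⟨j % 3, Nat.mod_lt _ (by norm_num)⟩,
      ⟨k % 3, Nat.mod_lt _ (by norm_num)⟩, ⟨l % 2, Nat.mod_lt _ (by norm_num)⟩,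
      ⟨m % 2, Nat.mod_lt _ (by norm_num)⟩), ?_⟩
    apply Subtype.ext
    show x1 ^ (i % 3) * x2 ^ (j % 3) * x3 ^ (k % 3) * u1 ^ (l % 2) * u2 ^ (m % 2) = _
    exact nf_eq hc (by omega) (by omega) (by omega) (by omega) (by omega)
  rw [← Nat.card_congr (Equiv.ofBijective e ⟨hinj, hsurj⟩)]
  simp [Nat.card_eq_fintype_card]

/-- `|T| = 27`. -/
theorem card_T (hc : Cfg3 T H x1 x2 x3 u1 u2 u3) : Nat.card T = 27 := by
  let e : Fin 3 × Fin 3 × Fin 3 → T := fun p =>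
    ⟨x1 ^ (p.1 : ℕ) * x2 ^ (p.2.1 : ℕ) * x3 ^ (p.2.2 : ℕ), (hc.memT _).2 ⟨_, _, _, rfl⟩⟩
  have hinj : Function.Injective e := by
    rintro ⟨i, j, k⟩ ⟨i', j', k'⟩ h
    have h' : x1 ^ (i : ℕ) * x2 ^ (j : ℕ) * x3 ^ (k : ℕ) =
        x1 ^ (i' : ℕ) * x2 ^ (j' : ℕ) * x3 ^ (k' : ℕ) := congrArg Subtype.val h
    obtain ⟨h1, h2, h3⟩ := T_indep hc _ _ _ _ _ _ h'
    simp only [Prod.mk.injEq]
    refine ⟨Fin.ext ?_, Fin.ext ?_, Fin.ext ?_⟩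
    · have := i.2; have := i'.2; omega
    · have := j.2; have := j'.2; omega
    · have := k.2; have := k'.2; omega
  have hsurj : Function.Surjective e := by
    rintro ⟨g, hg⟩
    obtain ⟨i, j, k, rfl⟩ := (hc.memT g).1 hg
    refine ⟨(⟨i % 3, Nat.mod_lt _ (by norm_num)⟩, ⟨j % 3, Nat.mod_lt _ (by norm_num)⟩,
      ⟨k % 3, Nat.mod_lt _ (by norm_num)⟩), ?_⟩
    apply Subtype.ext
    show x1 ^ (i % 3) * x2 ^ (j % 3) * x3 ^ (k % 3) = _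
    exact T_eq hc (by omega) (by omega) (by omega)
  rw [← Nat.card_congr (Equiv.ofBijective e ⟨hinj, hsurj⟩)]
  simp [Nat.card_eq_fintype_card]

/-- `|C_G(x1)| = 54`. -/
theorem card_cent (hc : Cfg3 T H x1 x2 x3 u1 u2 u3) :
    Nat.card (Subgroup.centralizer ({x1} : Set G)) = 54 := by
  let e : Fin 3 × Fin 3 × Fin 3 × Fin 2 → Subgroup.centralizer ({x1} : Set G) := fun p =>
    ⟨x1 ^ (p.1 : ℕ) * x2 ^ (p.2.1 : ℕ) * x3 ^ (p.2.2.1 : ℕ) * u1 ^ (p.2.2.2 : ℕ),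
      (mem_centralizer_x1_iff hc _).2 ⟨_, _, _, _, rfl⟩⟩
  have hinj : Function.Injective e := by
    rintro ⟨i, j, k, l⟩ ⟨i', j', k', l'⟩ h
    have h' : x1 ^ (i : ℕ) * x2 ^ (j : ℕ) * x3 ^ (k : ℕ) * u1 ^ (l : ℕ) =
        x1 ^ (i' : ℕ) * x2 ^ (j' : ℕ) * x3 ^ (k' : ℕ) * u1 ^ (l' : ℕ) :=
      congrArg Subtype.val h
    have h'' : x1 ^ (i : ℕ) * x2 ^ (j : ℕ) * x3 ^ (k : ℕ) * u1 ^ (l : ℕ) * u2 ^ 0 =
        x1 ^ (i' : ℕ) * x2 ^ (j' : ℕ) * x3 ^ (k' : ℕ) * u1 ^ (l' : ℕ) * u2 ^ 0 := by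
      rw [pow_zero, mul_one, mul_one]
      exact h'
    obtain ⟨h1, h2, h3, h4, -⟩ := nf_unique hc _ _ _ _ _ _ _ _ _ _ h''
    simp only [Prod.mk.injEq]
    refine ⟨Fin.ext ?_, Fin.ext ?_, Fin.ext ?_, Fin.ext ?_⟩
    · have := i.2; have := i'.2; omega
    · have := j.2; have := j'.2; omega
    · have := k.2; have := k'.2; omega
    · have := l.2; have := l'.2; omega
  have hsurj : Function.Surjective e := by
    rintro ⟨g, hg⟩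
    obtain ⟨i, j, k, l, rfl⟩ := (mem_centralizer_x1_iff hc g).1 hg
    refine ⟨(⟨i % 3, Nat.mod_lt _ (by norm_num)⟩, ⟨j % 3, Nat.mod_lt _ (by norm_num)⟩,
      ⟨k % 3, Nat.mod_lt _ (by norm_num)⟩, ⟨l % 2, Nat.mod_lt _ (by norm_num)⟩), ?_⟩
    apply Subtype.ext
    show x1 ^ (i % 3) * x2 ^ (j % 3) * x3 ^ (k % 3) * u1 ^ (l % 2) = _
    rw [← g_pow_mod3 hc.x13, ← g_pow_mod3 hc.x23, ← g_pow_mod3 hc.x33, ← g_pow_mod2 hc.u1sq]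
  rw [← Nat.card_congr (Equiv.ofBijective e ⟨hinj, hsurj⟩)]
  simp [Nat.card_eq_fintype_card]

end cfg

end Cfsg.Agent.Lib.Helper32.T3NF
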