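import Mathlib
import Cfsg.Agent.Lib.Helper32.T3Stmt
import Cfsg.Agent.Lib.Helper32.T3NF

/-!
# S3701: group-theoretic pieces TI, INV and the reduction lemma RED
-/

set_option autoImplicit false

namespace Cfsg.Agent.Lib.Helper32.T3Grp

open Cfsg
open Cfsg.Agent.Lib.Helper32.S9Stmt
open Cfsg.Agent.Lib.Helper32.T3Stmt
open Cfsg.Agent.Lib.Helper32.T3NF

universe u

variable {G : Type u} [Group G] {T H : Subgroup G} {x1 x2 x3 u1 u2 u3 : G}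

/-- TI. -/
theorem ti (hc : Cfg3 T H x1 x2 x3 u1 u2 u3) (g t : G) (ht : t ∈ T) (ht1 : t ≠ 1)
    (hgt : g * t * g⁻¹ ∈ T) : g ∈ H := by
  apply hc.norm
  intro s hs
  have hcomm : (g * s * g⁻¹) * (g * t * g⁻¹) = (g * t * g⁻¹) * (g * s * g⁻¹) := by
    have := T_comm hc hs ht
    calc (g * s * g⁻¹) * (g * t * g⁻¹) = g * (s * t) * g⁻¹ := by group
      _ = g * (t * s) * g⁻¹ := by rw [this]
      _ = _ := by group
  have hne : g * t * g⁻¹ ≠ 1 := by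
    intro h
    apply ht1
    calc t = g⁻¹ * (g * t * g⁻¹) * g := by group
      _ = 1 := by rw [h]; group
  have hN : g * s * g⁻¹ ∈ H := hc.loc _ hgt hne _ hcomm
  have h3 : (g * s * g⁻¹) ^ 3 = 1 := by
    rw [conj_pow, T_pow3 hc hs]
    group
  have h2 := sq_mem_T hc hN
  have : g * s * g⁻¹ = ((g * s * g⁻¹) ^ 2)⁻¹ := by
    rw [eq_inv_iff_mul_eq_one, ← pow_succ', h3]
  rw [this]
  exact T.inv_mem h2

theorem ti_piece : T3Stmt.TI.{u} := by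
  intro G _ _ T H x1 x2 x3 u1 u2 u3 hc g t ht ht1 hgt
  exact ti hc g t ht ht1 hgt

/-- INV. -/
theorem inv (hc : Cfg3 T H x1 x2 x3 u1 u2 u3) (u : G) (hu : u ∈ H) (hu2 : u ^ 2 = 1) :
    u = 1 ∨ (∃ t ∈ T, u = t * u1 * t⁻¹) ∨ (∃ t ∈ T, u = t * u2 * t⁻¹) ∨
      (∃ t ∈ T, u = t * u3 * t⁻¹) := by
  obtain ⟨i, j, k, l, m, rfl⟩ := (mem_H_iff hc u).1 hu
  rw [pow_two, prod_rule hc] at hu2
  have h0 : (1 : G) = x1 ^ 0 * x2 ^ 0 * x3 ^ 0 * u1 ^ 0 * u2 ^ 0 := by simp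
  rw [h0] at hu2
  obtain ⟨hi, hj, hk, -, -⟩ := nf_unique hc _ _ _ _ _ _ _ _ _ _ hu2
  by_cases hl : l % 2 = 0
  · by_cases hm : m % 2 = 0
    · left
      rw [h0]
      apply nf_eq hc <;> (split_ifs at hi hj hk <;> omega)
    · right; right; left
      refine ⟨x1 ^ (2 * i) * x2 ^ 0 * x3 ^ (2 * k), (hc.memT _).2 ⟨_, _, _, rfl⟩, ?_⟩
      rw [eq_mul_inv_iff_mul_eq]
      have key : (x1 ^ i * x2 ^ j * x3 ^ k * u1 ^ l * u2 ^ m) *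
          (x1 ^ (2 * i) * x2 ^ 0 * x3 ^ (2 * k) * u1 ^ 0 * u2 ^ 0) =
          x1 ^ (2 * i) * x2 ^ 0 * x3 ^ (2 * k) * u1 ^ 0 * u2 ^ 1 := by
        rw [prod_rule hc]
        apply nf_eq hc <;> (split_ifs at hi hj hk ⊢ <;> omega)
      simpa using key
  · by_cases hm : m % 2 = 0
    · right; left
      refine ⟨x1 ^ 0 * x2 ^ (2 * j) * x3 ^ (2 * k), (hc.memT _).2 ⟨_, _, _, rfl⟩, ?_⟩
      rw [eq_mul_inv_iff_mul_eq]
      have key : (x1 ^ i * x2 ^ j * x3 ^ k * u1 ^ l * u2 ^ m) *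
          (x1 ^ 0 * x2 ^ (2 * j) * x3 ^ (2 * k) * u1 ^ 0 * u2 ^ 0) =
          x1 ^ 0 * x2 ^ (2 * j) * x3 ^ (2 * k) * u1 ^ 1 * u2 ^ 0 := by
        rw [prod_rule hc]
        apply nf_eq hc <;> (split_ifs at hi hj hk ⊢ <;> omega)
      simpa using key
    · right; right; right
      refine ⟨x1 ^ (2 * i) * x2 ^ (2 * j) * x3 ^ 0, (hc.memT _).2 ⟨_, _, _, rfl⟩, ?_⟩
      rw [eq_mul_inv_iff_mul_eq, ← hc.u12]
      have key : (x1 ^ i * x2 ^ j * x3 ^ k * u1 ^ l * u2 ^ m) *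
          (x1 ^ (2 * i) * x2 ^ (2 * j) * x3 ^ 0 * u1 ^ 0 * u2 ^ 0) =
          x1 ^ (2 * i) * x2 ^ (2 * j) * x3 ^ 0 * u1 ^ 1 * u2 ^ 1 := by
        rw [prod_rule hc]
        apply nf_eq hc <;> (split_ifs at hi hj hk ⊢ <;> omega)
      simpa [mul_assoc] using key

theorem inv_piece : T3Stmt.INV.{u} := by
  intro G _ _ T H x1 x2 x3 u1 u2 u3 hc u hu hu2
  exact inv hc u hu hu2

/-- On the support of `phi`, squares lie in `T` and are nontrivial. -/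
theorem supp_sq (hc : Cfg3 T H x1 x2 x3 u1 u2 u3)
    (f : Subgroup.centralizer ({x1} : Set G) →* ℂˣ) (hf : Om3 x1 x2 x3 u1 f) {w : G}
    (hw : w ∈ Subgroup.centralizer ({x1} : Set G)) (hfw : f ⟨w, hw⟩ ≠ 1) :
    w ^ 2 ∈ T ∧ w ^ 2 ≠ 1 := by
  obtain ⟨i, j, k, l, rfl⟩ := (mem_centralizer_x1_iff hc w).1 hw
  have hx : x1 ∈ Subgroup.centralizer ({x1} : Set G) := x1_mem_cent
  rw [f_apply hc f hf i j k l hw hx] at hfw
  have hi : i % 3 ≠ 0 := by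
    intro h0
    apply hfw
    have h3 : (⟨x1, hx⟩ : Subgroup.centralizer ({x1} : Set G)) ^ 3 = 1 :=
      Subtype.ext (by simpa using hc.x13)
    rw [← Nat.div_add_mod i 3, h0, add_zero, pow_mul, ← map_pow, h3, map_one, one_pow]
  have e : (x1 ^ i * x2 ^ j * x3 ^ k * u1 ^ l) ^ 2 =
      x1 ^ (i + i) * x2 ^ (j + if l % 2 = 0 then j else 2 * j) *
        x3 ^ (k + if l % 2 = 0 then k else 2 * k) * u1 ^ (l + l) * u2 ^ 0 := by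
    have := prod_rule hc i j k l 0 i j k l 0
    simpa [pow_two] using this
  have eb : u1 ^ (l + l) = 1 := by rw [← two_mul, pow_mul, hc.u1sq, one_pow]
  constructor
  · rw [e, eb, pow_zero, mul_one, mul_one]
    exact (hc.memT _).2 ⟨_, _, _, rfl⟩
  · intro h1
    rw [e] at h1
    have h0 : (1 : G) = x1 ^ 0 * x2 ^ 0 * x3 ^ 0 * u1 ^ 0 * u2 ^ 0 := by simp
    rw [h0] at h1
    obtain ⟨h1', -, -, -, -⟩ := nf_unique hc _ _ _ _ _ _ _ _ _ _ h1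
    omega

/-- RED: if a product of two elements of order at most 2 lies in the support of `phi`,
both lie in `H`. -/
theorem red (hc : Cfg3 T H x1 x2 x3 u1 u2 u3)
    (f : Subgroup.centralizer ({x1} : Set G) →* ℂˣ) (hf : Om3 x1 x2 x3 u1 f) (v₁ v₂ : G)
    (h1 : v₁ ^ 2 = 1) (h2 : v₂ ^ 2 = 1)
    (h : ∃ h : v₁ * v₂ ∈ Subgroup.centralizer ({x1} : Set G), f ⟨v₁ * v₂, h⟩ ≠ 1) :
    v₁ ∈ H ∧ v₂ ∈ H := by
  obtain ⟨hw, hfw⟩ := h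
  obtain ⟨hT, hne⟩ := supp_sq hc f hf hw hfw
  have e1 : v₁⁻¹ = v₁ := by rw [inv_eq_iff_mul_eq_one, ← pow_two, h1]
  have e2 : v₂⁻¹ = v₂ := by rw [inv_eq_iff_mul_eq_one, ← pow_two, h2]
  have hu1 : v₁ ∈ H := by
    apply ti hc v₁ ((v₁ * v₂) ^ 2) hT hne
    have : v₁ * (v₁ * v₂) ^ 2 * v₁⁻¹ = ((v₁ * v₂) ^ 2)⁻¹ := by
      rw [pow_two, mul_inv_rev, mul_inv_rev, e1, e2]
      calc v₁ * (v₁ * v₂ * (v₁ * v₂)) * v₁ = (v₁ * v₁) * v₂ * v₁ * v₂ * v₁ := by group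
        _ = v₂ * v₁ * (v₂ * v₁) := by rw [← pow_two, h1, one_mul, mul_assoc]
    rw [this]
    exact T.inv_mem hT
  refine ⟨hu1, ?_⟩
  have hwN : v₁ * v₂ ∈ H :=
    hc.loc x1 (x1_mem_T hc) hc.ne1 _ (Subgroup.mem_centralizer_iff.1 hw x1 rfl).symm
  have : v₂ = v₁⁻¹ * (v₁ * v₂) := by group
  rw [this]
  exact H.mul_mem (H.inv_mem hu1) hwN

end Cfsg.Agent.Lib.Helper32.T3Grp
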