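import Mathlib
import Cfsg.Agent.Lib.Helper32.T3Stmt
import Cfsg.Agent.Lib.Helper32.T3Asm
import Cfsg.Agent.Lib.Helper32.T3Grp
import Cfsg.Agent.Lib.Helper49.S9EXCB
import Cfsg.Agent.Lib.Helper49.S9EXCNORM
import Cfsg.Agent.Lib.Helper49.S9GEN3
import Cfsg.Agent.Lib.Helper11.T3SYL
import Cfsg.Agent.Lib.Helper11.T3NCORE
import Cfsg.Agent.Lib.Helper11.T3NOFUS
import Cfsg.Agent.Lib.Helper11.T3KGRP
import Cfsg.Agent.Lib.Helper99.T3FIN
import Cfsg.Agent.Lib.Helper99.T3CFG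
import Cfsg.Agent.Lib.Helper52.T3KB
import Cfsg.Agent.Lib.Helper52.T3EXC3
import Cfsg.Agent.Lib.Helper52.T3EXCINV
import Cfsg.Agent.Lib.Helper15.T3OMEGA
import Cfsg.Agent.Lib.Helper15.T3PRODVAN

/-!
# S3701: all pieces put together
-/

set_option autoImplicit false

namespace Cfsg.Agent.Lib.Helper32.T3Final

open Cfsg
open Cfsg.Agent.Lib.Helper32

universe u

/-- The statement S3701 (in universe `u`). -/
theorem full {G : Type u} [Group G] [Finite G] (H : Subgroup G)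
    (hH : Nonempty (↥H ≃* ↥(Subgroup.closure ({Equiv.swap (0 : Fin 9) 1 * Equiv.swap 1 2,
        Equiv.swap (3 : Fin 9) 4 * Equiv.swap 4 5, Equiv.swap (6 : Fin 9) 7 * Equiv.swap 7 8,
        Equiv.swap (0 : Fin 9) 1 * Equiv.swap 3 4,
        Equiv.swap (0 : Fin 9) 1 * Equiv.swap 6 7} : Set (Equiv.Perm (Fin 9))))))
    (T : Subgroup G) (hTH : T ≤ H) (hT : Nat.card T = 27)
    (hN : Subgroup.normalizer (T : Set G) = H)
    (hC : ∀ t ∈ T, t ≠ 1 → Subgroup.centralizer ({t} : Set G) ≤ H) : H = ⊤ :=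
  have hEXC3 : T3Stmt.EXC3.{u} := Cfsg.Agent.Lib.Helper52.T3EXC3.main T3Grp.ti_piece
  have hPRODVAN : T3Stmt.PRODVAN.{u} :=
    Cfsg.Agent.Lib.Helper15.T3PRODVAN.main T3Grp.ti_piece T3Grp.inv_piece
  T3Asm.final (Cfsg.Agent.Lib.Helper99.T3CFG.main Cfsg.Agent.Lib.Helper11.T3SYL.main)
    Cfsg.Agent.Lib.Helper49.S9EXCB.main Cfsg.Agent.Lib.Helper49.S9EXCNORM.main
    Cfsg.Agent.Lib.Helper49.S9GEN3.main Cfsg.Agent.Lib.Helper15.T3OMEGA.main hEXC3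
    Cfsg.Agent.Lib.Helper11.T3NOFUS.main
    (Cfsg.Agent.Lib.Helper52.T3KB.main Cfsg.Agent.Lib.Helper52.T3EXCINV.main hEXC3 hPRODVAN)
    Cfsg.Agent.Lib.Helper11.T3KGRP.main
    (Cfsg.Agent.Lib.Helper99.T3FIN.main Cfsg.Agent.Lib.Helper11.T3NCORE.main)
    H hH T hTH hT hN hC

end Cfsg.Agent.Lib.Helper32.T3Final
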